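import Mathlib
import Cfsg.Agent.Herm.SU
import Cfsg.Agent.Herm.Iso
import Cfsg.Agent.Herm.Matrix

/-! Involutions of `SU_3(q)`, `q` odd, and their commuting graph. -/

set_option autoImplicit false
set_option linter.unusedSectionVars false
set_option backward.isDefEq.respectTransparency false

namespace Cfsg.Agent.Spc.U3I

open Module Cfsg.Agent.Herm

variable {F V : Type*} [Field F] [AddCommGroup V] [Module F V] [FiniteDimensional F V]
  {σ : F →+* F} {B : V →ₛₗ[σ] V →ₗ[F] F} [Finite F] {q : ℕ}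

/-- a parametrisation of the involutions by unit vectors -/
structure IT (B : V →ₛₗ[σ] V →ₗ[F] F) {G : Type*} [Group G] (T : V → G) : Prop where
  surj : ∀ x : G, x ≠ 1 → x * x = 1 → ∃ v, B v v = 1 ∧ x = T v
  inv : ∀ v, B v v = 1 → T v ≠ 1 ∧ T v * T v = 1
  eq : ∀ v w, B v v = 1 → B w w = 1 → (T v = T w ↔ ∃ a : F, w = a • v)
  comm : ∀ v w, B v v = 1 → B w w = 1 → (Commute (T v) (T w) ↔ B v w = 0 ∨ T v = T w)
  conj : ∀ v w, B v v = 1 → B w w = 1 → ∃ g, g * T v * g⁻¹ = T w

theorem exists_T (hB : HF B) (hn : finrank F V = 3) (v : V) :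
    ∃ t : SUG B, B v v = 1 → ∀ x, t.1.1 x = (2 * B v x) • v - x := by
  by_cases hv : B v v = 1
  · have hc : (-2 : F) + σ (-2) + -2 * σ (-2) * B v v = 0 := by
      rw [hv, map_neg, map_ofNat]; ring
    refine ⟨⟨scal B ⟨-1, by simp [mem_normOne]⟩ * hB.qr v (-2), ?_⟩, fun _ x => ?_⟩
    · rw [mem_SUG, map_mul, Units.val_mul, hB.detU_qr hc, detU_scal, hn, hv]
      simp; ring
    · show (scal B _ * hB.qr v (-2)).1 x = _
      rw [UG.mul_apply, hB.qr_apply hc, scal_apply]
      simp only [Units.val_neg, Units.val_one]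
      module
  · exact ⟨1, fun h => absurd h hv⟩

theorem exists_unit_fix (hB : HF B) (hn : finrank F V = 3) (h2 : (2 : F) ≠ 0) {t : SUG B}
    (ht : t ≠ 1) (ht2 : t * t = 1) : ∃ v, B v v = 1 ∧ ∀ x, t.1.1 x = (2 * B v x) • v - x := by
  have htt : ∀ x, t.1.1 (t.1.1 x) = x := fun x => by
    rw [← UG.mul_apply, ← Subgroup.coe_mul, ht2]; rfl
  let P : V →ₗ[F] V := (t.1.1 : V →ₗ[F] V) + LinearMap.id
  have hP : ∀ x, P x = t.1.1 x + x := fun _ => rfl
  have h1 : finrank F (LinearMap.range P) + finrank F (mov t.1) ≤ 3 := by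
    rw [← Submodule.finrank_sup_add_finrank_inf_eq, ← hn]
    have : LinearMap.range P ⊓ mov t.1 = ⊥ := by
      rw [eq_bot_iff]
      rintro _ ⟨⟨x, rfl⟩, h⟩
      obtain ⟨y, hy⟩ := mem_mov.1 h
      have e1 : t.1.1 (P x) = P x := by rw [hP, map_add, htt, add_comm]
      have e2 : t.1.1 (P x) = - P x := by rw [← hy, map_sub, htt, neg_sub]
      rw [Submodule.mem_bot]
      refine (smul_eq_zero.1 ?_).resolve_left h2
      rw [two_smul]
      nth_rewrite 1 [← e1]
      rw [e2, neg_add_cancel]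
    rw [this, finrank_bot, add_zero]
    exact Submodule.finrank_le _
  have h3 : 2 ≤ finrank F (mov t.1) := by
    by_contra h
    have h0 : finrank F (mov t.1) ≠ 0 := by
      intro e
      rw [Submodule.finrank_eq_zero] at e
      refine ht (Subtype.ext (UG.ext fun x => ?_))
      have : t.1.1 x - x ∈ mov t.1 := mem_mov.2 ⟨x, rfl⟩
      rw [e, Submodule.mem_bot, sub_eq_zero] at this
      exact this
    obtain ⟨v, c, hv, hc0, hc, e⟩ := hB.exists_qr_of_finrank_mov (g := t.1) (by omega)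
    have hd := mem_SUG.1 t.2
    rw [e, hB.detU_qr hc, add_eq_left] at hd
    obtain ⟨x, hx⟩ := hB.exists_b_eq hv 1
    have := htt x
    rw [e, hB.qr_apply hc, hB.qr_apply hc, map_add, map_smul, hx, smul_eq_mul, mul_one, hd,
      add_zero, mul_one, add_assoc, add_eq_left, ← add_smul, ← two_mul, smul_eq_zero] at this
    exact this.elim (mul_ne_zero h2 hc0) hv
  have h4 : LinearMap.range P ≠ ⊥ := by
    intro e
    have hd := mem_SUG.1 t.2
    have : (t.1.1 : V →ₗ[F] V) = (-1 : F) • LinearMap.id := by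
      ext x
      have : P x ∈ LinearMap.range P := ⟨x, rfl⟩
      rw [e, Submodule.mem_bot, hP] at this
      simpa using eq_neg_of_add_eq_zero_left this
    rw [detU_apply, this, LinearMap.det_smul, hn, LinearMap.det_id] at hd
    exact h2 (by linear_combination -hd)
  obtain ⟨v, hv, hv0⟩ := (Submodule.ne_bot_iff _).1 h4
  have h5 : LinearMap.range P = Submodule.span F {v} :=
    (Submodule.eq_of_le_of_finrank_le ((Submodule.span_singleton_le_iff_mem _ _).2 hv)
      (by rw [finrank_span_singleton hv0]; omega)).symm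
  have h6 : t.1.1 v = v := by
    obtain ⟨x, rfl⟩ := hv
    rw [hP, map_add, htt, add_comm]
  have h7 : ∀ x, B v (P x) = 2 * B v x := fun x => by
    rw [hP, map_add]
    nth_rewrite 1 [← h6]
    rw [UG.map_b, two_mul]
  have h8 : B v v ≠ 0 := fun e => hv0 (hB.nd v fun x => by
    obtain ⟨c, hc⟩ := Submodule.mem_span_singleton.1 (h5.le (LinearMap.mem_range_self P x))
    have := h7 x
    rw [← hc, map_smul, e, smul_zero] at this
    exact (mul_eq_zero.1 this.symm).resolve_left h2)
  obtain ⟨a, ha⟩ := hB.exists_smul_norm h8 (c := 1) (map_one σ)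
  refine ⟨a • v, ha, fun x => ?_⟩
  obtain ⟨c, hc⟩ := Submodule.mem_span_singleton.1 (h5.le (LinearMap.mem_range_self P x))
  have h9 := h7 x
  rw [← hc, map_smul, smul_eq_mul] at h9
  rw [b_smul_left, map_smul, smul_eq_mul] at ha
  rw [eq_sub_iff_add_eq, ← hP, ← hc, smul_smul, b_smul_left]
  congr 1
  linear_combination (-c) * ha + (σ a * a) * h9

theorem exists_IT (hB : HF B) (hn : finrank F V = 3) (h2 : (2 : F) ≠ 0) {G : Type*} [Group G]
    (e : G ≃* SUG B) : ∃ T : V → G, IT B T := by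
  choose t ht using exists_T hB hn
  have ext : ∀ {a b : SUG B}, (∀ x, a.1.1 x = b.1.1 x) → a = b := fun h => Subtype.ext (UG.ext h)
  have mul : ∀ (a b : SUG B) x, (a * b).1.1 x = a.1.1 (b.1.1 x) := fun _ _ _ => rfl
  have heq : ∀ v w, B v v = 1 → B w w = 1 → (t v = t w ↔ ∃ a : F, w = a • v) := by
    intro v w hv hw
    constructor
    · intro h
      have := ht v hv w
      rw [h, ht w hw, hw, sub_left_inj, mul_one, mul_smul] at this
      exact ⟨_, smul_right_injective V h2 this⟩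
    · rintro ⟨a, rfl⟩
      refine ext fun x => ?_
      rw [ht v hv, ht _ hw, b_smul_left, smul_smul]
      rw [b_smul_left, map_smul, smul_eq_mul, hv, mul_one] at hw
      congr 2
      linear_combination (-2 * B v x) * hw
  refine ⟨fun v => e.symm (t v), fun x hx hx2 => ?_, fun v hv => ⟨fun h => ?_, ?_⟩,
    fun v w hv hw => ?_, fun v w hv hw => ?_, fun v w hv hw => ?_⟩
  · obtain ⟨v, hv, h⟩ := exists_unit_fix hB hn h2 (t := e x) (by simpa using hx)
      (by rw [← map_mul, hx2, map_one])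
    exact ⟨v, hv, by rw [MulEquiv.eq_symm_apply]; exact ext fun y => by rw [h, ht v hv]⟩
  · rw [MulEquiv.map_eq_one_iff] at h
    have hv0 := ne_zero_of_b (hv.trans_ne one_ne_zero)
    have h3 := hB.finrank_perp_singleton hv0
    have : Nontrivial (perp B (Submodule.span F {v})) := Module.nontrivial_of_finrank_pos (R := F)
      (by omega)
    obtain ⟨⟨x, hx⟩, hx0⟩ := exists_ne (0 : perp B (Submodule.span F {v}))
    have h4 := ht v hv x
    rw [h, mem_perp_singleton.1 hx, mul_zero, zero_smul, zero_sub] at h4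
    refine hx0 (Subtype.ext ((smul_eq_zero.1 ?_).resolve_left h2))
    rw [two_smul]
    exact add_eq_zero_iff_eq_neg.2 h4
  · rw [← map_mul, MulEquiv.map_eq_one_iff]
    refine ext fun x => ?_
    rw [mul, ht v hv, ht v hv, map_sub, map_smul, hv]
    show _ = x
    simp only [smul_eq_mul]
    module
  · rw [e.symm.injective.eq_iff]; exact heq v w hv hw
  · rw [commute_map_iff e.symm.injective, e.symm.injective.eq_iff]
    constructor
    · intro h
      by_contra hc
      push Not at hc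
      have h3 := congrArg (fun a : SUG B => a.1.1 w) h.eq
      simp only [mul, ht v hv, ht w hw, map_sub, map_smul, hw, smul_eq_mul] at h3
      refine hc.2 ((heq w v hw hv).2 ⟨B w v, ?_⟩).symm
      refine smul_right_injective V (mul_ne_zero (mul_ne_zero h2 h2) hc.1) ?_
      linear_combination (norm := module) h3
    · rintro (h | h)
      · refine ext fun x => ?_
        simp only [mul, ht v hv, ht w hw, map_sub, map_smul, h, hB.zero_symm h, smul_eq_mul]
        module
      · rw [h]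
  · obtain ⟨g, hg, h⟩ := hB.SUG_trans (by omega) (hv.trans_ne one_ne_zero) (hv.trans hw.symm)
    refine ⟨e.symm ⟨g, hg⟩, ?_⟩
    rw [← map_inv, ← map_mul, ← map_mul]
    congr 1
    refine ext fun x => ?_
    show g.1 ((t v).1.1 ((g⁻¹).1 x)) = _
    rw [ht v hv, ht w hw, map_sub, map_smul, UG.apply_inv_self, UG.b_inv_right, h]

variable {G : Type*} [Group G] [Finite G] {T : V → G} (h : IT B T) (hB : HF B)
  (hF : Nat.card F = q ^ 2) (hn : finrank F V = 3)

include h hB hF in
theorem IT.count (P : G → Prop) : Nat.card {v // B v v = 1 ∧ P (T v)} =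
    (q + 1) * Nat.card {x : G // x ≠ 1 ∧ x * x = 1 ∧ P x} := by
  classical
  have : Finite V := Module.finite_of_finite F
  have := Fintype.ofFinite {x : G // x ≠ 1 ∧ x * x = 1 ∧ P x}
  rw [card_eq_sum_fibers (fun v : {v // B v v = 1 ∧ P (T v)} =>
    (⟨T v.1, (h.inv _ v.2.1).1, (h.inv _ v.2.1).2, v.2.2⟩ : {x : G // x ≠ 1 ∧ x * x = 1 ∧ P x})),
    Finset.sum_congr rfl (g := fun _ => q + 1), Finset.sum_const, Finset.card_univ,
    Nat.card_eq_fintype_card, smul_eq_mul, mul_comm]
  rintro ⟨x, h1, h2, h3⟩ -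
  obtain ⟨v, hv, rfl⟩ := h.surj x h1 h2
  have hv0 := ne_zero_of_b (hv.trans_ne one_ne_zero)
  rw [← hB.toInv.card_norm hF one_ne_zero (map_one σ)]
  symm
  have key : ∀ a : F, B (a • v) (a • v) = σ a * a := fun a => by
    rw [b_smul_left, map_smul, smul_eq_mul, hv, mul_one]
  refine Nat.card_congr (Equiv.ofBijective (fun a => ⟨⟨a.1 • v, (key _).trans a.2,
    (h.eq v _ hv ((key _).trans a.2)).2 ⟨a.1, rfl⟩ ▸ h3⟩,
    Subtype.ext ((h.eq v _ hv ((key _).trans a.2)).2 ⟨a.1, rfl⟩).symm⟩) ⟨fun a b e => ?_, ?_⟩)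
  · exact Subtype.ext (smul_left_injective F hv0 (congrArg (fun z => z.1.1) e))
  · rintro ⟨⟨w, hw, hw'⟩, e⟩
    obtain ⟨a, rfl⟩ := (h.eq v w hv hw).1 (congrArg Subtype.val e).symm
    exact ⟨⟨a, (key a).symm.trans hw⟩, rfl⟩

theorem card_sub (W : Submodule F V) (c : F) :
    Nat.card {v // B v v = c ∧ v ∈ W} = nv (res B W) c :=
  Nat.card_congr ⟨fun v => ⟨⟨v.1, v.2.2⟩, v.2.1⟩, fun v => ⟨v.1.1, v.2, v.1.2⟩,
    fun _ => rfl, fun _ => rfl⟩

include h hB hF hn in
theorem IT.total : Nat.card {x : G // x ≠ 1 ∧ x * x = 1} = q ^ 2 * (q ^ 2 - q + 1) := by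
  have h1 := h.count hB hF fun _ => True
  have h2 := hB.nv_one hF
  have hq := two_le_of_card hF
  simp only [and_true] at h1
  rw [nv, h1, hn] at h2
  have : q ≤ q ^ 2 := Nat.le_self_pow two_ne_zero q
  zify [this]
  refine mul_left_cancel₀ (a := (q : ℤ) * (q + 1)) (by positivity) ?_
  push_cast at h2
  linear_combination h2

include h in
theorem IT.ne_of_orth {v w : V} (hv : B v v = 1) (hw : B w w = 1) (e : B v w = 0) : T w ≠ T v := by
  intro e'
  obtain ⟨a, rfl⟩ := (h.eq v w hv hw).1 e'.symm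
  rw [map_smul, hv, smul_eq_mul, mul_one] at e
  rw [e] at hw
  simp at hw

include h hB hF hn in
theorem IT.one {v : V} (hv : B v v = 1) :
    Nat.card {x : G // x ≠ 1 ∧ x * x = 1 ∧ x ≠ T v ∧ Commute (T v) x} = q * (q - 1) := by
  have h1 := h.count hB hF fun x => x ≠ T v ∧ Commute (T v) x
  have hv1 := hv.trans_ne one_ne_zero
  have h2 := (hB.res_perp_singleton hv1).nv_one hF
  have h3 := hB.finrank_perp_singleton (ne_zero_of_b hv1)
  have hq := two_le_of_card hF
  rw [← card_sub, show finrank F (perp B (Submodule.span F {v})) = 2 by omega,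
    Nat.card_congr (Equiv.subtypeEquivRight (q := fun w => B w w = 1 ∧ T w ≠ T v ∧ Commute (T v) (T w))
      fun w => and_congr_right fun hw => ?_), h1] at h2
  · zify [show 1 ≤ q by omega]
    refine mul_left_cancel₀ (a := (q : ℤ) * (q + 1)) (by positivity) ?_
    push_cast at h2
    linear_combination h2
  · rw [mem_perp_singleton, h.comm v w hv hw]
    exact ⟨fun e => ⟨h.ne_of_orth hv hw e, Or.inl e⟩, fun e => e.2.resolve_right e.1.symm⟩

include h hB hF hn in
theorem IT.third {v w : V} (hv : B v v = 1) (hw : B w w = 1) (hvw : B v w = 0) :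
    Nat.card {y : G // y ≠ 1 ∧ y * y = 1 ∧ y ≠ T v ∧ y ≠ T w ∧ Commute (T v) y ∧ Commute (T w) y}
      = 1 := by
  have h1 := h.count hB hF fun y => y ≠ T v ∧ y ≠ T w ∧ Commute (T v) y ∧ Commute (T w) y
  have hwv := hB.zero_symm hvw
  have h4 : Submodule.span F {v, w} ⊓ perp B (Submodule.span F {v, w}) = ⊥ := by
    rw [eq_bot_iff]
    rintro x ⟨hx, hx'⟩
    obtain ⟨a, b, rfl⟩ := Submodule.mem_span_pair.1 hx
    obtain ⟨e1, e2⟩ := mem_perp_pair.1 hx'
    simp only [map_add, map_smul, hv, hw, hvw, hwv, smul_eq_mul, mul_one, mul_zero, add_zero,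
      zero_add] at e1 e2
    simp [e1, e2]
  have h5 : finrank F (Submodule.span F ({v, w} : Set V)) = 2 := by
    have := finrank_span_eq_card (linearIndependent_of_orthonormal (B := B) (b := ![v, w])
      fun i j => by fin_cases i <;> fin_cases j <;> simp [hv, hw, hvw, hwv])
    rwa [Matrix.range_cons_cons_empty] at this
  have h2 := (hB.res_perp h4).nv_one hF
  have h3 := hB.finrank_perp_add (Submodule.span F {v, w})
  have hq := two_le_of_card hF
  rw [← card_sub, show finrank F (perp B (Submodule.span F {v, w})) = 1 by omega,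
    Nat.card_congr (Equiv.subtypeEquivRight (q := fun u => B u u = 1 ∧ T u ≠ T v ∧ T u ≠ T w ∧
      Commute (T v) (T u) ∧ Commute (T w) (T u)) fun u => and_congr_right fun hu => ?_), h1] at h2
  · zify
    refine mul_left_cancel₀ (a := (q : ℤ) * (q + 1)) (by positivity) ?_
    push_cast at h2
    linear_combination h2
  · rw [mem_perp_pair, h.comm v u hv hu, h.comm w u hw hu]
    exact ⟨fun e => ⟨h.ne_of_orth hv hu e.1, h.ne_of_orth hw hu e.2, Or.inl e.1, Or.inl e.2⟩,
      fun e => ⟨e.2.2.1.resolve_right e.1.symm, e.2.2.2.resolve_right e.2.1.symm⟩⟩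

include h hB hF hn in
theorem IT.cent (hG : Nat.card G = Nat.card (SUG B)) {v : V} (hv : B v v = 1) :
    Nat.card (Subgroup.centralizer ({T v} : Set G)) = q * (q + 1) * (q ^ 2 - 1) := by
  have : Nontrivial V := Module.nontrivial_of_finrank_pos (R := F) (by omega)
  have h1 := card_eq_orbit_mul_stabilizer (ConjAct G) (T v)
  have h2 : Nat.card (MulAction.orbit (ConjAct G) (T v)) = q ^ 2 * (q ^ 2 - q + 1) := by
    rw [← h.total hB hF hn]
    refine Nat.card_congr (Equiv.subtypeEquivRight fun x => ⟨?_, fun hx => ?_⟩)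
    · rintro ⟨g, rfl⟩
      simp only [ConjAct.smul_def]
      refine ⟨fun e => (h.inv v hv).1 (by simpa using e), ?_⟩
      rw [conj_mul, (h.inv v hv).2]; simp
    · obtain ⟨w, hw, rfl⟩ := h.surj x hx.1 hx.2
      obtain ⟨g, hg⟩ := h.conj v w hv hw
      exact ⟨ConjAct.toConjAct g, hg⟩
  rw [h2, ← Subgroup.nat_card_centralizer_nat_card_stabilizer,
    Nat.card_congr ConjAct.ofConjAct.toEquiv, hG] at h1
  have h3 := hB.card_SUG hF
  have h4 := hB.card_UG_int hF hn
  rw [← h3, h1] at h4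
  have hq := two_le_of_card hF
  have h5 : q ≤ q ^ 2 := Nat.le_self_pow two_ne_zero q
  zify [show 1 ≤ q ^ 2 by omega]
  have h6 : (0 : ℤ) < q ^ 2 - q + 1 := by
    have : (q : ℤ) ≤ q ^ 2 := by exact_mod_cast h5
    omega
  refine mul_left_cancel₀ (a := ((q : ℤ) + 1) * (q ^ 2 * (q ^ 2 - q + 1))) (by positivity) ?_
  simp only [Finset.prod_range_succ, Finset.prod_range_zero] at h4
  push_cast [h5] at h4
  linear_combination h4

include hB in
theorem res_norm {v : V} (hv : B v v = 1) (w : V) :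
    B (w - B v w • v) (w - B v w • v) = B w w - σ (B v w) * B v w := by
  rw [b_sub_left, b_smul_left, map_sub, map_sub, map_smul, map_smul, hv, ← hB.symm v w]
  simp only [smul_eq_mul]; ring

include hB hn in
theorem exists_nbr {v w : V} (hv : B v v = 1) (hw : B w w ≠ σ (B v w) * B v w) :
    ∃ u, B u u = 1 ∧ B v u = 0 ∧ B w u = 0 := by
  have hv1 := hv.trans_ne one_ne_zero
  have hW := hB.res_perp_singleton hv1
  have h3 := hB.finrank_perp_singleton (ne_zero_of_b hv1)
  let r : perp B (Submodule.span F {v}) := ⟨w - B v w • v, mem_perp_singleton.2 (by simp [hv])⟩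
  have hr : res B _ r r ≠ 0 := by
    show B (w - B v w • v) (w - B v w • v) ≠ 0
    rw [res_norm hB hv]
    exact sub_ne_zero.2 hw
  have h4 := hW.finrank_perp_singleton (ne_zero_of_b hr)
  have : Nontrivial (perp (res B _) (Submodule.span F {r})) :=
    Module.nontrivial_of_finrank_pos (R := F) (by omega)
  obtain ⟨⟨⟨u, hu1⟩, hu2⟩, hu⟩ := (hW.res_perp_singleton hr).exists_norm_eq (map_one σ)
  have h5 := mem_perp_singleton.1 hu1
  have h6 : B (w - B v w • v) u = 0 := (mem_perp_singleton (B := res B _)).1 hu2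
  rw [b_sub_left, b_smul_left, h5, mul_zero, sub_zero] at h6
  exact ⟨u, hu, h5, h6⟩

include hB hn in
theorem no_nbr {v r u : V} (hv : B v v = 1) (hr : r ≠ 0) (hrr : B r r = 0) (hvr : B v r = 0)
    (h1 : B v u = 0) (h2 : B r u = 0) : B u u = 0 := by
  have hv1 := hv.trans_ne one_ne_zero
  have hW := hB.res_perp_singleton hv1
  have h3 := hB.finrank_perp_singleton (ne_zero_of_b hv1)
  let r' : perp B (Submodule.span F {v}) := ⟨r, mem_perp_singleton.2 hvr⟩
  have hr' : r' ≠ 0 := fun e => hr (congrArg Subtype.val e)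
  have h4 := hW.finrank_perp_singleton hr'
  have h5 : Submodule.span F {r'} = perp (res B _) (Submodule.span F {r'}) :=
    Submodule.eq_of_le_of_finrank_le ((Submodule.span_singleton_le_iff_mem _ _).2
      (mem_perp_singleton.2 hrr)) (by rw [finrank_span_singleton hr']; omega)
  have h6 : (⟨u, mem_perp_singleton.2 h1⟩ : perp B (Submodule.span F {v})) ∈
      Submodule.span F {r'} := h5 ▸ mem_perp_singleton.2 h2
  obtain ⟨c, hc⟩ := Submodule.mem_span_singleton.1 h6
  have : c • r = u := congrArg Subtype.val hc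
  rw [← this, b_smul_left, map_smul, hrr]; simp

include h hB hn in
theorem IT.far_iff {v w : V} (hv : B v v = 1) (hw : B w w = 1) :
    (¬ Commute (T v) (T w) ∧ ∀ y : G, y ≠ 1 → y * y = 1 → ¬ (Commute (T v) y ∧ Commute y (T w))) ↔
      σ (B v w) * B v w = 1 ∧ w - B v w • v ≠ 0 := by
  constructor
  · rintro ⟨h1, h2⟩
    refine ⟨?_, fun e => h1 ((h.comm v w hv hw).2 (Or.inr ((h.eq v w hv hw).2
      ⟨_, sub_eq_zero.1 e⟩)))⟩
    by_contra hc
    obtain ⟨u, hu, e1, e2⟩ := exists_nbr hB hn hv (w := w) (by rw [hw]; exact Ne.symm hc)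
    exact h2 _ (h.inv u hu).1 (h.inv u hu).2 ⟨(h.comm v u hv hu).2 (Or.inl e1),
      ((h.comm w u hw hu).2 (Or.inl e2)).symm⟩
  · rintro ⟨h1, h2⟩
    have h3 : ¬ Commute (T v) (T w) := by
      rw [h.comm v w hv hw]
      rintro (e | e)
      · rw [e] at h1; simp at h1
      · obtain ⟨a, rfl⟩ := (h.eq v w hv hw).1 e
        simp [hv] at h2
    refine ⟨h3, fun y hy hy2 ⟨c1, c2⟩ => ?_⟩
    obtain ⟨u, hu, rfl⟩ := h.surj y hy hy2
    rcases (h.comm v u hv hu).1 c1 with e1 | e1
    · rcases (h.comm w u hw hu).1 c2.symm with e2 | e2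
      · refine one_ne_zero (hu.symm.trans (no_nbr hB hn hv h2 ?_ (by simp [hv]) e1 ?_))
        · rw [res_norm hB hv, hw, h1, sub_self]
        · rw [b_sub_left, b_smul_left, e1, e2]; simp
      · exact h3 (e2 ▸ c1)
    · exact h3 (e1 ▸ c2)

include h hB hF hn in
theorem IT.three {v : V} (hv : B v v = 1) :
    Nat.card {x : G // x ≠ 1 ∧ x * x = 1 ∧ ¬ Commute (T v) x ∧
      ∀ y : G, y ≠ 1 → y * y = 1 → ¬ (Commute (T v) y ∧ Commute y x)} = (q + 1) * (q ^ 2 - 1) := by
  have : Finite V := Module.finite_of_finite F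
  have h1 := h.count hB hF fun x => ¬ Commute (T v) x ∧
    ∀ y : G, y ≠ 1 → y * y = 1 → ¬ (Commute (T v) y ∧ Commute y x)
  have hv1 := hv.trans_ne one_ne_zero
  have h2 := (hB.res_perp_singleton hv1).nv_zero hF
  have h3 := hB.finrank_perp_singleton (ne_zero_of_b hv1)
  have hq := two_le_of_card hF
  rw [← card_sub, show finrank F (perp B (Submodule.span F {v})) = 2 by omega] at h2
  have h4 : Nat.card {r // B r r = 0 ∧ r ∈ perp B (Submodule.span F {v})} =
      Nat.card {r // r ≠ 0 ∧ B r r = 0 ∧ B v r = 0} + 1 := by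
    rw [← Nat.card_unique (α := Unit), ← Nat.card_sum]
    symm
    refine Nat.card_congr (Equiv.ofBijective (Sum.elim (fun r => ⟨r.1, r.2.2.1,
      mem_perp_singleton.2 r.2.2.2⟩) fun _ => ⟨0, by simp, zero_mem _⟩) ⟨?_, ?_⟩)
    · rintro (a | a) (b | b) e
      · exact congrArg _ (Subtype.ext (congrArg (fun z => z.1) e))
      · exact absurd (congrArg Subtype.val e) a.2.1
      · exact absurd (congrArg Subtype.val e).symm b.2.1
      · rfl
    · rintro ⟨r, hr, hr'⟩
      by_cases e : r = 0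
      · exact ⟨Sum.inr (), Subtype.ext e.symm⟩
      · exact ⟨Sum.inl ⟨r, e, hr, mem_perp_singleton.1 hr'⟩, rfl⟩
  have h5 : Nat.card {w // B w w = 1 ∧ σ (B v w) * B v w = 1 ∧ w - B v w • v ≠ 0} =
      (q + 1) * Nat.card {r // r ≠ 0 ∧ B r r = 0 ∧ B v r = 0} := by
    rw [← hB.toInv.card_norm hF one_ne_zero (map_one σ), ← Nat.card_prod]
    refine Nat.card_congr ⟨fun w => ⟨⟨B v w.1, w.2.2.1⟩, ⟨w.1 - B v w.1 • v, w.2.2.2, ?_, ?_⟩⟩,
      fun x => ⟨x.1.1 • v + x.2.1, ?_, ?_, ?_⟩, fun w => ?_, fun x => ?_⟩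
    · rw [res_norm hB hv, w.2.1, w.2.2.1, sub_self]
    · simp [hv]
    · rw [b_add_left, b_smul_left, map_add, map_add, map_smul, map_smul, hv, x.2.2.2.1, x.2.2.2.2,
        hB.zero_symm x.2.2.2.2]
      simp only [smul_eq_mul]
      linear_combination x.1.2
    · simpa [hv, x.2.2.2.2] using x.1.2
    · simpa [hv, x.2.2.2.2] using x.2.2.1
    · simp
    · ext <;> simp [hv, x.2.2.2.2]
  rw [Nat.card_congr (Equiv.subtypeEquivRight fun w => and_congr_right fun hw =>
    h.far_iff hB hn hv hw), h5] at h1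
  rw [← Nat.eq_of_mul_eq_mul_left (by omega) h1]
  rw [h4] at h2
  zify [show 1 ≤ q ^ 2 from Nat.one_le_pow _ _ (by omega)]
  refine mul_left_cancel₀ (a := (q : ℤ)) (by positivity) ?_
  push_cast at h2
  linear_combination h2

omit [Group G] in
theorem card_split (P Q : G → Prop) :
    Nat.card {x // P x} = Nat.card {x // P x ∧ Q x} + Nat.card {x // P x ∧ ¬ Q x} := by
  classical
  rw [← Nat.card_sum, ← Nat.card_congr (Equiv.sumCompl fun x : {x // P x} => Q x.1)]
  exact Nat.card_congr (Equiv.sumCongr (Equiv.subtypeSubtypeEquivSubtypeInter _ _)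
    (Equiv.subtypeSubtypeEquivSubtypeInter _ fun x => ¬ Q x))

include h hB hF hn in
theorem IT.two {v : V} (hv : B v v = 1) :
    Nat.card {x : G // x ≠ 1 ∧ x * x = 1 ∧ ¬ Commute (T v) x ∧
      ∃ y : G, y ≠ 1 ∧ y * y = 1 ∧ Commute (T v) y ∧ Commute y x} = q * (q - 2) * (q ^ 2 - 1) := by
  have h0 := h.total hB hF hn
  have h1 := h.one hB hF hn hv
  have h3 := h.three hB hF hn hv
  rw [card_split _ fun x => Commute (T v) x, card_split _ fun x => x = T v,
    card_split (fun x => (x ≠ 1 ∧ x * x = 1) ∧ ¬ Commute (T v) x)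
      fun x => ∃ y : G, y ≠ 1 ∧ y * y = 1 ∧ Commute (T v) y ∧ Commute y x] at h0
  have e1 : Nat.card {x // ((x ≠ 1 ∧ x * x = 1) ∧ Commute (T v) x) ∧ x = T v} = 1 := by
    rw [Nat.card_eq_one_iff_exists]
    exact ⟨⟨T v, ⟨h.inv v hv, Commute.refl _⟩, rfl⟩, fun x => Subtype.ext x.2.2⟩
  rw [e1, Nat.card_congr (Equiv.subtypeEquivRight (q := fun x => x ≠ 1 ∧ x * x = 1 ∧ x ≠ T v ∧
      Commute (T v) x) fun x => by tauto), h1,
    Nat.card_congr (Equiv.subtypeEquivRight (p := fun x => _ ∧ ∃ y : G, _)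
      (q := fun x => x ≠ 1 ∧ x * x = 1 ∧ ¬ Commute (T v) x ∧ ∃ y : G, y ≠ 1 ∧ y * y = 1 ∧ Commute (T v) y ∧ Commute y x)
      fun x => by simp only [and_assoc]),
    Nat.card_congr (Equiv.subtypeEquivRight (p := fun x => _ ∧ ¬ _) (q := fun x => x ≠ 1 ∧ x * x = 1 ∧
      ¬ Commute (T v) x ∧ ∀ y : G, y ≠ 1 → y * y = 1 → ¬ (Commute (T v) y ∧ Commute y x))
      fun x => by simp only [not_exists, not_and, and_assoc]), h3] at h0
  have hq := two_le_of_card hF
  have h5 : q ≤ q ^ 2 := Nat.le_self_pow two_ne_zero q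
  zify [show 1 ≤ q ^ 2 by omega, h5, hq, show 1 ≤ q by omega] at h0 ⊢
  linear_combination h0

include h hB hF hn in
theorem IT.conn (hq : q ≠ 2) {v w : V} (hv : B v v = 1) (hw : B w w = 1) :
    ∃ y z : G, y ≠ 1 ∧ y * y = 1 ∧ z ≠ 1 ∧ z * z = 1 ∧
      Commute (T v) y ∧ Commute y z ∧ Commute z (T w) := by
  by_cases hc : σ (B v w) * B v w = 1 ∧ w - B v w • v ≠ 0
  · obtain ⟨h1, h2⟩ := hc
    have hwv := hB.symm v w
    have hr : B (w - B v w • v) (w - B v w • v) = 0 := by
      rw [res_norm hB hv, hw, h1, sub_self]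
    have hwr : B w (w - B v w • v) = 0 := by
      simp only [map_sub, map_smul, hw, smul_eq_mul, ← hwv]
      linear_combination -h1
    have hvr : B v (w - B v w • v) = 0 := by simp [hv]
    obtain ⟨f, f1, f2, f3⟩ := hB.exists_hyp_partner (Submodule.span F {w}) (x := w - B v w • v)
      (fun hm => by
        obtain ⟨c, hc⟩ := Submodule.mem_span_singleton.1 hm
        rw [← hc, map_smul, hw, smul_eq_mul, mul_one] at hwr
        exact h2 (by rw [← hc, hwr, zero_smul])) hr (fun x hx => by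
        obtain ⟨c, rfl⟩ := Submodule.mem_span_singleton.1 hx
        rw [map_smul, hB.zero_symm hwr, smul_zero])
    have f4 : B w f = 0 := hB.zero_symm (f1 w (Submodule.mem_span_singleton_self w))
    have f5 : σ (B v w) * B v f = -1 := by
      rw [b_sub_left, b_smul_left, f4] at f2
      linear_combination -f2
    obtain ⟨b, b1, b2, b3⟩ := hB.toInv.exists_fix_ne hF hq
    obtain ⟨β, hβ⟩ := hB.toInv.exists_norm b1
    obtain ⟨γ, hγ⟩ := hB.toInv.exists_trace_one
    have hβ0 : β ≠ 0 := by rintro rfl; simp at hβ; exact b2 hβ.symm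
    have hβ1 : σ β ≠ 0 := by simpa using hβ0
    generalize w - B v w • v = r at *
    have hu : B ((γ / σ β) • r + β • f) ((γ / σ β) • r + β • f) = 1 := by
      rw [hB.norm_plane hr f3 f2, map_div₀, hB.invol]
      field_simp
      linear_combination hγ
    have hwu : B w ((γ / σ β) • r + β • f) = 0 := by simp [hwr, f4]
    obtain ⟨y, y1, y2, y3⟩ := exists_nbr hB hn hv (w := (γ / σ β) • r + β • f) (by
      rw [hu]
      simp only [map_add, map_smul, hvr, smul_eq_mul, mul_zero, zero_add, map_mul]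
      intro e
      have f6 := congrArg σ f5
      rw [map_mul, hB.invol, map_neg, map_one] at f6
      apply b3
      rw [← hβ]
      linear_combination (-(σ (B v w) * B v w)) * e + h1 -
        (σ β * β) * (B v w * σ (B v f)) * f5 + (σ β * β) * f6)
    exact ⟨T y, T _, (h.inv y y1).1, (h.inv y y1).2, (h.inv _ hu).1, (h.inv _ hu).2,
      (h.comm v y hv y1).2 (Or.inl y2), ((h.comm _ y hu y1).2 (Or.inl y3)).symm,
      ((h.comm w _ hw hu).2 (Or.inl hwu)).symm⟩
  · rw [← h.far_iff hB hn hv hw, not_and_or, not_not] at hc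
    rcases hc with hc | hc
    · exact ⟨T v, T v, (h.inv v hv).1, (h.inv v hv).2, (h.inv v hv).1, (h.inv v hv).2,
        Commute.refl _, Commute.refl _, hc⟩
    · push Not at hc
      obtain ⟨y, h1, h2, h3, h4⟩ := hc
      exact ⟨y, y, h1, h2, h1, h2, h3, Commute.refl _, h4⟩

theorem two_ne (hF : Nat.card F = q ^ 2) (hq : Odd q) : (2 : F) ≠ 0 := by
  have := Fintype.ofFinite F
  apply Ring.two_ne_zero
  intro h
  have := FiniteField.even_card_iff_char_two.1 h
  rw [← Nat.card_eq_fintype_card, hF] at this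
  exact absurd (Nat.odd_iff.1 (hq.pow (n := 2))) (by omega)

end Cfsg.Agent.Spc.U3I
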