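import Mathlib
import Cfsg.Agent.Spc.PGA
import Cfsg.Agent.Syl2.GL
import Cfsg.Agent.Syl2.Sp

/-! Homocyclic Sylow subgroups of `GL_n`, `SL_n`, `Sp_2n`. -/

set_option autoImplicit false
set_option linter.unusedSectionVars false
set_option backward.isDefEq.respectTransparency false

namespace Cfsg.Agent.Spc.Hm

open Polynomial Module Matrix Subgroup
open scoped MatrixGroups

section NT
variable {r q : ℕ} [hr : Fact r.Prime]

theorem dvd_iff (hq : 0 < q) (e : ℕ) : r ∣ q ^ e - 1 ↔ orderOf (q : ZMod r) ∣ e := by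
  rw [orderOf_dvd_iff_pow_eq_one, ← ZMod.natCast_eq_zero_iff, Nat.cast_sub (Nat.one_le_pow e q hq),
    sub_eq_zero, Nat.cast_pow, Nat.cast_one]

theorem ord_pos (hrq : ¬ r ∣ q) : 0 < orderOf (q : ZMod r) :=
  (isOfFinOrder_iff_pow_eq_one.mpr ⟨r - 1, Nat.sub_pos_of_lt hr.out.one_lt,
    ZMod.pow_card_sub_one_eq_one (mt (ZMod.natCast_eq_zero_iff q r).mp hrq)⟩).orderOf_pos

theorem val_pow (hq : 1 < q) (hrq : ¬ r ∣ q) {e : ℕ} (h2 : r ≠ 2 ∨ e = 1) (he : ¬ r ∣ e) :
    padicValNat r (q ^ e - 1) = if orderOf (q : ZMod r) ∣ e then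
      padicValNat r (q ^ orderOf (q : ZMod r) - 1) else 0 := by
  split_ifs with h
  · rcases h2 with h2 | rfl
    · obtain ⟨k, rfl⟩ := h
      have h1 := padicValNat.pow_sub_pow (hr.out.odd_of_ne_two h2) (y := 1)
        (Nat.one_lt_pow (ord_pos hrq).ne' hq) ((dvd_iff (by omega) _).mpr dvd_rfl)
        (mt hr.out.dvd_of_dvd_pow hrq) (n := k) (by rintro rfl; simp at he)
      rw [one_pow] at h1
      rw [pow_mul, h1, padicValNat.eq_zero_of_not_dvd (mt (·.mul_left _) he), add_zero]
    · rw [Nat.dvd_one.1 h]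
  · exact padicValNat.eq_zero_of_not_dvd (mt (dvd_iff (by omega) _).mp h)

theorem val_prod (hq : 1 < q) (hrq : ¬ r ∣ q) (f : ℕ → ℕ) (s : Finset ℕ)
    (h : ∀ i ∈ s, (r ≠ 2 ∨ f i = 1) ∧ ¬ r ∣ f i) :
    ∏ i ∈ s, (q ^ f i - 1) ≠ 0 ∧ padicValNat r (∏ i ∈ s, (q ^ f i - 1)) =
      (s.filter fun i => orderOf (q : ZMod r) ∣ f i).card *
        padicValNat r (q ^ orderOf (q : ZMod r) - 1) := by
  induction s using Finset.induction_on with
  | empty => simp
  | insert a s ha ih =>
    obtain ⟨h3, h4⟩ := ih fun i hi => h i (Finset.mem_insert_of_mem hi)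
    obtain ⟨h5, h6⟩ := h a (Finset.mem_insert_self _ _)
    have h7 : q ^ f a - 1 ≠ 0 :=
      Nat.sub_ne_zero_of_lt (Nat.one_lt_pow (by intro e; rw [e] at h6; simp at h6) hq)
    rw [Finset.prod_insert ha, padicValNat.mul h7 h3, h4, val_pow hq hrq h5 h6, Finset.filter_insert]
    refine ⟨mul_ne_zero h7 h3, ?_⟩
    split_ifs with hd
    · rw [Finset.card_insert_of_notMem (fun hh => ha (Finset.mem_filter.1 hh).1)]; ring
    · simp

theorem val_cyc (hq : 1 < q) (hrq : ¬ r ∣ q) :
    padicValNat r ((cyclotomic (orderOf (q : ZMod r)) ℤ).eval (q : ℤ)).natAbs =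
      padicValNat r (q ^ orderOf (q : ZMod r) - 1) := by
  have h1 : ∀ {e}, 0 < e → ∏ i ∈ e.divisors, ((cyclotomic i ℤ).eval (q : ℤ)).natAbs = q ^ e - 1 :=
    fun {e} he => by
      have := congrArg (fun P => (eval (q : ℤ) P).natAbs) (prod_cyclotomic_eq_X_pow_sub_one he ℤ)
      simp only [eval_prod, eval_sub, eval_pow, eval_X, eval_one] at this
      rw [← Int.natAbs_natCast (q ^ e - 1), Nat.cast_sub (Nat.one_le_pow e q (by omega)),
        Nat.cast_pow, Nat.cast_one, ← this]
      exact (map_prod Int.natAbsHom _ _).symm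
  have hd := ord_pos hrq
  have h2 := h1 hd
  rw [← Nat.cons_self_properDivisors hd.ne', Finset.prod_cons] at h2
  have h3 := mul_ne_zero_iff.mp (h2.trans_ne (Nat.sub_ne_zero_of_lt (Nat.one_lt_pow hd.ne' hq)))
  rw [← h2, padicValNat.mul h3.1 h3.2, padicValNat.eq_zero_of_not_dvd (n := ∏ _ ∈ _, _), add_zero]
  intro h
  obtain ⟨e, he, h4⟩ := (hr.out.prime.dvd_finset_prod_iff _).mp h
  have h5 := Nat.pos_of_mem_properDivisors he
  exact absurd (Nat.le_of_dvd h5 ((dvd_iff (by omega) e).mp (h4.trans (h1 h5 ▸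
    Finset.dvd_prod_of_mem _ (Nat.mem_divisors_self e h5.ne'))))) (Nat.mem_properDivisors.mp he).2.not_ge

theorem pow_cast_eq_one {N d : ℕ} (hq : 0 < q) (h : N ∣ q ^ d - 1) : (q : ZMod N) ^ d = 1 := by
  have := (ZMod.natCast_eq_zero_iff _ _).2 h
  rw [Nat.cast_sub (Nat.one_le_pow d q hq), sub_eq_zero] at this
  simpa using this

end NT

theorem emb_cyc {D : Type*} [Group D] {x : D} {m : ℕ} (h : orderOf x = m) :
    ∃ φ : Multiplicative (ZMod m) →* D, Function.Injective φ := by
  have e := zmodCyclicMulEquiv (G := zpowers x) inferInstance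
  rw [Nat.card_zpowers, h] at e
  exact ⟨(zpowers x).subtype.comp e.toMonoidHom, (zpowers x).subtype_injective.comp e.injective⟩

theorem homo {G : Type*} [Group G] [Finite G] {r : ℕ} [Fact r.Prime] (P : Sylow r G) {a e : ℕ}
    (φ : (Fin a → Multiplicative (ZMod (r ^ e))) →* G) (hφ : Function.Injective φ)
    (hv : padicValNat r (Nat.card G) = a * e) :
    Nonempty ((P : Subgroup G) ≃* (Fin a → Multiplicative (ZMod (r ^ e)))) := by
  have hc : Nat.card φ.range = r ^ (Nat.card G).factorization r := by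
    rw [← Nat.card_congr (MonoidHom.ofInjective hφ).toEquiv, Nat.factorization_def _ Fact.out, hv,
      Nat.card_fun, Nat.card_congr Multiplicative.toAdd, Nat.card_zmod, ← pow_mul, mul_comm]
    simp
  exact ⟨(P.equiv (Sylow.ofCard φ.range hc)).trans (MonoidHom.ofInjective hφ).symm⟩

theorem emb_pi {G D R : Type*} [Group G] [Group D] [Group R] {a : ℕ} (W : Syl2.Wr G (Fin a) D R)
    {x : D} {m : ℕ} (h : orderOf x = m) :
    ∃ φ : (Fin a → Multiplicative (ZMod m)) →* G, Function.Injective φ := by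
  obtain ⟨ψ, hψ⟩ := emb_cyc h
  refine ⟨W.β.comp (MonoidHom.compLeft ψ (Fin a)), ?_⟩
  rw [injective_iff_map_eq_one]
  intro z hz
  have := (W.inj (MonoidHom.compLeft ψ (Fin a) z) 1 1 (by simpa using hz)).1
  funext i
  exact hψ (by simpa using congrFun this i)

variable {F : Type*} [Field F] [Fintype F]

theorem cast_ne {r : ℕ} [Fact r.Prime] (hrq : ¬ r ∣ Fintype.card F) (e : ℕ) : ((r ^ e : ℕ) : F) ≠ 0 := by
  obtain ⟨p, hp⟩ := CharP.exists F
  have hpp : p.Prime := CharP.char_is_prime F p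
  rw [Ne, CharP.cast_eq_zero_iff F p]
  intro h
  have := (Nat.prime_dvd_prime_iff_eq hpp Fact.out).1 (hpp.dvd_of_dvd_pow h)
  subst this
  obtain ⟨k, -, hk⟩ := FiniteField.card F p
  exact hrq (hk ▸ dvd_pow_self p k.ne_zero)

theorem emb_gl {N d : ℕ} (h0 : (N : F) ≠ 0) (hd : 0 < d) (h : N ∣ Fintype.card F ^ d - 1) (n : ℕ) :
    ∃ φ : (Fin (n / d) → Multiplicative (ZMod N)) →* GL (Fin n) F, Function.Injective φ := by
  obtain ⟨f, hf⟩ := exists_gl_prim h0 hd (pow_cast_eq_one Fintype.card_pos h)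
  have hN : N ≠ 0 := by rintro rfl; simp at h0
  have : Nonempty (Fin d) := ⟨⟨0, hd⟩⟩
  let u := Units.ofPowEqOne f N ((hf N).2 dvd_rfl) hN
  have hu : orderOf (LinearMap.GeneralLinearGroup.generalLinearEquiv F _ u) = N := by
    rw [MulEquiv.orderOf_eq, ← orderOf_units]
    exact orderOf_eq_of_iff hf
  obtain ⟨φ, hφ⟩ := emb_pi (Syl2.linWr F (Fin (n / d)) (Fin d → F) (Fin (n % d) → F)) hu
  have b : Basis (Fin n) F ((Fin (n / d) → Fin d → F) × (Fin (n % d) → F)) :=
    finBasisOfFinrankEq F _ (by simp [finrank_pi_fintype, Nat.div_add_mod'])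
  exact ⟨(Syl2.glEquiv b).symm.toMonoidHom.comp φ, (Syl2.glEquiv b).symm.injective.comp hφ⟩

theorem val_gl {r : ℕ} [Fact r.Prime] (n : ℕ) (hrn : n < r) (hrq : ¬ r ∣ Fintype.card F) :
    padicValNat r (Nat.card (GL (Fin n) F)) = n / orderOf (Fintype.card F : ZMod r) *
      padicValNat r (Fintype.card F ^ orderOf (Fintype.card F : ZMod r) - 1) := by
  have h1 : 1 < Fintype.card F := Fintype.one_lt_card
  obtain ⟨h2, h3⟩ := val_prod h1 hrq id (Finset.Ioc 0 n) fun i hi => by
    rw [Finset.mem_Ioc] at hi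
    refine ⟨by simp only [id]; omega, fun h => ?_⟩
    have := Nat.le_of_dvd hi.1 h
    omega
  have e : ∏ i : Fin n, (Fintype.card F ^ (n - i) - 1) =
      ∏ i ∈ Finset.Ioc 0 n, (Fintype.card F ^ id i - 1) := by
    rw [Fin.prod_univ_eq_prod_range (fun i => Fintype.card F ^ (n - i) - 1)]
    refine Finset.prod_bij' (fun i _ => n - i) (fun i _ => n - i) ?_ ?_ ?_ ?_ ?_ <;>
      simp only [Finset.mem_range, Finset.mem_Ioc, id] <;> intros <;> first | omega | trivial
  rw [Matrix.card_GL_field, Classical.GLBasic.prod_pow_sub_pow, e,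
    padicValNat.mul (by positivity) h2, h3,
    padicValNat.eq_zero_of_not_dvd (mt (Fact.out : r.Prime).dvd_of_dvd_pow hrq), zero_add]
  congr 1
  exact Nat.Ioc_filter_dvd_card_eq_div n _

theorem homo_gl (n r : ℕ) [Fact r.Prime] (hrn : n < r) (hrq : ¬ r ∣ Fintype.card F)
    (P : Sylow r (GL (Fin n) F)) :
    Nonempty ((P : Subgroup (GL (Fin n) F)) ≃* (Fin (n / orderOf (Fintype.card F : ZMod r)) →
      Multiplicative (ZMod (r ^ padicValNat r (Fintype.card F ^
        orderOf (Fintype.card F : ZMod r) - 1))))) := by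
  obtain ⟨φ, hφ⟩ := emb_gl (cast_ne hrq _) (ord_pos hrq) pow_padicValNat_dvd n
  exact homo P φ hφ (val_gl n hrn hrq)

/-- diagonal matrices of determinant one -/
def dSL (k : ℕ) : (Fin k → Fˣ) →* SL(k + 1, F) where
  toFun x := ⟨diagonal fun i => ((Fin.cons (∏ j, x j)⁻¹ x : Fin (k + 1) → Fˣ) i : F), by
    rw [det_diagonal, ← Units.coe_prod, Fin.prod_univ_succ]; simp⟩
  map_one' := Subtype.ext (by
    show diagonal _ = 1
    rw [← diagonal_one]; congr 1; funext i
    refine Fin.cases ?_ (fun i => ?_) i <;> simp)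
  map_mul' x y := Subtype.ext (by
    show diagonal _ = diagonal _ * diagonal _
    rw [diagonal_mul_diagonal]; congr 1; funext i
    refine Fin.cases ?_ (fun i => ?_) i <;> simp [Finset.prod_mul_distrib, mul_comm])

theorem dSL_inj (k : ℕ) : Function.Injective (dSL (F := F) k) := by
  intro x y h
  funext i
  have := congrFun (congrFun (congrArg Subtype.val h) i.succ) i.succ
  simpa [dSL, Units.ext_iff] using this

theorem homo_sl (n r : ℕ) [Fact r.Prime] (hrn : n < r) (hrq : ¬ r ∣ Fintype.card F)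
    (P : Sylow r SL(n, F)) :
    Nonempty ((P : Subgroup SL(n, F)) ≃* (Fin ((Finset.Icc 2 n).filter
      (fun i => orderOf (Fintype.card F : ZMod r) ∣ i)).card →
      Multiplicative (ZMod (r ^ padicValNat r (Fintype.card F ^
        orderOf (Fintype.card F : ZMod r) - 1))))) := by
  classical
  have h1 : 1 < Fintype.card F := Fintype.one_lt_card
  rcases n with _ | k
  · have : Unique SL(0, F) := ⟨⟨1⟩, fun _ => Subtype.ext (Subsingleton.elim _ _)⟩
    rw [show Finset.Icc 2 0 = ∅ from rfl, Finset.filter_empty, Finset.card_empty]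
    exact homo P 1 (fun _ _ _ => Subsingleton.elim _ _) (by simp)
  have hc := Classical.SLBasic.card_SL (F := F) (k + 1) (by omega)
  rw [← Classical.SLBasic.card_GL, Nat.card_eq_fintype_card (α := F)] at hc
  have hv := val_gl (F := F) (k + 1) hrn hrq
  rw [← hc, padicValNat.mul (by omega) Nat.card_pos.ne'] at hv
  by_cases hd : orderOf (Fintype.card F : ZMod r) = 1
  · rw [hd] at hv ⊢
    rw [Finset.filter_true_of_mem (fun _ _ => one_dvd _), Nat.card_Icc, show k + 1 + 1 - 2 = k by omega]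
    rw [Nat.div_one, pow_one] at hv
    rw [pow_one]
    obtain ⟨g, hg⟩ := IsCyclic.exists_ofOrder_eq_natCard (α := Fˣ)
    rw [Nat.card_eq_fintype_card, Fintype.card_units] at hg
    have hx := orderOf_pow_orderOf_div (x := g) (n := r ^ padicValNat r (Fintype.card F - 1))
      (by omega) (by rw [hg]; exact pow_padicValNat_dvd)
    obtain ⟨ψ, hψ⟩ := emb_cyc hx
    refine homo P ((dSL k).comp (MonoidHom.compLeft ψ (Fin k))) ((dSL_inj k).comp ?_) (by linarith)
    intro x y h
    funext i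
    exact hψ (congrFun h i)
  · have hn : ¬ r ∣ Fintype.card F - 1 := by
      have := dvd_iff (r := r) (q := Fintype.card F) (by omega) 1
      rw [pow_one, Nat.dvd_one] at this
      exact fun h => hd (this.1 h)
    rw [padicValNat.eq_zero_of_not_dvd hn, zero_add] at hv
    have e : ((Finset.Icc 2 (k + 1)).filter
        (fun i => orderOf (Fintype.card F : ZMod r) ∣ i)).card =
        (k + 1) / orderOf (Fintype.card F : ZMod r) := by
      rw [← Nat.Ioc_filter_dvd_card_eq_div]
      congr 1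
      ext i
      simp only [Finset.mem_filter, Finset.mem_Icc, Finset.mem_Ioc]
      refine ⟨fun h => ⟨by omega, h.2⟩, fun h => ⟨⟨?_, h.1.2⟩, h.2⟩⟩
      by_contra hh
      have : i = 1 := by omega
      subst this
      exact hd (Nat.dvd_one.1 h.2)
    rw [e]
    obtain ⟨φ, hφ⟩ := emb_gl (cast_ne hrq _) (ord_pos hrq) pow_padicValNat_dvd (k + 1)
    have hdet : ∀ z, (φ z).val.det = 1 := by
      intro z
      have h2 : z ^ r ^ padicValNat r (Fintype.card F ^ orderOf (Fintype.card F : ZMod r) - 1) = 1 := by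
        funext i
        apply Multiplicative.toAdd.injective
        simp
      have h3 : GeneralLinearGroup.det (φ z) ^ r ^ padicValNat r (Fintype.card F ^
          orderOf (Fintype.card F : ZMod r) - 1) = 1 := by rw [← map_pow, ← map_pow, h2]; simp
      have h4 : GeneralLinearGroup.det (φ z) ^ (Fintype.card F - 1) = 1 := by
        rw [← Fintype.card_units]; exact pow_card_eq_one
      have := (pow_eq_one_iff_of_coprime
        (((Nat.Prime.coprime_iff_not_dvd Fact.out).2 hn).pow_left _)).1 ⟨h3, h4⟩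
      simpa using congrArg Units.val this
    let φ' : _ →* SL(k + 1, F) :=
      { toFun := fun z => ⟨(φ z).val, hdet z⟩
        map_one' := Subtype.ext (by simp)
        map_mul' := fun x y => Subtype.ext (by simp) }
    exact homo P φ' (fun x y h => hφ (Units.ext (congrArg Subtype.val h))) hv

theorem homo_sp (n r : ℕ) [Fact r.Prime] (hr2 : r ≠ 2) (hrn : n < r) (hrq : ¬ r ∣ Fintype.card F)
    (P : Sylow r (symplecticGroup (Fin n) F)) :
    Nonempty ((P : Subgroup (symplecticGroup (Fin n) F)) ≃* (Fin ((Finset.Icc 1 n).filter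
      (fun i => orderOf (Fintype.card F : ZMod r) ∣ 2 * i)).card →
      Multiplicative (ZMod (r ^ padicValNat r (Fintype.card F ^
        orderOf (Fintype.card F : ZMod r) - 1))))) := by
  have h1 : 1 < Fintype.card F := Fintype.one_lt_card
  have hp : r.Prime := Fact.out
  obtain ⟨h2, h3⟩ := val_prod h1 hrq (fun i => 2 * i) (Finset.Icc 1 n) fun i hi => by
    rw [Finset.mem_Icc] at hi
    refine ⟨Or.inl hr2, fun h => ?_⟩
    rcases (Nat.Prime.dvd_mul hp).1 h with h | h
    · exact hr2 ((Nat.prime_dvd_prime_iff_eq hp Nat.prime_two).1 h)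
    · have := Nat.le_of_dvd hi.1 h
      omega
  have hv : padicValNat r (Nat.card (symplecticGroup (Fin n) F)) = ((Finset.Icc 1 n).filter
      (fun i => orderOf (Fintype.card F : ZMod r) ∣ 2 * i)).card * padicValNat r (Fintype.card F ^
        orderOf (Fintype.card F : ZMod r) - 1) := by
    have e : ∏ i ∈ Finset.range n, (Fintype.card F ^ (2 * (i + 1)) - 1) =
        ∏ i ∈ Finset.Icc 1 n, (Fintype.card F ^ (2 * i) - 1) := by
      rw [Finset.range_eq_Ico, Finset.prod_Ico_add' (fun i => Fintype.card F ^ (2 * i) - 1) 0 n 1]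
      rfl
    rw [Classical.SpMat.card_sp, Fintype.card_fin, Nat.card_eq_fintype_card, e,
      padicValNat.mul (by positivity) h2, h3,
      padicValNat.eq_zero_of_not_dvd (mt hp.dvd_of_dvd_pow hrq), zero_add]
  have hd := ord_pos hrq
  generalize hdd : orderOf (Fintype.card F : ZMod r) = d at *
  set N := r ^ padicValNat r (Fintype.card F ^ d - 1) with hN
  have hNd : N ∣ Fintype.card F ^ d - 1 := pow_padicValNat_dvd
  obtain ⟨η, hη0, hη1, hη2⟩ : ∃ η, 0 < η ∧ (∀ i, d ∣ 2 * i ↔ η ∣ i) ∧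
      ((Fintype.card F : ZMod N) ^ η = 1 ∨ (Fintype.card F : ZMod N) ^ η = -1) := by
    rcases Nat.even_or_odd d with ⟨η, rfl⟩ | ho
    · refine ⟨η, by omega, fun i => by rw [← two_mul]; exact Nat.mul_dvd_mul_iff_left two_pos,
        Or.inr ?_⟩
      have hn : ¬ r ∣ Fintype.card F ^ η - 1 := by
        rw [dvd_iff (by omega), hdd]
        intro h
        have := Nat.le_of_dvd (by omega) h
        omega
      have e : Fintype.card F ^ (η + η) - 1 = (Fintype.card F ^ η + 1) * (Fintype.card F ^ η - 1) := by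
        rw [← Nat.sq_sub_sq, ← pow_mul, mul_two, one_pow]
      have := (((Nat.Prime.coprime_iff_not_dvd hp).2 hn).pow_left _).dvd_of_dvd_mul_right (e ▸ hNd)
      have := (ZMod.natCast_eq_zero_iff _ _).2 this
      push_cast at this
      exact eq_neg_of_add_eq_zero_left this
    · exact ⟨d, hd, fun i => (Nat.Coprime.dvd_mul_left (Nat.coprime_two_right.2 ho)),
        Or.inl (pow_cast_eq_one (by omega) hNd)⟩
  obtain ⟨f, hf, hf'⟩ := exists_isSp_prim (cast_ne hrq _) hη0 hη2
  obtain ⟨A, hA⟩ := hf.exists_mat (n := η) (by simp [two_mul])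
  have hAo : orderOf A = N := by
    rw [hN, ← orderOf_eq_of_iff hf', hA.orderOf_eq, orderOf_toLin']
    exact (orderOf_injective (symplecticGroup (Fin η) F).subtype Subtype.val_injective A).symm
  obtain ⟨W⟩ := Syl2.exists_spWr F (k := n / η) (m := η) (r := n % η) (n := n) hη0
    (Nat.div_add_mod' n η).symm
  obtain ⟨φ, hφ⟩ := emb_pi W hAo
  have e : ((Finset.Icc 1 n).filter (fun i => d ∣ 2 * i)).card = n / η := by
    rw [← Nat.Ioc_filter_dvd_card_eq_div]
    congr 1
    ext i
    simp only [Finset.mem_filter, Finset.mem_Icc, Finset.mem_Ioc, hη1]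
    exact Iff.rfl
  rw [e] at hv ⊢
  exact homo P φ hφ hv

end Cfsg.Agent.Spc.Hm
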