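import Mathlib
import Cfsg.Agent.Spc.Tri
import Cfsg.Agent.Comp2.Zsig

/-! Elements of order `|(εq)^(n/2) + 1|` in `PSL_n^ε(q)`. -/

set_option autoImplicit false
set_option linter.unusedSectionVars false
set_option backward.isDefEq.respectTransparency false

namespace Cfsg.Agent.Spc.Half

open Module Polynomial Cfsg.Agent.Conj Cfsg.Agent.Spec

theorem sum_mod (e : ℤ) (k : ℕ) : e - 1 ∣ ∑ i ∈ Finset.range k, e ^ i - k := by
  have : ∑ i ∈ Finset.range k, e ^ i - k = ∑ i ∈ Finset.range k, (e ^ i - 1) := by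
    simp [Finset.sum_sub_distrib]
  rw [this]
  exact Finset.dvd_sum fun i _ => sub_one_dvd_pow_sub_one e i

theorem dvd_sum_iff {e : ℤ} {t : ℕ} (h : t ∣ (e - 1).natAbs) (k : ℕ) :
    t ∣ (∑ i ∈ Finset.range k, e ^ i).natAbs ↔ t ∣ k := by
  rw [← Int.natCast_dvd] at h ⊢
  rw [← Int.natCast_dvd_natCast]
  exact (dvd_iff_dvd_of_dvd_sub (h.trans (sum_mod e k)))

theorem sum_two (e : ℤ) (m : ℕ) : (∑ i ∈ Finset.range (2 * m), e ^ i).natAbs =
    (e ^ m + 1).natAbs * (∑ i ∈ Finset.range m, e ^ i).natAbs := by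
  rw [← Int.natAbs_mul, two_mul, Finset.sum_range_add]
  congr 1
  simp only [pow_add, ← Finset.mul_sum]; ring

theorem val_iff {E m : ℕ} (hE : E ≠ 0) (hE2 : 2 ∣ E) (hm : m ≠ 0) :
    (∀ t, t ∣ 2 * m → t ∣ E → t ∣ m) ↔ padicValNat 2 E < padicValNat 2 (2 * m) := by
  rw [padicValNat.mul two_ne_zero hm, padicValNat_self, add_comm, Nat.lt_add_one_iff]
  constructor
  · intro h
    by_contra hc
    have := h (2 ^ (padicValNat 2 m + 1)) (by
      rw [pow_succ']; exact Nat.mul_dvd_mul_left 2 pow_padicValNat_dvd)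
      ((padicValNat_dvd_iff_le hE).2 (by omega))
    exact pow_succ_padicValNat_not_dvd hm this
  · intro h t h1 h2
    have ht : t ≠ 0 := by rintro rfl; simp at h2; exact hE h2
    obtain ⟨a, s, hs, rfl⟩ := Nat.exists_eq_two_pow_mul_odd ht
    refine Nat.Coprime.mul_dvd_of_dvd_of_dvd ((Nat.coprime_two_left.2 hs).pow_left a) ?_
      ((Nat.coprime_two_right.2 hs).dvd_mul_left.1 ((dvd_mul_left _ _).trans h1))
    exact (padicValNat_dvd_iff_le hm).2
      (((padicValNat_dvd_iff_le hE).1 ((dvd_mul_right _ _).trans h2)).trans h)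

theorem zpow_one_iff {L : Type*} [Field L] (z : L) (a : ℤ) : z ^ a = 1 ↔ z ^ a.natAbs = 1 := by
  obtain ⟨k, rfl | rfl⟩ := a.eq_nat_or_neg <;> simp

variable {F : Type*} [Field F] [Finite F] {V : Type*} [AddCommGroup V] [Module F V]
  [FiniteDimensional F V] (L : Type*) [Field L] [IsAlgClosed L] [Algebra F L]

theorem fwd {e : ℤ} {m : ℕ} (hm : 0 < m) (hχ : Function.Injective fun z : L => z ^ e) {f : End F V}
    (hn : finrank F V = 2 * m) (hd : LinearMap.det f = 1)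
    (hM : (ev L f).map (fun z : L => z ^ e) = ev L f)
    (hf : ∀ k, PS f k ↔ (e ^ m + 1).natAbs ∣ k)
    (h1 : ∀ k (c : F), f ^ k = c • 1 → c ^ (e - 1).natAbs = 1)
    (h2 : ∀ w : L, w ^ (e - 1).natAbs = 1 → ∃ c, algebraMap F L c = w)
    (h3 : (((e ^ m + 1).natAbs * (e - 1).natAbs : ℕ) : F) ≠ 0) {r : ℕ} (hr : r.Prime)
    (hrN : r ∣ (e ^ m + 1).natAbs) (ho : orderOf (e : ZMod r) = 2 * m) (t : ℕ) (ht : t ∣ 2 * m)
    (htE : t ∣ (e - 1).natAbs) : t ∣ m := by
  obtain ⟨c, hc⟩ := (hf _).2 dvd_rfl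
  have h4 : f ^ ((e ^ m + 1).natAbs * (e - 1).natAbs) = 1 := by
    rw [pow_mul, hc, _root_.smul_pow, one_pow, h1 _ _ hc, one_smul]
  have hN0 : (e ^ m + 1).natAbs ≠ 0 := fun h => h3 (by simp [h])
  obtain ⟨s, hs⟩ := hrN
  have h5 : f ^ (s * (e - 1).natAbs) ≠ 1 := by
    intro h
    have := (hf _).1 (ps_of_pow_eq_one h)
    rw [hs, mul_comm] at this
    have h6 := Nat.dvd_of_mul_dvd_mul_left (Nat.pos_of_ne_zero fun h => hN0 (by simp [hs, h])) this
    rw [← Int.natCast_dvd, ← ZMod.intCast_zmod_eq_zero_iff_dvd] at h6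
    push_cast at h6
    rw [sub_eq_zero.1 h6, orderOf_one] at ho
    omega
  obtain ⟨z, hz, hz1⟩ := exists_ev_pow_ne L h3 h4 h5
  have hz0 : z ≠ 0 := ne_zero_of_mem_ev L (IsUnit.of_pow_eq_one h4 (fun h => h3 (by simp [h]))) hz
  obtain ⟨d, hd0, hd1, S, hS, -, hS1, hS2, -⟩ := exists_orb1 hχ (periodic_of_mem hχ hM hz)
  have h6 : 2 * m ∣ d := by
    rw [← ho, orderOf_dvd_iff_pow_eq_one, ← iterate_zpow_eq_iff (isPrim_of_prime hr (by
      rw [← pow_mul, mul_right_comm, mul_comm s, ← hs]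
      exact pow_eq_one_of_mem_ev L h4 hz) hz1) hr.pos, iterate_zpow_pow, (hd1 d).2 dvd_rfl]
  have h7 : S.val ≤ ev L f := by
    classical
    refine (Multiset.le_iff_subset S.nodup).2 fun w hw => ?_
    obtain ⟨i, rfl⟩ := hS2 w hw
    rw [← Multiset.count_pos, count_iterate hχ hM]
    exact Multiset.count_pos.2 hz
  have h8 := Multiset.card_le_card h7
  rw [card_ev, hn, ← Finset.card_def, hS] at h8
  obtain rfl : d = 2 * m := le_antisymm h8 (Nat.le_of_dvd hd0 h6)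
  have h9 : ev L f = orb (fun z : L => z ^ e) z (2 * m) := by
    rw [← hS1]
    exact (Multiset.eq_of_le_of_card_le h7 (by rw [card_ev, hn, ← Finset.card_def, hS])).symm
  have h10 := prod_ev_eq_det L f
  rw [h9, prod_orb hz0, hd, map_one, zpow_one_iff] at h10
  obtain ⟨k, hk⟩ := (dvd_sum_iff htE _).2 ht
  obtain ⟨u, hu⟩ := htE
  have h11 : (z ^ k) ^ (e - 1).natAbs = 1 := by
    rw [← pow_mul, hu, ← mul_assoc, mul_comm k, ← hk, pow_mul, h10, one_pow]
  obtain ⟨a, ha⟩ := h2 _ h11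
  have h12 : (z ^ k) ^ e = z ^ k := by
    rw [← zpow_one_iff, zpow_sub_one₀ (pow_ne_zero _ hz0), mul_inv_eq_one₀ (pow_ne_zero _ hz0)] at h11
    exact h11
  have h13 := (hf k).1 ⟨a, (ss_pow_eq_iff L (squarefree_X_pow_sub_one h3) (aeval_of_pow h4) _ _).2
    fun w hw => by
      obtain ⟨i, -, rfl⟩ := mem_orb.1 (h9 ▸ hw)
      rw [← iterate_zpow_pow, ha]
      exact Function.iterate_fixed h12 i⟩
  rw [← dvd_sum_iff ⟨u, hu⟩]
  refine Nat.dvd_of_mul_dvd_mul_left (Nat.pos_of_ne_zero hN0) ?_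
  rw [← sum_two, hk, mul_comm]
  exact Nat.mul_dvd_mul_left t h13

theorem bwd {e : ℤ} {m : ℕ} (hm : 0 < m) {f : End F V} {z : L}
    (hz : IsPrimitiveRoot z (∑ i ∈ Finset.range (2 * m), e ^ i).natAbs)
    (h0 : (∑ i ∈ Finset.range (2 * m), e ^ i).natAbs ≠ 0)
    (hf : ev L f = orb (fun z : L => z ^ e) z (2 * m))
    (h : ∀ t, t ∣ 2 * m → t ∣ (e - 1).natAbs → t ∣ m) :
    LinearMap.det f = 1 ∧ ∀ k, PS f k → (e ^ m + 1).natAbs ∣ k := by
  have hz0 := hz.ne_zero h0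
  constructor
  · have h10 := prod_ev_eq_det L f
    rw [hf, prod_orb hz0, (zpow_one_iff _ _).2 hz.pow_eq_one] at h10
    exact (algebraMap F L).injective (by rw [← h10, map_one])
  · rintro k ⟨c, hc⟩
    have h1 := pow_eq_of_mem_ev' L hc (hf ▸ self_mem_orb _ z (by omega))
    have h2 := pow_eq_of_mem_ev' L hc (hf ▸ mem_orb.2 ⟨1, by omega, rfl⟩)
    rw [← iterate_zpow_pow, ← h1, Function.iterate_one] at h2
    have h3 : (z ^ k) ^ (e - 1).natAbs = 1 := by
      rw [← zpow_one_iff, zpow_sub_one₀ (pow_ne_zero _ hz0), h2, mul_inv_cancel₀ (pow_ne_zero _ hz0)]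
    rw [← pow_mul, hz.pow_eq_one_iff_dvd, mul_comm k, ← Nat.dvd_gcd_mul_iff_dvd_mul] at h3
    have h4 := Nat.gcd_dvd_right (∑ i ∈ Finset.range (2 * m), e ^ i).natAbs (e - 1).natAbs
    obtain ⟨s, hs⟩ := (dvd_sum_iff h4 m).2 (h _ ((dvd_sum_iff h4 _).1 (Nat.gcd_dvd_left _ _)) h4)
    have h5 := Nat.gcd_pos_of_pos_left (e - 1).natAbs (Nat.pos_of_ne_zero h0)
    generalize Nat.gcd _ _ = g at h3 hs h5
    rw [sum_two, hs, mul_left_comm] at h3
    exact (dvd_mul_right _ _).trans (Nat.dvd_of_mul_dvd_mul_left h5 h3)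

omit [Finite F] in
theorem prim_fix {e : ℤ} {n : ℕ} {z : L} (hz : IsPrimitiveRoot z (∑ i ∈ Finset.range n, e ^ i).natAbs)
    (h0 : (∑ i ∈ Finset.range n, e ^ i).natAbs ≠ 0) : z ^ e ^ n = z := by
  have := (zpow_one_iff _ _).2 hz.pow_eq_one
  rw [← sub_add_cancel (e ^ n) 1, zpow_add_one₀ (hz.ne_zero h0), ← geom_sum_mul, zpow_mul, this]
  simp

theorem cast_ne {e : ℤ} (he : (e : F) = 0) {m : ℕ} (hm : 0 < m) :
    (((e ^ m + 1).natAbs * (e - 1).natAbs : ℕ) : F) ≠ 0 ∧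
      (((∑ i ∈ Finset.range (2 * m), e ^ i).natAbs : ℕ) : F) ≠ 0 := by
  have key : ∀ a : ℤ, (a : F) ≠ 0 → ((a.natAbs : ℕ) : F) ≠ 0 := fun a h => by
    rcases Int.natAbs_eq a with h' | h' <;> rw [h'] at h <;> simpa using h
  constructor
  · rw [← Int.natAbs_mul]
    exact key _ (by simp [he, hm.ne'])
  · refine key _ ?_
    have := congrArg (Int.cast : ℤ → F) (geom_sum_mul e (2 * m))
    intro h
    rw [Int.cast_mul, h] at this
    simp [he, hm.ne'] at this

theorem ord_of_ppd {q n r : ℕ} (hq : 0 < q) (hn : 0 < n) (hr : r ∣ q ^ n - 1)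
    (h : ∀ k, 0 < k → k < n → ¬ r ∣ q ^ k - 1) : orderOf (q : ZMod r) = n := by
  have key : ∀ k, (q : ZMod r) ^ k = 1 ↔ r ∣ q ^ k - 1 := fun k => by
    rw [← ZMod.natCast_eq_zero_iff, Nat.cast_sub (Nat.one_le_pow k q hq), sub_eq_zero, Nat.cast_pow,
      Nat.cast_one]
  exact (orderOf_eq_iff hn).2 ⟨(key n).2 hr, fun k h1 h2 e => h k h2 h1 ((key k).1 e)⟩

theorem dvd_of_ord {e : ℤ} {m r : ℕ} (hm : 0 < m) (hr : r.Prime) (ho : orderOf (e : ZMod r) = 2 * m) :
    r ∣ (e ^ m + 1).natAbs := by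
  have := Fact.mk hr
  rw [← Int.natCast_dvd, ← ZMod.intCast_zmod_eq_zero_iff_dvd]
  push_cast
  have h1 : ((e : ZMod r) ^ m) ^ 2 = 1 := by rw [← pow_mul, mul_comm, ← ho, pow_orderOf_eq_one]
  rcases sq_eq_one_iff.1 h1 with h | h
  · have := Nat.le_of_dvd hm (orderOf_dvd_of_pow_eq_one h)
    omega
  · rw [h, neg_add_cancel]

theorem ord_neg {r : ℕ} [Fact r.Prime] {u : ZMod r} {m : ℕ} (hm : 2 ≤ m)
    (h : (Even m ∧ orderOf u = 2 * m) ∨ (Odd m ∧ orderOf u = m)) : orderOf (-u) = 2 * m := by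
  have hr2 : r ≠ 2 := by
    rintro rfl
    have : orderOf u ≤ 1 := by
      revert u; intro u _
      fin_cases u
      · simp
      · exact (orderOf_one (G := ZMod 2)).le
    omega
  have h2 : orderOf (-1 : ZMod r) = 2 := by
    rw [orderOf_neg_one, ZMod.ringChar_zmod_n, if_neg hr2]
  rcases h with ⟨he, h⟩ | ⟨ho, h⟩
  · obtain ⟨k, rfl⟩ := he
    have key : ∀ v : ZMod r, orderOf v = 2 * (k + k) → orderOf (-v) ∣ 2 * (k + k) := fun v hv =>
      orderOf_dvd_of_pow_eq_one (by rw [Even.neg_pow (even_two_mul _), ← hv, pow_orderOf_eq_one])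
    refine Nat.dvd_antisymm (key u h) ?_
    rcases Nat.even_or_odd (orderOf (-u)) with h3 | h3
    · rw [← h]
      exact orderOf_dvd_of_pow_eq_one (by rw [← h3.neg_pow, pow_orderOf_eq_one])
    · have : 2 * (k + k) ∣ 2 * orderOf (-u) := by
        rw [← h]
        exact orderOf_dvd_of_pow_eq_one (by
          rw [← (even_two_mul _).neg_pow, mul_comm, pow_mul, pow_orderOf_eq_one, one_pow])
      have := Nat.dvd_of_mul_dvd_mul_left two_pos this
      exact absurd (Even.trans_dvd ⟨k, rfl⟩ this) (Nat.not_even_iff_odd.2 h3)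
  · rw [← neg_one_mul, (Commute.all _ _).orderOf_mul_eq_mul_orderOf_of_coprime
      (by rw [h2, h]; exact Nat.coprime_two_left.2 ho), h2, h]

theorem psl_half {F : Type*} [Field F] [Fintype F] (hodd : Odd (Fintype.card F)) {m : ℕ} (hm : 2 ≤ m) :
    Fintype.card F ^ m + 1 ∈ spec (Matrix.ProjectiveSpecialLinearGroup (Fin (2 * m)) F) ↔
      padicValNat 2 (Fintype.card F - 1) < padicValNat 2 (2 * m) := by
  have hq : 1 < Fintype.card F := Fintype.one_lt_card
  have e1 : ((Fintype.card F : ℤ) - 1).natAbs = Fintype.card F - 1 := by omega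
  have e2 : ((Fintype.card F : ℤ) ^ m + 1).natAbs = Fintype.card F ^ m + 1 := by
    rw [← Int.natAbs_natCast (_ + 1)]; simp
  obtain ⟨c1, c2⟩ := cast_ne (F := F) (e := Fintype.card F) (by simp) (m := m) (by omega)
  rw [← val_iff (by omega) (by obtain ⟨k, hk⟩ := hodd; omega) (by omega), ← e1, ← e2]
  let L := AlgebraicClosure F
  constructor
  · rintro ⟨x, hx⟩
    obtain ⟨f, hd, hf⟩ := exists_lift x
    obtain ⟨r, hr, h1, h2⟩ := Comp2.Zsig.zsigmondy (Fintype.card F) (2 * m) hq (by omega)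
      (by obtain ⟨k, hk⟩ := hodd; omega) (by omega)
    have ho : orderOf ((Fintype.card F : ℤ) : ZMod r) = 2 * m := by
      simpa using ord_of_ppd (by omega) (by omega) h1 h2
    have : Nonempty (Fin (2 * m)) := ⟨⟨0, by omega⟩⟩
    refine fwd L (by omega) (inj_frob L F) (by simp) hd (ev_frob' L f) (hx ▸ hf) (fun k c hc => ?_)
      (fun w hw => ?_) c1 hr (dvd_of_ord (by omega) hr ho) ho
    · rw [e1]
      exact FiniteField.pow_card_sub_one_eq_one c (ne_zero_of_smul (hd.trans_ne one_ne_zero) hc)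
    · refine mem_range_of_pow_card L ?_
      rw [← Nat.sub_add_cancel hq.le, pow_succ, ← e1, hw, one_mul]
  · intro h
    obtain ⟨z, hz⟩ := exists_prim L F c2
    have h0 : (∑ i ∈ Finset.range (2 * m), (Fintype.card F : ℤ) ^ i).natAbs ≠ 0 :=
      fun h => c2 (by simp [h])
    obtain ⟨f, -, hf⟩ := exists_gl_orb (F := F) L hz.pow_eq_one (d := 2 * m)
      (by exact_mod_cast prim_fix L hz h0)
    obtain ⟨h1, h2⟩ := bwd L (by omega) hz h0 (f := f) (by simpa using hf) h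
    exact mem_spec_psl_of (by simp) h1 h2

theorem psu_half {F : Type*} [Field F] [Fintype F] {q : ℕ} (hF : Nat.card F = q ^ 2) (hodd : Odd q)
    {m : ℕ} (hm : 2 ≤ m) :
    (if Even m then q ^ m + 1 else q ^ m - 1) ∈ spec (Cfsg.PSU (2 * m) F q) ↔
      padicValNat 2 (q + 1) < padicValNat 2 (2 * m) := by
  have hq := Herm.two_le_of_card hF
  have e1 : (-(q : ℤ) - 1).natAbs = q + 1 := by omega
  have e2 : ((-q : ℤ) ^ m + 1).natAbs = if Even m then q ^ m + 1 else q ^ m - 1 := by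
    split_ifs with h
    · rw [h.neg_pow, ← Int.natAbs_natCast (_ + 1)]; simp
    · have : 1 ≤ q ^ m := Nat.one_le_pow _ _ (by omega)
      rw [(Nat.not_even_iff_odd.1 h).neg_pow, ← Nat.cast_pow]
      omega
  have hq0 : (q : F) = 0 := by
    have := FiniteField.cast_card_eq_zero F
    rw [← Nat.card_eq_fintype_card, hF] at this
    simpa using this
  obtain ⟨c1, c2⟩ := cast_ne (F := F) (e := -q) (by simp [hq0]) (m := m) (by omega)
  rw [← val_iff (by omega) (by obtain ⟨k, hk⟩ := hodd; omega) (by omega), ← e1, ← e2]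
  let L := AlgebraicClosure F
  constructor
  · rintro ⟨x, hx⟩
    obtain ⟨f, hu, hd, hf⟩ := exists_lift_psu hF (by omega) x
    obtain ⟨r, hr, ho⟩ : ∃ r : ℕ, r.Prime ∧ orderOf ((-q : ℤ) : ZMod r) = 2 * m := by
      rcases Nat.even_or_odd m with he | he
      · obtain ⟨r, hr, h1, h2⟩ := Comp2.Zsig.zsigmondy q (2 * m) hq (by omega)
          (by obtain ⟨k, hk⟩ := hodd; omega) (by omega)
        have := Fact.mk hr
        exact ⟨r, hr, by simpa using ord_neg hm (Or.inl ⟨he, ord_of_ppd (by omega) (by omega) h1 h2⟩)⟩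
      · obtain ⟨r, hr, h1, h2⟩ := Comp2.Zsig.zsigmondy q m hq (by omega)
          (by obtain ⟨k, hk⟩ := hodd; omega) (by obtain ⟨k, hk⟩ := he; omega)
        have := Fact.mk hr
        exact ⟨r, hr, by simpa using ord_neg hm (Or.inr ⟨he, ord_of_ppd (by omega) (by omega) h1 h2⟩)⟩
    have : Nonempty (Fin (2 * m)) := ⟨⟨0, by omega⟩⟩
    refine fwd L (by omega) (inj_negq L hF) (by simp) hd (hu.ev_stab L) (hx ▸ hf) (fun k c hc => ?_)
      (fun w hw => ?_) c1 hr (dvd_of_ord (by omega) hr ho) ho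
    · rw [e1]
      exact norm_pow hF (hu.norm_eq_one hc)
    · refine mem_range_of_pow_card L ?_
      rw [e1] at hw
      rw [← Nat.card_eq_fintype_card, hF, show q ^ 2 = (q + 1) * (q - 1) + 1 by
        obtain ⟨k, rfl⟩ : ∃ k, q = k + 1 := ⟨q - 1, by omega⟩
        simp; ring, pow_succ, pow_mul, hw, one_pow, one_mul]
  · intro h
    obtain ⟨z, hz⟩ := exists_prim L F c2
    have h0 : (∑ i ∈ Finset.range (2 * m), (-q : ℤ) ^ i).natAbs ≠ 0 := fun h => c2 (by simp [h])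
    obtain ⟨f, hu, -, hf⟩ := exists_isU_orb L hF c2 hz.pow_eq_one (d := 2 * m) (prim_fix L hz h0)
    obtain ⟨h1, h2⟩ := bwd L (by omega) hz h0 hf h
    exact hu.mem_spec_psu h1 (by omega) (by simp) h2

end Cfsg.Agent.Spc.Half
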