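import Mathlib
import Cfsg.Agent.Spc.S8

/-!
`Ω₉(q)` and `V ⋊ Ω₈⁻(q)`: constructions.
-/

set_option autoImplicit false
set_option backward.isDefEq.respectTransparency false

namespace Cfsg.Agent.Spc

open Module Polynomial Matrix Conj Spec Orth
open scoped _root_.Classical MatrixGroups

theorem exists_orbits3 {L : Type*} {χ ι : L → L} (hχ : Function.Injective χ) (hι : Function.Involutive ι)
    (hc : Function.Commute ι χ) (S : Finset L) (h : ∀ w ∈ S, χ w ∈ S) (h' : ∀ w ∈ S, ι w ∈ S)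
    (h'' : ∀ w ∈ S, ι w ≠ w) :
    ∃ D E : Multiset ℕ, 2 * (D.sum + E.sum) = S.card ∧
      ∀ z ∈ S, ∃ d, ((d ∈ D ∧ χ^[d] z = z) ∨ (d ∈ E ∧ χ^[d] z = ι z)) ∧
        ∀ j, (χ^[j] z = z ∨ χ^[j] z = ι z) ↔ d ∣ j := by
  have hci : ∀ i w, χ^[i] (ι w) = ι (χ^[i] w) := fun i w => ((hc.iterate_right i).eq w).symm
  induction S using Finset.strongInduction with
  | H S ih =>
  rcases S.eq_empty_or_nonempty with rfl | ⟨z, hz⟩
  · exact ⟨0, 0, by simp⟩
  obtain ⟨d, hd, h1, O, hO, hzO, -, hO2, hO3, hO4⟩ :=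
    exists_orb2 hχ hι hc (periodic_of_mem hχ (val_stab hχ h) hz) (h'' z hz)
  have hOS : O ⊆ S := fun w hw => by
    obtain ⟨i, rfl | rfl⟩ := hO2 w hw
    exacts [iterate_mem h hz i, h' _ (iterate_mem h hz i)]
  obtain ⟨D, E, D1, D3⟩ := ih (S \ O) (Finset.sdiff_ssubset hOS ⟨z, hzO⟩) (fun w hw => by
    rw [Finset.mem_sdiff] at hw ⊢
    exact ⟨h w hw.1, fun h' => hw.2 ((hO3 w).1 h')⟩) (fun w hw => by
    rw [Finset.mem_sdiff] at hw ⊢
    exact ⟨h' w hw.1, fun h' => hw.2 ((hO4 w).1 h')⟩) fun w hw => h'' w (Finset.mem_sdiff.1 hw).1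
  have hc := Finset.card_sdiff_add_card_eq_card hOS
  have comm : ∀ j i, χ^[j] (χ^[i] z) = χ^[i] (χ^[j] z) := fun j i => by
    rw [← Function.iterate_add_apply, add_comm, Function.iterate_add_apply]
  have key : ∀ w ∈ O, ∀ j, (χ^[j] w = w ↔ χ^[j] z = z) ∧ (χ^[j] w = ι w ↔ χ^[j] z = ι z) := fun w hw j => by
    obtain ⟨i, rfl | rfl⟩ := hO2 w hw
    · rw [comm, ← hci, (hχ.iterate i).eq_iff, (hχ.iterate i).eq_iff]; exact ⟨Iff.rfl, Iff.rfl⟩
    · rw [hci, hι.injective.eq_iff, hι.injective.eq_iff, comm, ← hci, (hχ.iterate i).eq_iff, (hχ.iterate i).eq_iff]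
      exact ⟨Iff.rfl, Iff.rfl⟩
  rcases (h1 d).2 dvd_rfl with h2 | h2
  · refine ⟨d ::ₘ D, E, by rw [Multiset.sum_cons]; omega, fun w hw => ?_⟩
    by_cases hwO : w ∈ O
    · exact ⟨d, Or.inl ⟨by simp, (key w hwO d).1.2 h2⟩, fun j => by rw [(key w hwO j).1, (key w hwO j).2, h1]⟩
    · obtain ⟨e, h3, h4⟩ := D3 w (Finset.mem_sdiff.2 ⟨hw, hwO⟩)
      exact ⟨e, h3.imp_left fun h => ⟨by simp [h.1], h.2⟩, h4⟩
  · refine ⟨D, d ::ₘ E, by rw [Multiset.sum_cons]; omega, fun w hw => ?_⟩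
    by_cases hwO : w ∈ O
    · exact ⟨d, Or.inr ⟨by simp, (key w hwO d).2.2 h2⟩, fun j => by rw [(key w hwO j).1, (key w hwO j).2, h1]⟩
    · obtain ⟨e, h3, h4⟩ := D3 w (Finset.mem_sdiff.2 ⟨hw, hwO⟩)
      exact ⟨e, h3.imp_right fun h => ⟨by simp [h.1], h.2⟩, h4⟩

variable {F : Type*} [Field F] [Fintype F] {V W : Type*} [AddCommGroup V] [Module F V] [AddCommGroup W] [Module F W]
  [FiniteDimensional F V] [FiniteDimensional F W]

/-- typed element of `Ω` -/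
def IsOmT (ε : Prop) (f : End F V) : Prop :=
  ∃ Q : QuadraticForm F V, ND Q ∧ (IsPlus Q ↔ ε) ∧ ∃ g ∈ commutator (OG Q), subRep _ g = f

theorem exists_unQ (h2 : (2 : F) ≠ 0) {Q : QuadraticForm F V} (hQ : ND Q) (ho : Odd (finrank F V)) (ε : Prop) :
    ∃ c : F, c ≠ 0 ∧ (IsPlus (Q.prod (unQ c)) ↔ ε) := by
  obtain ⟨m, hm⟩ := ho
  obtain ⟨d, hd, ⟨e⟩⟩ := hQ.iso_odd hm
  have key : ∀ c : F, c ≠ 0 → (IsPlus (Q.prod (unQ c)) ↔ IsPlus ((unQ d).prod (unQ c))) := fun c hc => by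
    rw [← isPlus_iff_of_iso (e.prod (QuadraticMap.IsometryEquiv.refl (unQ c))), 
      isPlus_iff_of_iso (prodAssocIso (plusQ m F) (unQ d) (unQ c)),
      Asch.isPlus_prod_iff (nd_plusQ m) (nd_prod (nd_unQ h2 hd) (nd_unQ h2 hc)) (by simp) (by simp),
      iff_true_intro (isPlus_plusQ m), true_iff]
  by_cases h : ε
  · refine ⟨-d, neg_ne_zero.2 hd, (key _ (neg_ne_zero.2 hd)).trans (iff_of_true ⟨Submodule.span F {(1, 1)},
      sing_span_singleton (by simp [unQ_apply]), ?_⟩ h)⟩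
    rw [finrank_span_singleton (by simp)]; simp
  · obtain ⟨n, hn⟩ := exists_not_isSquare h2
    have hn0 : n ≠ 0 := by rintro rfl; exact hn IsSquare.zero
    have hc : -(d * n) ≠ 0 := by simp [hd, hn0]
    refine ⟨_, hc, (key _ hc).trans (iff_of_false ?_ h)⟩
    rintro ⟨U, hU, h1⟩
    obtain ⟨⟨x, y⟩, hx, h0⟩ := Submodule.exists_mem_ne_zero_of_ne_bot (p := U) (by rintro rfl; simp at h1)
    have := hU _ hx
    simp only [QuadraticMap.prod_apply, unQ_apply] at this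
    by_cases hy : y = 0
    · exact h0 (by simpa [hy, hd] using this)
    · exact hn ⟨x / y, by field_simp; exact mul_left_cancel₀ hd (by linear_combination -this)⟩

theorem IsO.extend (h2 : (2 : F) ≠ 0) {f : End F V} (hf : IsO f) (ho : Odd (finrank F V)) (ε : Prop) :
    IsOT ε (f.prodMap (1 : End F F) : End F (V × F)) := by
  obtain ⟨Q, hQ, h⟩ := hf
  obtain ⟨c, hc, h1⟩ := exists_unQ h2 hQ ho ε
  exact ⟨_, nd_prod hQ (nd_unQ h2 hc), h1, fun x => by simp [h]⟩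

omit [Fintype F] [FiniteDimensional F V] [FiniteDimensional F W] in
theorem subRep_sumHom {Q : QuadraticForm F V} {R : QuadraticForm F W} (a : OG Q) (b : OG R) :
    subRep _ (sumHom (QuadraticMap.IsometryEquiv.refl (Q.prod R)) (a, b)) = (subRep _ a).prodMap (subRep _ b) :=
  LinearMap.ext fun x => sumHom_apply' (QuadraticMap.IsometryEquiv.refl (Q.prod R)) (a, b) x

theorem IsOm.extend (h2 : (2 : F) ≠ 0) {f : End F V} (hf : IsOm f) (ho : Odd (finrank F V)) (ε : Prop) :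
    IsOmT ε (f.prodMap (1 : End F F) : End F (V × F)) := by
  obtain ⟨Q, hQ, g, hg, rfl⟩ := hf
  obtain ⟨c, hc, h1⟩ := exists_unQ h2 hQ ho ε
  exact ⟨_, nd_prod hQ (nd_unQ h2 hc), h1, _, sumHom_mem_commutator _ hg (one_mem _), by
    rw [subRep_sumHom, map_one]⟩

theorem even_rk_of_det (h2 : (2 : F) ≠ 0) {Q : QuadraticForm F V} (hQ : ND Q) {g : OG Q}
    (h : LinearMap.det (subRep _ g) = 1) : Even (rk g) := (hQ.detO_eq_one_iff h2 g).1 h

theorem det_of_fpf (h2 : (2 : F) ≠ 0) {f : End F V} (hf : IsO f) (he : Even (finrank F V))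
    (h : ∀ x, f x = x → x = 0) : LinearMap.det f = 1 := by
  obtain ⟨Q, hQ, h1⟩ := hf
  obtain ⟨g, rfl⟩ := Spc.exists_og hQ h1
  exact (hQ.detO_eq_one_iff h2 g).2 (by rwa [rk_eq, rank_of_fpf h])

theorem pad_spin (h2 : (2 : F) ≠ 0) {ε : Prop} {f : End F V} (hf : IsOT ε f) (he : Even (finrank F V))
    (hd : LinearMap.det f = 1) : ∃ t : End F (Fin 1 ⊕ Fin 1 → F), IsOmT ε (f.prodMap t : End F (V × _)) := by
  obtain ⟨Q, hQ, h1, h3⟩ := hf
  obtain ⟨g, rfl⟩ := Spc.exists_og hQ h3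
  have hR := nd_prod hQ (nd_plusQ (F := F) 1)
  obtain ⟨c, hc, h4⟩ : ∃ c : F, c ≠ 0 ∧ (IsSquare c ↔ SqSpin g) := by
    by_cases h : SqSpin g
    · exact ⟨1, one_ne_zero, iff_of_true IsSquare.one h⟩
    · obtain ⟨n, hn⟩ := exists_not_isSquare h2
      exact ⟨n, by rintro rfl; exact hn IsSquare.zero, iff_of_false hn h⟩
  let A : GL (Fin 1) F := GeneralLinearGroup.scalar _ (Units.mk0 c hc)
  refine ⟨subRep _ (levi 1 F A), _, hR, by
    rw [Asch.isPlus_prod_iff hQ (nd_plusQ 1) he (by simp), iff_true_intro (isPlus_plusQ 1), iff_true, h1],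
    _, (hR.mem_commutator_iff (good_of_two_ne_zero h2) _).2 ⟨?_, ?_⟩, subRep_sumHom g _⟩
  · rw [rk_sumHom]
    exact (even_rk_of_det h2 hQ hd).add ((nd_plusQ 1).even_rk_of_mem_stab (good_of_two_ne_zero h2) (finrank_plus 1)
      (sing_stdX 1) (finrank_stdX 1) (levi_mem_stabX A))
  · rw [sumHom_eq_mul, hR.sqSpin_mul (good_of_two_ne_zero h2), sqSpin_sumHom_left _ hR hQ (good_of_two_ne_zero h2),
      sqSpin_sumHom_right _ hR (nd_plusQ 1) (good_of_two_ne_zero h2), sqSpin_levi (good_of_two_ne_zero h2), ← h4]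
    simp [A]

theorem flip_spin (h2 : (2 : F) ≠ 0) {t : End F V} {h : End F W} (ht : IsOT False t) (hh : IsOT True h)
    (hV : finrank F V = 2 * 2) (hW : Even (finrank F W)) (d1 : LinearMap.det t = 1) (d2 : LinearMap.det h = 1) :
    IsOmT False (t.prodMap h : End F (V × W)) ∨ IsOmT False ((-t).prodMap h : End F (V × W)) := by
  obtain ⟨Q, hQ, h1, h3⟩ := ht
  obtain ⟨R, hR, k1, k3⟩ := hh
  obtain ⟨a, rfl⟩ := Spc.exists_og hQ h3
  obtain ⟨b, rfl⟩ := Spc.exists_og hR k3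
  have hP := nd_prod hQ hR
  have hg := good_of_two_ne_zero (V := V × W) h2
  have hT : IsPlus (Q.prod R) ↔ False := by rw [Asch.isPlus_prod_iff hQ hR (by simp [hV]; decide) hW, h1, k1]; simp
  have e1 := even_rk_of_det h2 hQ d1
  have e2 := even_rk_of_det h2 hR d2
  by_cases hs : SqSpin (sumHom (QuadraticMap.IsometryEquiv.refl (Q.prod R)) (a, b))
  · exact Or.inl ⟨_, hP, hT, _, (hP.mem_commutator_iff hg _).2 ⟨by rw [rk_sumHom]; exact e1.add e2, hs⟩,
      subRep_sumHom a b⟩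
  · refine Or.inr ⟨_, hP, hT, _, (hP.mem_commutator_iff hg _).2 ⟨?_, ?_⟩, subRep_sumHom (negOne Q * a) b⟩
    · rw [rk_sumHom]
      exact ((hQ.even_rk_mul (good_of_two_ne_zero (V := V) h2) (negOne Q) a).2 (iff_of_true (by
        rw [rk_negOne h2, hV]; decide) e1)).add e2
    · rw [show (negOne Q * a, b) = (negOne Q, 1) * (a, b) by simp, map_mul, hP.sqSpin_mul hg,
        sqSpin_sumHom_left _ hP hQ (good_of_two_ne_zero h2)]
      exact iff_of_false (not_sqSpin_negOne h2 hQ h1.1 hV even_two) hs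

/-- `N` divides the order of an element of `V ⋊ Ω(Q)`. -/
def Rz (Q : QuadraticForm F V) (N : ℕ) : Prop := ∃ g ∈ commutator (OG Q), AO (subRep _ g) N

section rz
variable (p : ℕ) [hp : Fact p.Prime] [CharP F p] (h2 : (2 : F) ≠ 0) {Q : QuadraticForm F V} (hQ : ND Q)
  (hm : ¬ IsPlus Q) (hd : finrank F V = 2 * 4) {N : ℕ}
include hQ hm hd

theorem IsOmT.rz {f : End F W} (hf : IsOmT False f) (hW : finrank F W = 8) (h : AO f N) : Rz Q N := by
  obtain ⟨R, h1, h3, g, hg, rfl⟩ := hf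
  obtain ⟨e⟩ := h1.iso_of_isPlus_iff hQ (by omega) (by rw [hW]; decide) (by tauto)
  exact ⟨ogCongr e g, map_mem_commutator (ogCongr e).toMonoidHom hg,
    Sim.ao ⟨e.toLinearEquiv, fun v => (ogCongr_apply_apply e g v).symm⟩ h⟩

include h2

theorem rz_pm {f : End F W} (hf : IsOT False f) (hW : finrank F W = 2 * 4) (hdet : LinearMap.det f = 1)
    (h : AO f N) (h' : AO (-f) N) : Rz Q N := by
  obtain ⟨g, h1, h3, h4⟩ := exists_sqSpin_ao h2 hQ hm hd (by decide) hf hW h h'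
  refine ⟨g, (hQ.mem_commutator_iff (good_of_two_ne_zero h2) _).2 ⟨even_rk_of_det h2 hQ ?_, h1⟩, h3⟩
  rcases h4 with h4 | h4 <;> rw [← h4.det_eq]
  · exact hdet
  · rw [← neg_one_smul F, det_smul', hdet, hW]; norm_num

theorem rz_one (h' : ∀ m, (Fintype.card F ^ 4 + 1) / 2 ∣ m → N ∣ m) : Rz Q N := by
  obtain ⟨t, ⟨R, h1, h3, h4⟩, h5, -⟩ := exists_minus (F := F) four_pos
  obtain ⟨g, rfl⟩ := Spc.exists_og h1 h4
  refine IsOmT.rz hQ hm hd ⟨R, h1, h3, _, h1.sq_mem_commutator (good_of_two_ne_zero h2) g, rfl⟩ (by simp)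
    (ao_of_pow fun m hm => h' m (div_dvd_of_dvd_mul two_pos (even_card_pow h2 4).2 ((h5 _).1 ?_)))
  rwa [map_mul, ← sq, ← pow_mul] at hm

theorem rz_two {a b : ℕ} (ha : 0 < a) (hb : 0 < b) (hab : a + b = 4)
    (h4 : 4 ∣ Fintype.card F ^ a - 1 ∨ 4 ∣ Fintype.card F ^ b + 1)
    (h : ∀ m, Fintype.card F ^ a - 1 ∣ m → Fintype.card F ^ b + 1 ∣ m → N ∣ m) : Rz Q N := by
  obtain ⟨s, s1, s3, s2⟩ := exists_plus (F := F) ha
  obtain ⟨t, t1, t2, t3⟩ := exists_minus (F := F) hb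
  have h3 : ∀ m, (s.prodMap t : End F _) ^ m = 1 → N ∣ m := fun m hm =>
    h m ((s2 m).1 (prodMap_pow_eq_one.1 hm).1) ((t2 m).1 (prodMap_pow_eq_one.1 hm).2)
  refine rz_pm h2 hQ hm hd ((s1.prodMap t1 (by simp) (by simp)).congr (by simp)) (by simp; omega) (by
    rw [det_prodMap', s3, det_of_fpf h2 t1.isO (by simp) (by
      simpa using t3 1 (by simpa using Fintype.card_ne_zero)), mul_one]) (ao_of_pow h3)
    (ao_of_pow fun m hm => h3 m (pow_eq_one_of_neg hm fun h => ?_))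
  rcases h4 with h4 | h4
  · exact even_of_four (fun m => (s2 m).1) h4 (prodMap_pow_neg h).1
  · exact even_of_four (fun m => (t2 m).1) h4 (prodMap_pow_neg h).2

omit hQ hm hd h2 in
theorem ao_one : AO (1 : End F (Fin 2 → F)) p := by
  simpa using ao_of_fixed p (f := (1 : End F (Fin 2 → F))) (v := ![1, 0]) (by simp) rfl (fun m _ => one_dvd m)
    (by simp)

omit hQ hm hd in
theorem exists_rot {T : ℕ} (hT : T = Fintype.card F + 1 ∨ T = Fintype.card F - 1) :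
    ∃ (a : Prop) (s : End F (Fin 2 → F)), IsOT a s ∧ LinearMap.det s = 1 ∧ ∀ m, s ^ m = 1 → T ∣ m := by
  rcases hT with rfl | rfl
  · obtain ⟨t, t1, t2, t3⟩ := exists_minus (F := F) one_pos
    exact ⟨_, t, t1, det_of_fpf h2 t1.isO (by simp) (by simpa using t3 1 (by simp)), by
      simpa using fun m => (t2 m).1⟩
  · obtain ⟨s, s1, s3, s2⟩ := exists_plus (F := F) one_pos
    obtain ⟨g, hg⟩ := exists_fin s (n := 2) (by simp)
    exact ⟨_, g, s1.sim hg, hg.det_eq ▸ s3, fun m hm => by simpa using (s2 m).1 ((hg.pow m).one_iff.2 hm)⟩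

theorem rz_three (h : ∀ m, Fintype.card F ^ 2 - 1 ∣ m → p ∣ m → N ∣ m) : Rz Q N := by
  obtain ⟨s, s1, s3, s2⟩ := exists_plus (F := F) two_pos
  obtain ⟨t, ht⟩ := pad_spin h2 (s1.prodMap (isOT_one False) (by simp; decide) (by simp)) (by simp; decide)
    (by rw [det_prodMap', s3, det_one', mul_one])
  exact IsOmT.rz hQ hm hd (by simpa using ht) (by simp) (((ao_of_pow fun m => (s2 m).1).prodMap (ao_one p) h).prodMap
    (ao_of_pow fun m _ => one_dvd m) fun m h _ => h)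

theorem rz_four {T : ℕ} (hT : T = Fintype.card F + 1 ∨ T = Fintype.card F - 1)
    (h : ∀ m, T ∣ m → p ^ Nat.clog p 4 ∣ m → N ∣ m) : Rz Q N := by
  obtain ⟨a, s, s1, s3, s2⟩ := exists_rot h2 hT
  obtain ⟨u, u1, u2, u3⟩ := exists_isO_unip (F := F) h2 (k := 3) (by decide)
  obtain ⟨t, ht⟩ := pad_spin h2 (s1.prodMap (u1.extend h2 (by simp; decide) (¬ a)) (by simp) (by simp; decide))
    (by simp; decide) (by rw [det_prodMap', det_prodMap', s3, det_one', det_unip u2, mul_one, mul_one])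
  exact IsOmT.rz hQ hm hd (by simpa using ht) (by simp) (((ao_of_pow s2).prodMap ((ao_unip p u2 (k := 2) (by
    simp [u3])).prodMap (ao_of_pow (f := (1 : End F F)) fun m _ => one_dvd m) fun m h _ => h) h).prodMap
    (ao_of_pow fun m _ => one_dvd m) fun m h _ => h)

omit hQ hm hd in
theorem isOm_unip {u : End F V} (h1 : IsO u) (h : IsNilpotent (u - 1)) : IsOm u := by
  obtain ⟨p, hc⟩ := CharP.exists F
  haveI hp : Fact p.Prime := ⟨CharP.char_is_prime F p⟩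
  exact h1.isOm_of_odd h2 ((hp.out.odd_of_ne_two fun h => h2 (by subst h; exact CharP.cast_eq_zero F 2)).pow)
    (ap_unip p (nil_pow_finrank h) (j := finrank F V) (Nat.lt_pow_self hp.out.one_lt) 0).1

theorem rz_five (h : ∀ m, 2 ∣ m → p ^ Nat.clog p 6 ∣ m → N ∣ m) : Rz Q N := by
  obtain ⟨u, u1, u2, u3⟩ := exists_isO_unip (F := F) h2 (k := 5) (by decide)
  exact IsOmT.rz hQ hm hd (((isOm_neg_one h2).prodMap (isOm_unip h2 u1 u2)).extend h2 (by simp; decide) False)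
    (by simp) (((ao_of_pow fun m => (neg_one_pow_iff h2 m).1).prodMap (ao_unip p u2 (k := 4) (by simp [u3])) h).prodMap
    (ao_of_pow (f := (1 : End F F)) fun m _ => one_dvd m) fun m h _ => h)

theorem rz_six {T : ℕ} (hT : T = Fintype.card F + 1 ∨ T = Fintype.card F - 1)
    (h : ∀ m, Fintype.card F ^ 2 + 1 ∣ m → T ∣ m → p ∣ m → N ∣ m) : Rz Q N := by
  obtain ⟨a, s, s1, s3, s2⟩ := exists_rot h2 hT
  obtain ⟨t, t1, t2, t3⟩ := exists_minus (F := F) two_pos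
  have hT2 : 2 ∣ T := by
    rcases hT with rfl | rfl
    exacts [by simpa using (even_card_pow h2 1).2, by simpa using (even_card_pow h2 1).1]
  obtain ⟨w, hw⟩ := ao_one (F := F) p
  rcases flip_spin h2 t1 ((s1.prodMap (isOT_one a) (by simp) (by simp)).congr (by simp)) (by simp) (by simp; decide)
    (det_of_fpf h2 t1.isO (by simp; decide) (by simpa using t3 1 (by simp)))
    (by rw [det_prodMap', s3, det_one', mul_one]) with h3 | h3 <;>
    refine IsOmT.rz hQ hm hd h3 (by simp) ⟨(0, 0, w), fun m hm => ?_⟩ <;>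
    obtain ⟨h4, h5⟩ := ap_prodMap.1 hm <;> obtain ⟨h5, h6⟩ := ap_prodMap.1 h5
  · exact h m ((t2 m).1 h4.1) (s2 m h5.1) (hw m h6)
  · exact h m ((t2 m).1 (pow_eq_one_of_neg h4.1 fun _ => even_iff_two_dvd.2 (hT2.trans (s2 m h5.1)))) (s2 m h5.1)
      (hw m h6)

end rz

end Cfsg.Agent.Spc
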