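import Mathlib
import Cfsg.Agent.Spc.O9

/-!
`Ω₉(q)` and `V ⋊ Ω₈⁻(q)`: fixed-point-free elements of `Ω₈⁺(q)`.
-/

set_option autoImplicit false
set_option backward.isDefEq.respectTransparency false

namespace Cfsg.Agent.Spc

open Module Polynomial Matrix Conj Spec Orth
open scoped _root_.Classical MatrixGroups

theorem count_orb {L : Type*} {χ ι : L → L} (hχ : Function.Injective χ) (hι : Function.Involutive ι)
    (hc : Function.Commute ι χ) {M : Multiset L} (h1 : M.map χ = M) (h2 : M.map ι = M) (h3 : ∀ w ∈ M, ι w ≠ w)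
    {z : L} (hz : z ∈ M) {d : ℕ} (hd : ∀ j, (χ^[j] z = z ∨ χ^[j] z = ι z) ↔ d ∣ j) :
    0 < d ∧ M.toFinset.card + 2 * d * M.count z ≤ M.card + 2 * d := by
  obtain ⟨η, h0, h4, O, hO, -, -, h5, -⟩ := exists_orb2 hχ hι hc (periodic_of_mem hχ h1 hz) (h3 z hz)
  obtain rfl : d = η := Nat.dvd_antisymm ((hd _).1 ((h4 _).2 dvd_rfl)) ((h4 _).1 ((hd _).2 dvd_rfl))
  have h6 : ∀ w ∈ O, M.count w = M.count z := fun w hw => by
    obtain ⟨i, rfl | rfl⟩ := h5 w hw
    · exact count_iterate hχ h1 z i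
    · exact (count_iterate hι.injective h2 _ 1).trans (count_iterate hχ h1 z i)
  have h7 : O ⊆ M.toFinset := fun w hw => Multiset.mem_toFinset.2 (Multiset.count_pos.1 (by
    rw [h6 w hw]; exact Multiset.count_pos.2 hz))
  have h8 := mul_card_add_le (M := M) (S := O) (T := M.toFinset \ O) (c := M.count z) (d := 1)
    (fun w hw => (h6 w hw).ge) (fun w hw => Multiset.one_le_count_iff_mem.2
      (Multiset.mem_toFinset.1 (Finset.mem_sdiff.1 hw).1)) Finset.disjoint_sdiff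
  have h9 := Finset.card_sdiff_add_card_eq_card h7
  rw [hO, mul_comm] at h8
  exact ⟨h0, by omega⟩

theorem nine_cases {L : Type*} [Field L] {q : ℕ} {S : Finset L} {D E : Multiset ℕ} {c : L → ℕ} {s : ℕ}
    (h1 : D.sum + E.sum = s) (hs : s ≤ 4) (h : ∀ z ∈ S, ∃ d, 0 < d ∧ d ≠ 4 ∧ 2 * s + 2 * d * c z ≤ 8 + 2 * d ∧
      ((d ∈ D ∧ z ^ (q ^ d - 1) = 1) ∨ (d ∈ E ∧ z ^ (q ^ d + 1) = 1))) :
    (3 ≤ s ∧ (∀ z ∈ S, c z ≤ 1) ∧ ∃ a b, 0 < a ∧ 0 < b ∧ a + b = 4 ∧
        ∀ z ∈ S, z ^ (q ^ a - 1) = 1 ∨ z ^ (q ^ b + 1) = 1) ∨ (s = 0 ∧ S = ∅) ∨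
      (1 ≤ s ∧ (∀ z ∈ S, c z ≤ 4) ∧ ∃ T, (T = q + 1 ∨ T = q - 1) ∧ ∀ z ∈ S, z ^ T = 1) ∨
      (2 ≤ s ∧ (∀ z ∈ S, c z ≤ 3) ∧ ((∀ z ∈ S, z ^ (q ^ 2 - 1) = 1) ∨
        ∃ T, (T = q + 1 ∨ T = q - 1) ∧ ∀ z ∈ S, z ^ (q ^ 2 + 1) = 1 ∨ z ^ T = 1)) := by
  have le : ∀ {M : Multiset ℕ} {d : ℕ}, d ∈ M → d ≤ M.sum := fun h => Multiset.single_le_sum (by simp) _ h
  have le2 : ∀ {M : Multiset ℕ} {d e : ℕ}, d ∈ M → e ∈ M → d ≠ e → d + e ≤ M.sum := fun {M d e} hd he hne => by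
    obtain ⟨M, rfl⟩ := Multiset.exists_cons_of_mem hd
    rw [Multiset.sum_cons]
    exact Nat.add_le_add_left (le ((Multiset.mem_cons.1 he).resolve_left hne.symm)) _
  have sub : ∀ {z : L} {a b : ℕ}, z ^ (q ^ a - 1) = 1 → a ∣ b → z ^ (q ^ b - 1) = 1 := fun h hd =>
    pow_eq_one_of_dvd h (Nat.pow_sub_one_dvd_pow_sub_one q hd)
  have add : ∀ {z : L} {b : ℕ}, z ^ (q ^ 1 + 1) = 1 → Odd b → z ^ (q ^ b + 1) = 1 := fun h hb =>
    pow_eq_one_of_dvd h (by simpa using hb.nat_add_dvd_pow_add_pow q 1)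
  have add2 : ∀ {z : L}, z ^ (q ^ 1 + 1) = 1 → z ^ (q ^ 2 - 1) = 1 := fun h =>
    pow_eq_one_of_dvd h (by rw [sq_sub_one', pow_one]; exact dvd_mul_left _ _)
  have cnt : ∀ k, 4 ≤ s + k → ∀ z ∈ S, c z ≤ k + 1 := fun k hk z hz => by
    obtain ⟨d, h0, -, h2, -⟩ := h z hz
    by_contra h3
    have : d * (k + 2) ≤ d * c z := Nat.mul_le_mul_left _ (by omega)
    nlinarith
  by_cases c3 : 3 ∈ D
  · have := le c3
    refine Or.inl ⟨by omega, fun z hz => ?_, 3, 1, by decide, one_pos, rfl, fun z hz => ?_⟩ <;>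
      obtain ⟨d, h0, h4, h2, ⟨hd, h⟩ | ⟨hd, h⟩⟩ := h z hz
    · by_cases h4 : d = 3
      · subst h4; omega
      · have := le2 hd c3 h4; exact cnt 0 (by omega) z hz
    · have := le hd; exact cnt 0 (by omega) z hz
    · by_cases h4 : d = 3
      · exact Or.inl (by rwa [← h4])
      · have := le2 hd c3 h4
        obtain rfl : d = 1 := by omega
        exact Or.inl (sub h (one_dvd _))
    · have := le hd
      obtain rfl : d = 1 := by omega
      exact Or.inr h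
  by_cases c4 : 3 ∈ E
  · have := le c4
    refine Or.inl ⟨by omega, fun z hz => ?_, 1, 3, one_pos, by decide, rfl, fun z hz => ?_⟩ <;>
      obtain ⟨d, h0, h4, h2, ⟨hd, h⟩ | ⟨hd, h⟩⟩ := h z hz
    · have := le hd; exact cnt 0 (by omega) z hz
    · by_cases h4 : d = 3
      · subst h4; omega
      · have := le2 hd c4 h4; exact cnt 0 (by omega) z hz
    · have := le hd
      obtain rfl : d = 1 := by omega
      exact Or.inl h
    · by_cases h4 : d = 3
      · exact Or.inr (by rwa [← h4])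
      · have := le2 hd c4 h4
        obtain rfl : d = 1 := by omega
        exact Or.inr (add h (by decide))
  have h2 : ∀ z ∈ S, (1 ∈ D ∧ z ^ (q ^ 1 - 1) = 1) ∨ (2 ∈ D ∧ z ^ (q ^ 2 - 1) = 1) ∨
      (1 ∈ E ∧ z ^ (q ^ 1 + 1) = 1) ∨ (2 ∈ E ∧ z ^ (q ^ 2 + 1) = 1) := fun z hz => by
    obtain ⟨d, h0, h4, -, ⟨hd, h⟩ | ⟨hd, h⟩⟩ := h z hz <;> have := le hd
    · have : d ≠ 3 := by rintro rfl; exact c3 hd
      obtain rfl | rfl : d = 1 ∨ d = 2 := by omega
      exacts [Or.inl ⟨hd, h⟩, Or.inr (Or.inl ⟨hd, h⟩)]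
    · have : d ≠ 3 := by rintro rfl; exact c4 hd
      obtain rfl | rfl : d = 1 ∨ d = 2 := by omega
      exacts [Or.inr (Or.inr (Or.inl ⟨hd, h⟩)), Or.inr (Or.inr (Or.inr ⟨hd, h⟩))]
  by_cases s4 : s = 4
  · refine Or.inl ⟨by omega, cnt 0 (by omega), 2, 2, two_pos, two_pos, rfl, fun z hz => ?_⟩
    rcases h2 z hz with h | h | h | h
    exacts [Or.inl (sub h.2 (one_dvd _)), Or.inl h.2, Or.inl (add2 h.2), Or.inr h.2]
  by_cases s0 : s = 0
  · refine Or.inr (Or.inl ⟨s0, Finset.eq_empty_of_forall_notMem fun z hz => ?_⟩)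
    rcases h2 z hz with h | h | h | h <;> have := le h.1 <;> omega
  by_cases s1 : s = 1
  · refine Or.inr (Or.inr (Or.inl ⟨by omega, cnt 3 (by omega), ?_⟩))
    by_cases c1 : 1 ∈ D
    · refine ⟨_, Or.inr rfl, fun z hz => ?_⟩
      have := le c1
      rcases h2 z hz with h | h | h | h <;> have := le h.1
      exacts [by simpa using h.2, by omega, by omega, by omega]
    · refine ⟨_, Or.inl rfl, fun z hz => ?_⟩
      rcases h2 z hz with h | h | h | h <;> have := le h.1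
      exacts [(c1 h.1).elim, by omega, by simpa using h.2, by omega]
  refine Or.inr (Or.inr (Or.inr ⟨by omega, cnt 2 (by omega), ?_⟩))
  by_cases c2 : 2 ∈ E
  · have := le c2
    right
    by_cases c1 : 1 ∈ D
    · refine ⟨_, Or.inr rfl, fun z hz => ?_⟩
      have := le c1
      rcases h2 z hz with h | h | h | h <;> have := le h.1
      exacts [Or.inr (by simpa using h.2), by omega, by have := le2 h.1 c2 (by decide); omega, Or.inl h.2]
    · refine ⟨_, Or.inl rfl, fun z hz => ?_⟩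
      rcases h2 z hz with h | h | h | h <;> have := le h.1
      exacts [(c1 h.1).elim, by omega, Or.inr (by simpa using h.2), Or.inl h.2]
  · refine Or.inl fun z hz => ?_
    rcases h2 z hz with h | h | h | h
    exacts [sub h.2 (one_dvd _), h.2, add2 h.2, (c2 h.1).elim]

variable {F : Type*} [Field F] [Fintype F] {V W : Type*} [AddCommGroup V] [Module F V] [AddCommGroup W] [Module F W]
  [FiniteDimensional F V] [FiniteDimensional F W]

theorem iso_of_ev {Q : QuadraticForm F V} {R : QuadraticForm F W} (hQ : ND Q) (hR : ND R) (g : OG Q) (h : OG R)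
    {N : ℕ} (hN : (N : F) ≠ 0) (hg : subRep _ g ^ N = 1) (hh : subRep _ h ^ N = 1)
    (he : ev (AlgebraicClosure F) (subRep _ g) = ev _ (subRep _ h))
    (hi : ∀ z ∈ ev (AlgebraicClosure F) (subRep _ g), z⁻¹ ≠ z) : ∃ e : Q.IsometryEquiv R, ogCongr e g = h := by
  obtain ⟨e, h1, h2⟩ := quad_iso_of_fpf hQ hR g.2 h.2 (sim_of_ev (AlgebraicClosure F) (squarefree_X_pow_sub_one hN)
    (squarefree_X_pow_sub_one hN) (aeval_of_pow hg) (aeval_of_pow hh) he)
    (fpf_of_ev _ fun h => hi _ h inv_one) fun x hx => by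
      by_contra h0
      exact hi _ (mem_ev_of_apply (AlgebraicClosure F) (a := -1) h0 (by rw [neg_one_smul]; exact hx)) (by simp)
  exact ⟨⟨e, h2⟩, OG.ext fun v => (h1 _).trans (congrArg h.1 (e.apply_symm_apply v))⟩

theorem ev_levi {m : ℕ} (A : GL (Fin m) F) : ev (AlgebraicClosure F) (subRep _ (levi m F A)) =
    ev _ (toLin' A.1) + (ev _ (toLin' A.1)).map (·⁻¹) := by
  rw [← ev_inv' (AlgebraicClosure F) (f := toLin' A.1) (g := toLin' (A⁻¹).1) (by
    rw [Module.End.mul_eq_comp, ← toLin'_mul, Units.mul_inv, toLin'_one]; rfl), ← ev_transpose _ (A⁻¹).1,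
    ← ev_prodMap]
  refine Sim.ev _ ⟨LinearEquiv.sumArrowLequivProdArrow _ _ F F, fun v => ?_⟩
  change LinearEquiv.sumArrowLequivProdArrow _ _ F F ((levi m F A).1 v) = _
  rw [levi_apply, fromBlocks_mulVec]
  ext i <;> simp [LinearEquiv.sumArrowLequivProdArrow, Equiv.sumArrowEquivProdArrow]

theorem ev_eq_orb {f : End F V} (hf : IsO f) {z : AlgebraicClosure F} (h : z ∈ ev _ f)
    {S : Finset (AlgebraicClosure F)}
    (h5 : ∀ w ∈ S, ∃ i, w = (· ^ Fintype.card F)^[i] z ∨ w = ((· ^ Fintype.card F)^[i] z)⁻¹)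
    (hS : finrank F V = S.card) : ev _ f = S.val ∧ ∀ w, (ev (AlgebraicClosure F) f).count w ≤ 1 := by
  let L := AlgebraicClosure F
  have hχ : Function.Injective fun z : L => z ^ Fintype.card F := by simpa using inj_frob L F
  have hit : ∀ i, (· ^ Fintype.card F)^[i] z ∈ ev L f := fun i =>
    Multiset.count_pos.1 (by rw [count_iterate hχ (ev_frob L f)]; exact Multiset.count_pos.2 h)
  refine count_le_of_card (fun w hw => ?_) (by rw [card_ev, hS])
  obtain ⟨i, rfl | rfl⟩ := h5 w hw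
  exacts [hit i, hf.ev_inv L ▸ Multiset.mem_map_of_mem _ (hit i)]

theorem orb8 (p : ℕ) [hp : Fact p.Prime] [CharP F p] (h2 : (2 : F) ≠ 0) {Q : QuadraticForm F V} (hQ : ND Q)
    (hP : IsPlus Q) (hd : finrank F V = 2 * 4) {a : OG Q} (ha : a ∈ commutator (OG Q)) {z : AlgebraicClosure F}
    (hz : z ∈ ev _ (subRep _ a)) (hzi : z⁻¹ ≠ z)
    (h4 : ∀ j, ((· ^ Fintype.card F)^[j] z = z ∨ (· ^ Fintype.card F)^[j] z = z⁻¹) ↔ 4 ∣ j) :
    subRep _ a ^ ((Fintype.card F ^ 4 - 1) / 2) = 1 := by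
  let L := AlgebraicClosure F
  set q := Fintype.card F with hq'
  have hq : 1 < q := Fintype.one_lt_card
  have hq4 : 2 < q ^ 4 := lt_of_lt_of_le (by norm_num) (Nat.pow_le_pow_left (show 2 ≤ q from hq) 4)
  have hχ : Function.Injective fun z : L => z ^ q := by simpa using inj_frob L F
  have h0 := ne_zero_of_mem_ev L (isO_og hQ a).isUnit hz
  obtain ⟨η, -, h3, S, hS, -, hS', h5, -, h6⟩ := exists_orb2 hχ (ι := (·⁻¹)) inv_inv (fun z => by simp)
    (periodic_of_mem hχ (ev_frob L _) hz) hzi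
  obtain rfl : η = 4 := Nat.dvd_antisymm ((h3 _).1 ((h4 _).2 dvd_rfl)) ((h4 _).1 ((h3 _).2 dvd_rfl))
  obtain ⟨k1, k2⟩ := ev_eq_orb (isO_og hQ a) hz h5 (hd.trans hS.symm)
  have hpow : ∀ T, T ≠ 0 → z ^ T = 1 → subRep _ a ^ T = 1 := fun T hT h => by
    simpa using pow_eq_one_of_ev L p _ (j := 0) hT (fun w hw => by
      obtain ⟨i, rfl | rfl⟩ := h5 w (by rwa [k1] at hw) <;> rw [iterate_pow]
      · rw [pow_right_comm, h, one_pow]
      · rw [_root_.inv_pow, pow_right_comm, h, one_pow, _root_.inv_one]) (by simpa using k2)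
  have hi : ∀ w ∈ ev L (subRep _ a), w⁻¹ ≠ w := fun w hw => by
    obtain ⟨i, rfl | rfl⟩ := h5 w (by rwa [k1] at hw) <;> intro h <;> refine hzi (hχ.iterate i ?_) <;>
      simp only [iterate_pow, _root_.inv_pow] at h ⊢
    exacts [h, h.symm.trans (inv_inv _)]
  rcases (h4 4).2 dvd_rfl with h | h <;> rw [iterate_pow] at h
  · have h7 : z ^ (q ^ 4 - 1) = 1 := by rw [pow_sub₀ _ h0 (by omega), h, pow_one, mul_inv_cancel₀ h0]
    obtain ⟨f, f1, f2⟩ := exists_gl_orb (F := F) L h7 h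
    obtain ⟨A, hA⟩ := (IsUnit.of_pow_eq_one f1 (by omega)).map (toLinAlgEquiv' (R := F) (n := Fin 4)).symm
    obtain rfl : f = toLin' A.1 := by rw [hA]; exact (toLinAlgEquiv'.apply_symm_apply f).symm
    obtain ⟨e, he⟩ := iso_of_ev hQ (nd_plusQ 4) a (levi 4 F A) (cast_pow_sub_ne (F := F) four_pos)
      (hpow _ (Nat.sub_ne_zero_of_lt (one_lt_two.trans hq4)) h7) (by
        rw [← map_pow, ← map_pow, show A ^ (q ^ 4 - 1) = 1 from Units.ext (toLin'.injective (by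
          rw [Units.val_pow_eq_pow_val, toLin'_pow', f1]; exact toLin'_one.symm)), map_one, map_one])
      (by rw [ev_levi, f2, k1, hS', orb_map (fun z => by simp)]) hi
    obtain ⟨y, hy⟩ := (levi_mem_commutator_iff (good_of_two_ne_zero h2) A).1
      (he ▸ map_mem_commutator (ogCongr e).toMonoidHom ha)
    have h8 := prod_ev_eq_det L (toLin' A.1)
    rw [f2, LinearMap.det_toLin', hy] at h8
    have hy0 : y ≠ 0 := by rintro rfl; exact GeneralLinearGroup.det_ne_zero A (by simpa using hy)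
    obtain ⟨t, ht⟩ : 2 ∣ q - 1 := by simpa using (even_card_pow h2 1).1
    have h9 : (q ^ 4 - 1) / 2 = (1 + q + q ^ 2 + q ^ 3) * t := by
      refine Nat.div_eq_of_eq_mul_right two_pos ?_
      have : q = 2 * t + 1 := by omega
      rw [Nat.sub_eq_iff_eq_add (by omega), this]; ring
    refine hpow _ (by omega) ?_
    have h10 : (orb (· ^ q) z 4).prod = z ^ (1 + q + q ^ 2 + q ^ 3) := by
      simp [orb, Multiset.range_succ, iterate_pow, pow_add]; ring
    rw [h9, pow_mul, ← h10, h8, ← map_pow, ← sq, ← pow_mul, ← ht, FiniteField.pow_card_sub_one_eq_one y hy0, map_one]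
  · exfalso
    have h7 : z ^ (q ^ 4 + 1) = 1 := by rw [pow_succ, h, inv_mul_cancel₀ h0]
    obtain ⟨t, ⟨R, t1, t2, t3⟩, t4, t5⟩ := exists_minus (F := F) four_pos
    obtain ⟨g, rfl⟩ := Spc.exists_og t1 t3
    obtain ⟨w, hw⟩ := Multiset.card_pos_iff_exists_mem.1 (show 0 < (ev L (subRep _ g)).card by simp [card_ev])
    have hw' : IsPrimitiveRoot w (q ^ 4 + 1) := ⟨pow_eq_one_of_mem_ev L ((t4 _).2 dvd_rfl) hw, fun m hm => by
      by_contra h
      exact notMem_ev_of_fpf L (t5 m h) (by rw [ev_pow']; exact Multiset.mem_map.2 ⟨w, hw, hm⟩)⟩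
    obtain ⟨k, -, hk⟩ := hw'.eq_pow_of_pow_eq_one h7
    obtain ⟨e, -⟩ := iso_of_ev hQ t1 a (g ^ k) (cast_pow_add_ne (F := F) four_pos) (hpow _ (by omega) h7)
      (by rw [map_pow, pow_right_comm, (t4 _).2 dvd_rfl, one_pow]) (k1.trans (ev_eq_orb (isO_og t1 (g ^ k)) (by
        rw [map_pow, ev_pow']; exact Multiset.mem_map.2 ⟨w, hw, hk⟩) h5 (by simp [hS])).1.symm) hi
    exact t2.1 (hP.of_iso e)

theorem split_even (p : ℕ) [hp : Fact p.Prime] [CharP F p] (h2 : (2 : F) ≠ 0) {Q : QuadraticForm F V} (hQ : ND Q)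
    {g : OG Q} (he : Even (rk g)) : ∃ (U W : Submodule F V) (a : OG (Q.restrict U)) (c : End F W),
      ND (Q.restrict U) ∧ finrank F U + finrank F W = finrank F V ∧
      Sim ((subRep _ a).prodMap c : End F (U × W)) (subRep _ g) ∧ (∀ x, subRep _ a x = x → x = 0) ∧
      IsNilpotent (c - 1) ∧ Even (finrank F U) ∧ Even (finrank F (LinearMap.range (c - 1))) ∧
      (SqSpin g → a ∈ commutator (OG (Q.restrict U))) := by
  obtain ⟨U, hU, a, c, h1, h3, h4⟩ := exists_split_one p hQ g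
  have hU' := (nd_restrict_iff U).2 hU
  have hc : c ∈ commutator _ := og_odd_mem h2 (hQ.nd_perp hU) (N := p ^ finrank F (perp Q U))
    ((hp.out.odd_of_ne_two fun h => h2 (by subst h; exact CharP.cast_eq_zero F 2)).pow)
    (subRep_injective _ (by
      rw [map_pow, map_one]
      exact (ap_unip p (nil_pow_finrank h4) (Nat.lt_pow_self hp.out.one_lt) 0).1))
  have h5 := (((hQ.nd_perp hU).mem_commutator_iff (good_of_two_ne_zero h2) _).1 hc).1
  have h6 : Even (rk a) := by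
    rw [← h1, rk_sumHom, Nat.even_add] at he
    exact he.2 h5
  refine ⟨U, _, a, subRep _ c, hU', hQ.finrank_perp_add U, h1 ▸ sim_sumHom _ a c, h3, h4, by
    rwa [rk_eq, rank_of_fpf (f := subRep _ a) h3] at h6, by rwa [← rk_eq], fun hs =>
      (hU'.mem_commutator_iff (good_of_two_ne_zero h2) _).2 ⟨h6, ?_⟩⟩
  rw [← h1, sumHom_eq_mul, hQ.sqSpin_mul (good_of_two_ne_zero h2),
    sqSpin_sumHom_left _ hQ hU' (good_of_two_ne_zero h2)] at hs
  exact hs.2 ((hQ.mem_commutator_iff (good_of_two_ne_zero h2) _).1 (sumHom_mem_commutator _ (one_mem _) hc)).2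

omit [Fintype F] [FiniteDimensional F V] in
theorem unip_pow (p : ℕ) [hp : Fact p.Prime] [CharP F p] {u : End F V} {k j : ℕ} (h : (u - 1) ^ k = 0)
    (hk : k ≤ p ^ j) : u ^ p ^ j = 1 := by
  rw [← sub_eq_zero, ← sub_one_mul_gs, gs_char_pow, ← pow_succ', Nat.sub_add_cancel (Nat.one_le_pow _ _ hp.out.pos)]
  exact pow_eq_zero_of_le hk h

theorem succ_le_clog (p : ℕ) [hp : Fact p.Prime] [CharP F p] (h2 : (2 : F) ≠ 0) {n : ℕ} (hn : Even n) :
    n + 1 ≤ p ^ Nat.clog p n := clog_pred p (n := n + 1) fun ⟨j, h⟩ => by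
  have := (hp.out.odd_of_ne_two fun h => h2 (by subst h; exact CharP.cast_eq_zero F 2)).pow (n := j)
  rw [← h, Nat.add_sub_cancel, ← Nat.not_even_iff_odd] at this
  exact this hn

theorem plus8 (p : ℕ) [hp : Fact p.Prime] [CharP F p] (h2 : (2 : F) ≠ 0) {Q : QuadraticForm F V} (hQ : ND Q)
    (hm : ¬ IsPlus Q) (hd : finrank F V = 2 * 4) {R : QuadraticForm F W} (hR : ND R) (hP : IsPlus R)
    (hW : finrank F W = 2 * 4) {a : OG R} (ha : a ∈ commutator (OG R)) (h1 : ∀ x, subRep _ a x = x → x = 0)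
    {N : ℕ} (hN : ∀ m, subRep _ a ^ m = 1 → N ∣ m) : Rz Q N := by
  let L := AlgebraicClosure F
  set q := Fintype.card F with hq'
  have hq : 1 < q := Fintype.one_lt_card
  have hχ : Function.Injective fun z : L => z ^ q := by simpa using inj_frob L F
  have ho : Odd q := by
    rcases gcd_two_cases (F := F) with h | h
    exacts [(h2 h.1).elim, h.2.2]
  have four : ∀ {a b : ℕ}, a + b = 4 → 4 ∣ q ^ a - 1 ∨ 4 ∣ q ^ b + 1 := fun {a b} h => by
    rcases four_dvd_or ho with h3 | h3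
    · exact Or.inl (h3.trans (Nat.sub_one_dvd_pow_sub_one q a))
    · rcases Nat.even_or_odd b with hb | hb
      · refine Or.inl ((h3.trans ?_).trans (Nat.pow_sub_one_dvd_pow_sub_one q (show 2 ∣ a by
          obtain ⟨c, rfl⟩ := hb; omega)))
        rw [sq_sub_one']; exact dvd_mul_left _ _
      · exact Or.inr (h3.trans (by simpa using hb.nat_add_dvd_pow_add_pow q 1))
  by_cases hA : ∃ z ∈ ev L (subRep _ a), z⁻¹ ≠ z ∧ ∀ j, ((· ^ q)^[j] z = z ∨ (· ^ q)^[j] z = z⁻¹) ↔ 4 ∣ j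
  · obtain ⟨z, hz, hzi, h4⟩ := hA
    refine rz_two h2 hQ hm hd two_pos two_pos rfl (four rfl) fun m k1 k2 => hN m
      (pow_eq_one_of_dvd (orb8 p h2 hR hP hW ha hz hzi h4) ?_)
    simpa [← pow_mul] using half_lcm (ho.pow (n := 2)) k1 k2
  obtain ⟨U, U', b, d, hU, h3, h4, h5, h6, h7, h8, -⟩ := split_even p h2 hR (g := negOne R * a)
    ((hR.even_rk_mul (good_of_two_ne_zero (V := W) h2) _ _).2 (iff_of_true (by rw [rk_negOne h2, hW]; decide)
      ((hR.mem_commutator_iff (good_of_two_ne_zero h2) _).1 ha).1))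
  have h9 := h4.neg
  rw [subRep_negOne_mul, neg_neg, prodMap_neg] at h9
  have hb := (isO_og hU b).neg
  set M := ev L (-subRep _ b) with hM
  have hMa : ∀ z ∈ M, z ∈ ev L (subRep _ a) := fun z hz => by
    rw [← h9.ev L, ev_prodMap]; exact Multiset.mem_add.2 (Or.inl hz)
  have h0 : ∀ z ∈ M, z ≠ 0 := fun z hz => ne_zero_of_mem_ev L hb.isUnit hz
  have hi : ∀ z ∈ M, z⁻¹ ≠ z := fun z hz h => by
    rcases sq_eq_one_iff.1 (sq_of_inv_eq (h0 z hz) h) with rfl | rfl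
    · exact notMem_ev_of_fpf L h1 (hMa _ hz)
    · rw [hM, ev_neg] at hz
      obtain ⟨w, hw, h⟩ := Multiset.mem_map.1 hz
      exact notMem_ev_of_fpf L h5 (neg_injective h ▸ hw)
  have hI : M.map (·⁻¹) = M := hb.ev_inv L
  have hF : M.map (· ^ q) = M := ev_frob L _
  obtain ⟨D, E, k1, k2⟩ := exists_orbits3 hχ (ι := (·⁻¹)) inv_inv (fun z => by simp) M.toFinset
    (fun z hz => Multiset.mem_toFinset.2 (hF ▸ Multiset.mem_map_of_mem _ (Multiset.mem_toFinset.1 hz)))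
    (fun z hz => Multiset.mem_toFinset.2 (hI ▸ Multiset.mem_map_of_mem _ (Multiset.mem_toFinset.1 hz)))
    fun z hz => hi z (Multiset.mem_toFinset.1 hz)
  have hc : M.card = finrank F U := card_ev _ _
  have hle := M.toFinset_card_le
  have key : ∀ m j, 2 ∣ m → p ^ j ∣ m → (∀ z ∈ M.toFinset, M.count z ≤ p ^ j) →
      8 ≤ 2 * (D.sum + E.sum) + p ^ j + 1 → (∀ z ∈ M.toFinset, z ^ m = 1) → N ∣ m := fun m j m1 m2 m3 m4 m5 => by
    rcases eq_or_ne m 0 with rfl | hm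
    · exact dvd_zero _
    refine hN m ((h9.pow m).one_iff.1 (prodMap_pow_eq_one.2 ⟨?_, ?_⟩))
    · simpa using pow_eq_of_ev' L p (-subRep _ b) (c := 1) (fun z hz => by
        rw [m5 z (Multiset.mem_toFinset.2 hz), map_one]) m2 (fun z => by
          by_cases hz : z ∈ M
          · exact m3 z (Multiset.mem_toFinset.2 hz)
          · rw [Multiset.count_eq_zero_of_notMem hz]; exact Nat.zero_le _) hm
    · refine ((even_iff_two_dvd.2 m1).neg_pow d).trans ?_
      rcases subsingleton_or_nontrivial U' with h | h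
      · exact Subsingleton.elim _ _
      · exact pow_eq_one_of_dvd (unip_pow p (nil_pow_of_parity h6 (iff_of_true h8 (by
          rw [show finrank F U' = 2 * 4 - finrank F U by omega, Nat.even_sub (by omega)]
          exact iff_of_true (by decide) h7)))
          (by omega)) m2
  have h3p : 3 ≤ p := lt_of_le_of_ne hp.out.two_le fun h => h2 (by subst h; exact CharP.cast_eq_zero F 2)
  have e2 := even_card_pow h2
  have eT : ∀ {T}, T = q + 1 ∨ T = q - 1 → 2 ∣ T := by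
    rintro T (rfl | rfl)
    exacts [by simpa using (e2 1).2, by simpa using (e2 1).1]
  rcases nine_cases (q := q) (S := M.toFinset) (c := fun z => M.count z) (rfl : D.sum + E.sum = _) (by omega)
    (fun z hz => by
      obtain ⟨e, l1, l2⟩ := k2 z hz
      rw [Multiset.mem_toFinset] at hz
      obtain ⟨l3, l4⟩ := count_orb hχ (ι := (·⁻¹)) inv_inv (fun z => by simp) hF hI hi hz l2
      refine ⟨e, l3, by rintro rfl; exact hA ⟨z, hMa z hz, hi z hz, l2⟩, by omega, l1.imp (And.imp_right fun h => ?_)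
        (And.imp_right fun h => ?_)⟩ <;> rw [iterate_pow] at h
      · rw [pow_sub₀ _ (h0 z hz) (Nat.one_le_pow _ _ (by omega)), h, pow_one, mul_inv_cancel₀ (h0 z hz)]
      · rw [pow_succ, h, inv_mul_cancel₀ (h0 z hz)]) with
    ⟨l1, l2, x, y, hx, hy, hxy, l3⟩ | ⟨l1, l2⟩ | ⟨l1, l2, T, hT, l3⟩ | ⟨l1, l2, l3 | ⟨T, hT, l3⟩⟩
  · exact rz_two h2 hQ hm hd hx hy hxy (four hxy) fun m m1 m2 => key m 0 ((e2 x).1.trans m1) (by simp)
      (by simpa using l2) (by simp; omega) fun z hz => (l3 z hz).elim (pow_eq_one_of_dvd · m1) (pow_eq_one_of_dvd · m2)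
  · have := succ_le_clog (F := F) p h2 (n := 6) (by decide)
    exact rz_five p h2 hQ hm hd fun m m1 m2 => key m _ m1 m2 (by simp [l2]) (by omega) (by simp [l2])
  · have := succ_le_clog (F := F) p h2 (n := 4) (by decide)
    exact rz_four p h2 hQ hm hd hT fun m m1 m2 => key m _ ((eT hT).trans m1) m2
      (fun z hz => (l2 z hz).trans (by omega)) (by omega) fun z hz => pow_eq_one_of_dvd (l3 z hz) m1
  · exact rz_three p h2 hQ hm hd fun m m1 m2 => key m 1 ((e2 2).1.trans m1) (by simpa using m2)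
      (fun z hz => (l2 z hz).trans (by simpa using h3p)) (by simp; omega) fun z hz => pow_eq_one_of_dvd (l3 z hz) m1
  · exact rz_six p h2 hQ hm hd hT fun m m1 m2 m3 => key m 1 ((e2 2).2.trans m1) (by simpa using m3)
      (fun z hz => (l2 z hz).trans (by simpa using h3p)) (by simp; omega)
      fun z hz => (l3 z hz).elim (pow_eq_one_of_dvd · m1) (pow_eq_one_of_dvd · m2)

theorem rz_of_mem (h2 : (2 : F) ≠ 0) {Q : QuadraticForm F V} (hQ : ND Q) (hm : ¬ IsPlus Q)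
    (hd : finrank F V = 2 * 4) {N : ℕ} (h : N ∈ spec (Cfsg.POmega F (Cfsg.quadFormOdd 4 F))) : Rz Q N := by
  obtain ⟨p, hc⟩ := CharP.exists F
  haveI hp : Fact p.Prime := ⟨CharP.char_is_prime F p⟩
  obtain ⟨_, ⟨R, hR, g, hg, rfl⟩, h1⟩ := om_lift h2 (by decide) h
  have hg' := (hR.mem_commutator_iff (good_of_two_ne_zero h2) _).1 hg
  obtain ⟨U, U', a, c, hU, h3, h4, h5, h6, h7, h8, h9⟩ := split_even p h2 hR hg'.1
  have ha := h9 hg'.2
  have key : ∀ m, subRep _ a ^ m = 1 → c ^ m = 1 → N ∣ m := fun m k1 k2 =>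
    (h1 m).1 ((h4.pow m).one_iff.1 (prodMap_pow_eq_one.2 ⟨k1, k2⟩))
  obtain ⟨k, hk⟩ := h7
  have h3 : finrank F U + finrank F U' = 9 := by simpa using h3
  by_cases h10 : finrank F U' = 1
  · have hc1 : c = 1 := sub_eq_zero.1 (by simpa [h10] using nil_pow_finrank h6)
    have key' : ∀ m, subRep _ a ^ m = 1 → N ∣ m := fun m h => key m h (by rw [hc1, one_pow])
    by_cases hP : IsPlus (R.restrict U)
    · exact plus8 p h2 hQ hm hd hU hP (by omega) ha h5 key'
    · exact IsOmT.rz hQ hm hd ⟨_, hU, iff_false_intro hP, a, ha, rfl⟩ (by omega) (ao_of_pow key')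
  · obtain ⟨e, he⟩ : ∃ e, finrank F U' = 2 * e + 3 := ⟨3 - k, by omega⟩
    obtain ⟨u, u1, u2, u3⟩ := exists_isO_unip (F := F) h2 (k := 2 * e + 1) (by simp)
    have := succ_le_clog (F := F) p h2 (n := 2 * e + 2) (by simp [parity_simps])
    exact IsOmT.rz hQ hm hd ((IsOm.prodMap ⟨_, hU, a, ha, rfl⟩ (isOm_unip h2 u1 u2)).extend h2
      ⟨k + e, by simp; omega⟩ False) (by simp; omega) (((ao_of_pow (N := orderOf (subRep _ a)) fun m =>
        orderOf_dvd_of_pow_eq_one).prodMap (ao_unip p u2 (k := 2 * e) (by simp [u3])) fun m m1 m2 => key m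
          (orderOf_dvd_iff_pow_eq_one.1 m1) (pow_eq_one_of_dvd (unip_pow p (nil_pow_finrank h6) (by omega)) m2)).prodMap
      (ao_of_pow (f := (1 : End F F)) fun m _ => one_dvd m) fun m h _ => h)

theorem mem_of_ap (h2 : (2 : F) ≠ 0) {Q : QuadraticForm F V} (hQ : ND Q) {n : ℕ} (hn : 1 ≤ n)
    (hd : finrank F V = 2 * n) {g : OG Q} (hg : g ∈ commutator (OG Q)) {v : V} {N : ℕ}
    (h : ∀ m, AP (subRep _ g) v m → N ∣ m) : N ∈ spec (Cfsg.POmega F (Cfsg.quadFormOdd n F)) := by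
  obtain ⟨p, hc⟩ := CharP.exists F
  haveI hp : Fact p.Prime := ⟨CharP.char_is_prime F p⟩
  have hg' := (hQ.mem_commutator_iff (good_of_two_ne_zero h2) _).1 hg
  obtain ⟨U, U', a, c, hU, h3, h4, h5, h6, ⟨k, hk⟩, -, h9⟩ := split_even p h2 hQ hg'.1
  obtain ⟨u, u1, u2, u3⟩ := exists_isO_unip (F := F) h2 (k := finrank F U' + 1) ⟨n - k, by omega⟩
  refine (IsOm.prodMap ⟨_, hU, a, h9 hg'.2, rfl⟩ (isOm_unip h2 u1 u2)).mem_spec h2 hn (by simp; omega) fun m hm => ?_
  obtain ⟨k1, k2⟩ := prodMap_pow_eq_one.1 hm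
  exact h m (h4.ap (fun w => ap_prodMap.2 ⟨ap_fpf h5 k1 _, (ap_unip p (nil_pow_finrank h6)
    (Nat.le_pow_clog hp.out.one_lt _) _).of_dvd ((unip_pow_iff p u2 u3 m).1 k2)⟩) v)

end Cfsg.Agent.Spc
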