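import Mathlib

/-! The Heisenberg group of order 27 with its group of "special" automorphisms. -/

namespace Cfsg.Agent.Spc.He3

@[ext] structure H where
  x : ZMod 3
  y : ZMod 3
  t : ZMod 3
deriving DecidableEq

instance instFintypeH : Fintype H :=
  Fintype.ofEquiv (ZMod 3 × ZMod 3 × ZMod 3)
    ⟨fun p => ⟨p.1, p.2.1, p.2.2⟩, fun h => (h.x, h.y, h.t), fun _ => rfl, fun _ => rfl⟩

instance instMulH : Mul H := ⟨fun g h => ⟨g.x + h.x, g.y + h.y, g.t + h.t + g.x * h.y - h.x * g.y⟩⟩
instance instOneH : One H := ⟨⟨0, 0, 0⟩⟩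
instance instInvH : Inv H := ⟨fun g => ⟨-g.x, -g.y, -g.t⟩⟩

@[simp] theorem mul_x (g h : H) : (g * h).x = g.x + h.x := rfl
@[simp] theorem mul_y (g h : H) : (g * h).y = g.y + h.y := rfl
@[simp] theorem mul_t (g h : H) : (g * h).t = g.t + h.t + g.x * h.y - h.x * g.y := rfl
@[simp] theorem one_x : (1 : H).x = 0 := rfl
@[simp] theorem one_y : (1 : H).y = 0 := rfl
@[simp] theorem one_t : (1 : H).t = 0 := rfl
@[simp] theorem inv_x (g : H) : (g⁻¹).x = -g.x := rfl
@[simp] theorem inv_y (g : H) : (g⁻¹).y = -g.y := rfl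
@[simp] theorem inv_t (g : H) : (g⁻¹).t = -g.t := rfl

instance instGroupH : Group H :=
  Group.ofLeftAxioms (fun a b c => by ext <;> simp <;> ring) (fun a => by ext <;> simp)
    (fun a => by ext <;> simp <;> ring)

theorem card_H : Nat.card H = 27 := by
  rw [Nat.card_eq_fintype_card]; decide +kernel

def a0 : H := ⟨1, 0, 0⟩
def b0 : H := ⟨0, 1, 0⟩
def c0 : H := ⟨0, 0, 1⟩

/-- The inverting automorphism. -/
def zeta : MulAut H where
  toFun g := ⟨-g.x, -g.y, g.t⟩
  invFun g := ⟨-g.x, -g.y, g.t⟩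
  left_inv g := by ext <;> simp
  right_inv g := by ext <;> simp
  map_mul' g h := by ext <;> simp <;> ring

theorem zeta_apply (g : H) : zeta g = ⟨-g.x, -g.y, g.t⟩ := rfl

theorem c0_eq : c0 = b0 * a0 * b0⁻¹ * a0⁻¹ := by decide +kernel

theorem gen (h : H) : h = a0 ^ h.x.val * b0 ^ h.y.val * c0 ^ (h.t - h.x * h.y).val := by
  revert h; decide +kernel

theorem hom_ext {Y : Type*} [Group Y] {f g : H →* Y} (ha : f a0 = g a0) (hb : f b0 = g b0) :
    f = g := by
  have hc : f c0 = g c0 := by simp only [c0_eq, map_mul, map_inv, ha, hb]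
  ext h
  rw [gen h]; simp only [map_mul, map_pow, ha, hb, hc]

theorem c0_comm (h : H) : h * c0 = c0 * h := by ext <;> simp [c0]; ring

theorem fix_zeta (h : H) (hh : zeta h = h) : h = 1 ∨ h = c0 ∨ h = c0 * c0 := by
  revert h; decide +kernel

theorem fix_central (h : H) (hh : zeta h = h) (g : H) : g * h = h * g := by
  revert g h; decide +kernel

theorem ker_aux (h : H) : h = 1 ∨ h = c0 ∨ h * h = c0 ∨ ∃ g : H, g * h * g⁻¹ * h⁻¹ = c0 := by
  revert h; decide +kernel

theorem injective_of {Y : Type*} [Group Y] (f : H →* Y) (hc : f c0 ≠ 1) : Function.Injective f := by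
  rw [injective_iff_map_eq_one]
  intro h hh
  rcases ker_aux h with h1 | h1 | h1 | ⟨g, h1⟩
  · exact h1
  · exact absurd (h1 ▸ hh) hc
  · exact absurd (by rw [← h1, map_mul, hh, one_mul]) hc
  · exact absurd (by rw [← h1]; simp [hh]) hc

theorem not_inner (h : H) : h * a0 * h⁻¹ ≠ zeta a0 := by
  revert h; decide +kernel

theorem zeta_dec (u : H) : ∃ j : Fin 3, zeta u = u⁻¹ * c0 ^ j.val := by
  revert u; decide +kernel

theorem cent_aux (u h : H) (hu : ¬ (u = 1 ∨ u = c0 ∨ u = c0 * c0))
    (h1 : h * zeta u * h⁻¹ = zeta (h * u * h⁻¹)) : ∃ i j : Fin 3, h = u ^ i.val * c0 ^ j.val := by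
  revert h u; decide +kernel

theorem cube (h : H) : h ^ 3 = 1 := by revert h; decide +kernel

theorem sq_root (r : H) (hr : zeta r * r = 1) : ∃ s : H, (zeta s)⁻¹ * s = r := by
  revert r; decide +kernel

/-- The automorphisms fixing the centre and commuting with `zeta`. -/
def A : Subgroup (MulAut H) where
  carrier := {α | α c0 = c0 ∧ ∀ h, α (zeta h) = zeta (α h)}
  one_mem' := ⟨rfl, fun _ => rfl⟩
  mul_mem' := fun {α β} hα hβ => ⟨by rw [MulAut.mul_apply, hβ.1, hα.1],
    fun h => by rw [MulAut.mul_apply, hβ.2, hα.2, MulAut.mul_apply]⟩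
  inv_mem' := fun {α} hα => ⟨by
      apply α.injective; rw [MulAut.apply_inv_self, hα.1], fun h => by
      apply α.injective; rw [MulAut.apply_inv_self, hα.2, MulAut.apply_inv_self]⟩

def pairs : Finset (H × H) := Finset.univ.filter fun p =>
  zeta p.1 = p.1⁻¹ ∧ zeta p.2 = p.2⁻¹ ∧ p.2 * p.1 * p.2⁻¹ * p.1⁻¹ = c0

theorem card_pairs : pairs.card = 24 := by decide +kernel

instance instFiniteA : Finite A := by
  haveI : Finite (MulAut H) := Finite.of_injective (fun α : MulAut H => (α : H → H))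
    DFunLike.coe_injective
  infer_instance

theorem card_A_le : Nat.card A ≤ 24 := by
  rw [← card_pairs, ← Fintype.card_coe, ← Nat.card_eq_fintype_card]
  refine Nat.card_le_card_of_injective
    (fun α : A => (⟨(α.1 a0, α.1 b0), ?_⟩ : pairs)) ?_
  · have za : zeta a0 = a0⁻¹ := by decide +kernel
    have zb : zeta b0 = b0⁻¹ := by decide +kernel
    refine Finset.mem_filter.2 ⟨Finset.mem_univ _, ?_, ?_, ?_⟩
    · rw [← α.2.2, za, map_inv]
    · rw [← α.2.2, zb, map_inv]
    · rw [← α.2.1]; simp only [c0_eq, map_mul, map_inv]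
  · intro α β h
    replace h := Prod.ext_iff.1 (congrArg Subtype.val h)
    have := hom_ext (f := α.1.toMonoidHom) (g := β.1.toMonoidHom) h.1 h.2
    exact Subtype.ext (MulEquiv.ext fun g => DFunLike.congr_fun this g)

/-- The model group. -/
abbrev M : Type := H ⋊[A.subtype] A

theorem main {Y L : Type*} [Group Y] [Finite Y] [Group L] [Finite L] (θ : H →* Y)
    (hθ : Function.Injective θ) (lam : L →* Y) (z : Y)
    (hz : ∀ h, z * θ h * z⁻¹ = θ (zeta h)) (hlz : ∀ l, lam l * z = z * lam l)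
    (hlc : ∀ l, lam l * θ c0 = θ c0 * lam l)
    (hn : ∀ l h, ∃ h', lam l * θ h * (lam l)⁻¹ = θ h')
    (hf : ∀ l, (∀ h, lam l * θ h = θ h * lam l) → l = 1)
    (hL : 24 ≤ Nat.card L) (hY : Nat.card Y ≤ 648) : Nonempty (M ≃* Y) := by
  choose act hact using hn
  have act_mul : ∀ l l' h, act (l * l') h = act l (act l' h) := fun l l' h => by
    apply hθ; rw [← hact, ← hact, ← hact, map_mul]; group
  have act_one : ∀ h, act 1 h = h := fun h => by
    apply hθ; rw [← hact, map_one]; group
  let φ0 : L → MulAut H := fun l =>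
    { toFun := act l
      invFun := act l⁻¹
      left_inv := fun h => by rw [← act_mul, inv_mul_cancel, act_one]
      right_inv := fun h => by rw [← act_mul, mul_inv_cancel, act_one]
      map_mul' := fun g h => by
        apply hθ; rw [map_mul θ (act l g), ← hact, ← hact, ← hact, map_mul]; group }
  have hφ0 : ∀ l, φ0 l ∈ A := fun l => ⟨by
      apply hθ; show θ (act l c0) = _
      rw [← hact, hlc, mul_inv_cancel_right], fun h => by
      apply hθ; show θ (act l (zeta h)) = θ (zeta (act l h))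
      rw [← hact, ← hz, ← hz, ← hact]
      calc lam l * (z * θ h * z⁻¹) * (lam l)⁻¹ = (lam l * z) * θ h * (lam l * z)⁻¹ := by group
        _ = (z * lam l) * θ h * (z * lam l)⁻¹ := by rw [hlz]
        _ = _ := by group⟩
  let φ : L →* A := MonoidHom.mk' (fun l => ⟨φ0 l, hφ0 l⟩) fun l l' =>
    Subtype.ext (MulEquiv.ext fun h => act_mul l l' h)
  have hφ : ∀ l h, θ ((φ l).1 h) = lam l * θ h * (lam l)⁻¹ := fun l h => (hact l h).symm
  have φinj : Function.Injective φ := by
    rw [injective_iff_map_eq_one]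
    intro l hl
    refine hf l fun h => ?_
    have := hφ l h
    rw [hl] at this
    rw [eq_mul_inv_iff_mul_eq] at this
    exact this.symm
  have φbij : Function.Bijective φ :=
    φinj.bijective_of_nat_card_le (card_A_le.trans hL)
  let ψ := MulEquiv.ofBijective φ φbij
  have hA : 24 ≤ Nat.card A := hL.trans (Nat.card_le_card_of_injective φ φinj)
  let f : M →* Y := SemidirectProduct.lift θ (lam.comp ψ.symm.toMonoidHom) fun α => by
    ext h
    obtain ⟨l, rfl⟩ := ψ.surjective α
    simp only [MulEquiv.toMonoidHom_eq_coe, MonoidHom.comp_apply, MonoidHom.coe_coe,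
      MulEquiv.symm_apply_apply, MulAut.conj_apply]
    exact hφ l h
  have finj : Function.Injective f := by
    rw [injective_iff_map_eq_one]
    rintro ⟨h, α⟩ hh
    obtain ⟨l, rfl⟩ := ψ.surjective α
    have h1 : θ h * lam l = 1 := by
      have := hh
      simp only [f, SemidirectProduct.lift, MonoidHom.coe_mk, OneHom.coe_mk,
        MulEquiv.toMonoidHom_eq_coe, MonoidHom.comp_apply, MonoidHom.coe_coe,
        MulEquiv.symm_apply_apply] at this
      exact this
    have h2 : lam l = θ h⁻¹ := by rw [map_inv, eq_inv_iff_mul_eq_one, mul_eq_one_comm, h1]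
    have h3 : zeta h⁻¹ = h⁻¹ := by
      apply hθ; rw [← hz, ← h2, ← hlz, mul_inv_cancel_right]
    have h4 : l = 1 := hf l fun g => by
      rw [h2, ← map_mul, ← map_mul, fix_central _ h3]
    subst h4
    rw [map_one, mul_one] at h1
    have h5 : h = 1 := hθ (by rw [h1, map_one])
    subst h5
    rw [map_one]; rfl
  refine ⟨MulEquiv.ofBijective f (finj.bijective_of_nat_card_le (hY.trans ?_))⟩
  rw [SemidirectProduct.card, card_H]
  omega

end Cfsg.Agent.Spc.He3
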