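import Mathlib
import Cfsg.Agent.Spc.He3

/-! Recognition of `3^{1+2}_+ : SL₂(3)`. -/

namespace Cfsg.Agent.Spc.He3

abbrev S := Matrix.SpecialLinearGroup (Fin 2) (ZMod 3)
theorem s_sq : ∀ g : S, ∃ a b : S, g = a * a * (b * b) := by decide +kernel
theorem s_nor : ∀ g : S, g = 1 ∨ g = -1 ∨ ∃ h : S, (g * h * g⁻¹ * h⁻¹) ^ 2 = -1 := by
  decide +kernel
theorem s_card : Nat.card S = 24 := by rw [Nat.card_eq_fintype_card]; decide +kernel
theorem s_ne : (-1 : S) ≠ 1 := by decide +kernel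
theorem s_neg (g : S) : g * -1 * g⁻¹ = -1 := by simp
theorem s_cube : (-1 : S) ^ 3 = -1 := by decide +kernel
theorem s_two : (-1 : S) ^ 2 = 1 := by decide +kernel

section theta
variable {X : Type*} [Group X]

theorem pw_add {g : X} (hg : g ^ 3 = 1) (x y : ZMod 3) :
    g ^ (x + y).val = g ^ x.val * g ^ y.val := by
  rw [← pow_add, ZMod.val_add, ← pow_eq_pow_mod _ hg]

theorem pw_mul {g : X} (hg : g ^ 3 = 1) (x y : ZMod 3) :
    g ^ (x * y).val = g ^ (x.val * y.val) := by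
  rw [ZMod.val_mul, ← pow_eq_pow_mod _ hg]

theorem swap {a b d : X} (hda : Commute d a) (hdb : Commute d b) (h : b * a = d * a * b)
    (m n : ℕ) : b ^ m * a ^ n = d ^ (m * n) * a ^ n * b ^ m := by
  have h1 : ∀ n : ℕ, b * a ^ n = d ^ n * a ^ n * b := fun n => by
    induction n with
    | zero => simp
    | succ n ih =>
      rw [pow_succ, ← mul_assoc, ih, mul_assoc, h, pow_succ d, ← mul_assoc, ← mul_assoc,
        mul_assoc (d ^ n), ← (hda.pow_right n).eq]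
      group
  induction m with
  | zero => simp
  | succ m ih =>
    rw [pow_succ', mul_assoc, ih, ← mul_assoc, ← mul_assoc, ← (hdb.pow_left _).eq, mul_assoc _ b,
      h1, add_mul, one_mul, pow_add]
    group

theorem exists_theta {a b d : X} (ha : a ^ 3 = 1) (hb : b ^ 3 = 1) (hd : d ^ 3 = 1)
    (hda : Commute d a) (hdb : Commute d b) (h : b * a = d * a * b) :
    ∃ θ : H →* X, θ a0 = a ∧ θ b0 = b ∧ θ c0 = d := by
  refine ⟨MonoidHom.mk' (fun g => a ^ g.x.val * b ^ g.y.val * d ^ (g.t - g.x * g.y).val)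
    fun g g' => ?_, ?_, ?_, ?_⟩
  · have e : (g * g').t - (g * g').x * (g * g').y =
        (g.t - g.x * g.y) + g.y * g'.x + (g'.t - g'.x * g'.y) := by
      simp only [mul_t, mul_x, mul_y]
      have : (3 : ZMod 3) = 0 := rfl
      linear_combination (-(g'.x * g.y)) * this
    rw [e, mul_x, mul_y, pw_add ha, pw_add hb, pw_add hd, pw_add hd, pw_mul hd]
    generalize g.x.val = x, g.y.val = y, g'.x.val = x', g'.y.val = y',
      (g.t - g.x * g.y).val = k, (g'.t - g'.x * g'.y).val = k'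
    have c1 : ∀ i j : ℕ, d ^ i * a ^ j = a ^ j * d ^ i := fun i j => (hda.pow_pow i j).eq
    have c2 : ∀ i j : ℕ, d ^ i * b ^ j = b ^ j * d ^ i := fun i j => (hdb.pow_pow i j).eq
    calc a ^ x * a ^ x' * (b ^ y * b ^ y') * (d ^ k * d ^ (y * x') * d ^ k')
        = a ^ x * a ^ x' * b ^ y * (b ^ y' * d ^ (y * x' + k)) * d ^ k' := by
          rw [add_comm, pow_add]; group
      _ = a ^ x * (a ^ x' * (b ^ y * d ^ (y * x'))) * d ^ k * b ^ y' * d ^ k' := by
          rw [← c2, pow_add]; group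
      _ = a ^ x * (d ^ (y * x') * a ^ x' * b ^ y) * d ^ k * b ^ y' * d ^ k' := by
          rw [← c2, c1]; group
      _ = a ^ x * b ^ y * (a ^ x' * d ^ k) * b ^ y' * d ^ k' := by
          rw [← swap hda hdb h]; group
      _ = _ := by rw [← c1]; group
  · show a ^ 1 * b ^ 0 * d ^ 0 = a
    simp
  · show a ^ 0 * b ^ 1 * d ^ 0 = b
    simp
  · show a ^ 0 * b ^ 0 * d ^ 1 = d
    simp

end theta

section abs
variable {X : Type*} [Group X] [Finite X] {R : Subgroup X} (π : X →* S)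

theorem center_central (hs : Function.Surjective π) (hk : ∀ x, π x = 1 ↔ x ∈ R)
    (hZ : Nat.card (Subgroup.center R) = 3) {c : X} (hc : c ∈ R) (hcc : ∀ r ∈ R, r * c = c * r)
    (x : X) : x * c = c * x := by
  have hn : ∀ r ∈ R, ∀ g, g * r * g⁻¹ ∈ R := fun r hr g => by
    rw [← hk] at hr ⊢; simp [hr]
  let Z := (Subgroup.center R).map R.subtype
  have hm : ∀ y, y ∈ Z ↔ y ∈ R ∧ ∀ r ∈ R, r * y = y * r := fun y => by
    constructor
    · rintro ⟨y, hy, rfl⟩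
      exact ⟨y.2, fun r hr => congrArg Subtype.val (Subgroup.mem_center_iff.1 hy ⟨r, hr⟩)⟩
    · rintro ⟨h1, h2⟩
      exact ⟨⟨y, h1⟩, Subgroup.mem_center_iff.2 fun r => Subtype.ext (h2 r r.2), rfl⟩
  haveI : Z.Normal := ⟨fun y hy g => by
    rw [hm] at hy ⊢
    refine ⟨hn _ hy.1 g, fun r hr => ?_⟩
    have := hy.2 _ (hn r hr g⁻¹)
    calc r * (g * y * g⁻¹) = g * (g⁻¹ * r * g⁻¹⁻¹ * y) * g⁻¹ := by group
      _ = _ := by rw [this]; group⟩
  have hZc : Nat.card Z = 3 := by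
    rw [Subgroup.card_map_of_injective R.subtype_injective, hZ]
  haveI : Fact (Nat.Prime 3) := ⟨Nat.prime_three⟩
  haveI : IsCyclic Z := isCyclic_of_prime_card hZc
  have hsq : ∀ y, y * y * c = c * (y * y) := fun y => by
    have h1 : (MulAut.conjNormal (H := Z) y) ^ 2 = 1 := by
      have := pow_card_eq_one' (x := MulAut.conjNormal (H := Z) y)
      rwa [IsCyclic.card_mulAut, hZc] at this
    rw [← map_pow] at h1
    have h2 := congrArg Subtype.val (MulEquiv.congr_fun h1 ⟨c, (hm c).2 ⟨hc, hcc⟩⟩)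
    rw [MulAut.conjNormal_apply] at h2
    rw [← pow_two]
    exact mul_inv_eq_iff_eq_mul.1 h2
  obtain ⟨g1, g2, hg⟩ := s_sq (π x)
  obtain ⟨y1, rfl⟩ := hs g1
  obtain ⟨y2, rfl⟩ := hs g2
  have hr : (y1 * y1 * (y2 * y2))⁻¹ * x ∈ R := by
    rw [← hk, map_mul, map_inv, hg, map_mul, map_mul, map_mul, inv_mul_cancel]
  have e : x = y1 * y1 * (y2 * y2) * ((y1 * y1 * (y2 * y2))⁻¹ * x) := by group
  rw [e]
  exact Commute.mul_left (Commute.mul_left (hsq y1) (hsq y2)) (hcc _ hr)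

theorem exists_model (hs : Function.Surjective π) (hk : ∀ x, π x = 1 ↔ x ∈ R)
    (hR : Nat.card R = 27) (hexp : ∀ r ∈ R, r ^ 3 = 1)
    (hZ : Nat.card (Subgroup.center R) = 3) (hD : commutator R = Subgroup.center R)
    (hO : ∀ z : X, z ^ 2 = 1 → (∀ x, x * z = z * x) → z = 1) :
    ∃ (θ : H →* X) (z : X), Function.Injective θ ∧ θ.range = R ∧ π z = -1 ∧ z ^ 2 = 1 ∧
      (∀ h, z * θ h * z⁻¹ = θ (zeta h)) ∧ ∀ x, x * θ c0 = θ c0 * x := by
  have hn : ∀ r ∈ R, ∀ g, g * r * g⁻¹ ∈ R := fun r hr g => by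
    rw [← hk] at hr ⊢; simp [hr]
  have hcomm : ∀ r ∈ R, ∀ s ∈ R, ∀ x, x * (r * s * r⁻¹ * s⁻¹) = r * s * r⁻¹ * s⁻¹ * x := by
    intro r hr s hs'
    have h1 : (⟨r, hr⟩ * ⟨s, hs'⟩ * (⟨r, hr⟩ : R)⁻¹ * (⟨s, hs'⟩ : R)⁻¹ : R) ∈ Subgroup.center R := by
      rw [← hD]; exact Subgroup.commutator_mem_commutator (Subgroup.mem_top _) (Subgroup.mem_top _)
    refine center_central π hs hk hZ (R.mul_mem (R.mul_mem (R.mul_mem hr hs') (R.inv_mem hr))
      (R.inv_mem hs')) fun q hq => ?_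
    exact congrArg Subtype.val (Subgroup.mem_center_iff.1 h1 ⟨q, hq⟩)
  have h23 : ∀ r ∈ R, r ^ 2 = 1 → r = 1 := fun r hr h => by
    have := hexp r hr
    rw [pow_succ, h, one_mul] at this; exact this
  obtain ⟨z0, hz0⟩ := hs (-1)
  obtain ⟨z, hzπ, hz2⟩ : ∃ z : X, π z = -1 ∧ z ^ 2 = 1 :=
    ⟨z0 ^ 3, by rw [map_pow, hz0, s_cube], by
      rw [← pow_mul, mul_comm, pow_mul]
      exact hexp _ ((hk _).1 (by rw [map_pow, hz0, s_two]))⟩
  have hzi : z⁻¹ = z := by rw [inv_eq_iff_mul_eq_one, ← pow_two, hz2]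
  have hzz : z * z = 1 := by rw [← pow_two, hz2]
  obtain ⟨r, hr, hrz⟩ : ∃ r ∈ R, r⁻¹ * (z * r * z⁻¹) ≠ 1 := by
    by_contra hcon
    push Not at hcon
    have hc : ∀ r ∈ R, z * r = r * z := fun r hr => by
      have := hcon r hr
      rw [inv_mul_eq_one, eq_mul_inv_iff_mul_eq] at this; exact this.symm
    have : z = 1 := hO z hz2 fun x => by
      have h1 : z⁻¹ * (x * z * x⁻¹) ∈ R := by
        rw [← hk, map_mul, map_mul, map_mul, map_inv, map_inv, hzπ, s_neg, inv_mul_cancel]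
      have h2 := h23 _ h1 (by
        have h3 := hc _ h1
        generalize hq : z⁻¹ * (x * z * x⁻¹) = q at h3
        have h4 : x * z * x⁻¹ = z * q := by rw [← hq]; group
        have h5 : (z * q) ^ 2 = 1 := by rw [← h4, conj_pow, hz2]; simp
        rw [pow_two, mul_assoc, ← mul_assoc q, ← h3, mul_assoc, ← mul_assoc, hzz, one_mul] at h5
        rw [pow_two, h5])
      rw [inv_mul_eq_one, eq_mul_inv_iff_mul_eq] at h2; exact h2.symm
    rw [this, map_one] at hzπ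
    exact s_ne hzπ.symm
  have hinv : ∀ q : X, z * (q⁻¹ * (z * q * z⁻¹)) * z⁻¹ = (q⁻¹ * (z * q * z⁻¹))⁻¹ := fun q => by
    calc z * (q⁻¹ * (z * q * z⁻¹)) * z⁻¹ = z * q⁻¹ * (z * q * (z * z)⁻¹) := by group
      _ = z * q⁻¹ * (z⁻¹ * q) := by rw [hzz, hzi]; group
      _ = _ := by group
  have hbR : r⁻¹ * (z * r * z⁻¹) ∈ R := R.mul_mem (R.inv_mem hr) (hn r hr z)
  have hbz := hinv r
  generalize r⁻¹ * (z * r * z⁻¹) = b at hrz hbR hbz
  obtain ⟨s, hs', hsb⟩ : ∃ s ∈ R, s * b ≠ b * s := by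
    by_contra hcon
    push Not at hcon
    have := center_central π hs hk hZ hbR hcon z
    rw [this, mul_inv_cancel_right, eq_inv_iff_mul_eq_one, ← pow_two] at hbz
    exact hrz (h23 b hbR hbz)
  have haR : s⁻¹ * (z * s * z⁻¹) ∈ R := R.mul_mem (R.inv_mem hs') (hn s hs' z)
  have haz := hinv s
  have hab : b * (s⁻¹ * (z * s * z⁻¹)) ≠ s⁻¹ * (z * s * z⁻¹) * b := by
    intro hcon
    have hd := hcomm s hs' b hbR
    have hdR : s * b * s⁻¹ * b⁻¹ ∈ R :=
      R.mul_mem (R.mul_mem (R.mul_mem hs' hbR) (R.inv_mem hs')) (R.inv_mem hbR)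
    generalize hq : s * b * s⁻¹ * b⁻¹ = d at hd hdR
    have e1 : s * b * s⁻¹ = d * b := by rw [← hq]; group
    -- `w = z s z⁻¹` conjugates `b` as `s` does
    have e2 : z * s * z⁻¹ * b * (z * s * z⁻¹)⁻¹ = d * b := by
      rw [← e1]
      calc z * s * z⁻¹ * b * (z * s * z⁻¹)⁻¹
          = s * (s⁻¹ * (z * s * z⁻¹) * b) * (z * s * z⁻¹)⁻¹ := by group
        _ = _ := by rw [← hcon]; group
    have e3 : z * s * z⁻¹ * b⁻¹ * (z * s * z⁻¹)⁻¹ = d * b⁻¹ := by
      rw [← hbz]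
      calc z * s * z⁻¹ * (z * b * z⁻¹) * (z * s * z⁻¹)⁻¹ = z * (s * b * s⁻¹) * z⁻¹ := by group
        _ = z * d * b * z⁻¹ := by rw [e1]; group
        _ = _ := by rw [hd]; group
    have e4 : d * b * (d * b⁻¹) = 1 := by rw [← e2, ← e3]; group
    have e5 : d ^ 2 = 1 := by
      rw [← e4, mul_assoc, ← mul_assoc b, hd, pow_two]; group
    apply hsb
    rw [h23 d hdR e5, one_mul, mul_inv_eq_iff_eq_mul] at e1
    exact e1
  generalize s⁻¹ * (z * s * z⁻¹) = a at haR haz hab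
  have hd := hcomm b hbR a haR
  have hdR : b * a * b⁻¹ * a⁻¹ ∈ R :=
    R.mul_mem (R.mul_mem (R.mul_mem hbR haR) (R.inv_mem hbR)) (R.inv_mem haR)
  obtain ⟨θ, h1, h2, h3⟩ := exists_theta (hexp a haR) (hexp b hbR) (hexp _ hdR)
    (hd a).symm (hd b).symm (by group)
  have hinj : Function.Injective θ := injective_of θ (by
    rw [h3]; intro h
    rw [mul_inv_eq_one, mul_inv_eq_iff_eq_mul] at h; exact hab h)
  refine ⟨θ, z, hinj, ?_, hzπ, hz2, fun h => ?_, fun x => by rw [h3]; exact hd x⟩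
  · apply Subgroup.eq_of_le_of_card_ge
    · rintro _ ⟨h, rfl⟩
      rw [gen h]; simp only [map_mul, map_pow, h1, h2, h3]
      exact R.mul_mem (R.mul_mem (R.pow_mem haR _) (R.pow_mem hbR _)) (R.pow_mem hdR _)
    · rw [hR, ← card_H]
      exact (Nat.card_congr (MonoidHom.ofInjective hinj).toEquiv).le
  · have za : zeta a0 = a0⁻¹ := by decide +kernel
    have zb : zeta b0 = b0⁻¹ := by decide +kernel
    have := hom_ext (f := (MulAut.conj z).toMonoidHom.comp θ) (g := θ.comp zeta.toMonoidHom)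
      (by show z * θ a0 * z⁻¹ = θ (zeta a0); rw [za, map_inv, h1, haz])
      (by show z * θ b0 * z⁻¹ = θ (zeta b0); rw [zb, map_inv, h2, hbz])
    exact DFunLike.congr_fun this h

end abs

end Cfsg.Agent.Spc.He3
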