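import Mathlib
import Cfsg.Agent.Spc.He3b

/-! Recognition of `3^{1+2}_+ : SL₂(3)`, second part. -/

namespace Cfsg.Agent.Spc.He3

/-- A central element of order three outside a subgroup of order three has a "complement". -/
theorem exists_compl {C : Type*} [Group C] [Finite C] (hC : Nat.card C = 72) {c t : C}
    (hc : ∀ x, x * c = c * x) (hc3 : c ^ 3 = 1) (ht3 : t ^ 3 = 1) (ht1 : t ≠ 1)
    (hct : c ∉ Subgroup.zpowers t) : ∃ L : Subgroup C, c ∉ L ∧ 24 ≤ Nat.card L := by
  haveI : Fact (Nat.Prime 3) := ⟨Nat.prime_three⟩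
  have hp : ∀ g : C, g ^ 3 = 1 → IsPGroup 3 (Subgroup.zpowers g) := fun g hg => by
    rintro ⟨_, k, rfl⟩
    refine ⟨1, Subtype.ext ?_⟩
    show (g ^ k) ^ 3 ^ 1 = 1
    rw [pow_one, ← zpow_natCast, ← zpow_mul, mul_comm, zpow_mul, zpow_natCast, hg, one_zpow]
  obtain ⟨P, hP⟩ := (hp t ht3).exists_le_sylow
  haveI : (Subgroup.zpowers c).Normal := ⟨by
    rintro _ ⟨k, rfl⟩ g
    refine ⟨k, ?_⟩
    show c ^ k = g * c ^ k * g⁻¹
    rw [((show Commute g c from hc g).zpow_right k).eq, mul_inv_cancel_right]⟩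
  have hcP : c ∈ (P : Subgroup C) := (hp c hc3).le_sylow_of_normal P (Subgroup.mem_zpowers c)
  have htP : t ∈ (P : Subgroup C) := hP (Subgroup.mem_zpowers t)
  have hP9 : Nat.card (P : Subgroup C) = 3 ^ 2 := by
    rw [P.card_eq_multiplicity, hC, show 72 = 3 ^ 2 * 8 from rfl,
      Nat.factorization_mul_apply_of_coprime (by norm_num), Nat.Prime.factorization_pow Nat.prime_three,
      Nat.factorization_eq_zero_of_not_dvd (by norm_num)]
    simp
  have hidx : (P : Subgroup C).index = 8 := by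
    have := (P : Subgroup C).card_mul_index
    rw [hP9, hC] at this; omega
  have hcm := IsPGroup.isMulCommutative_of_card_eq_prime_sq hP9
  letI : CommGroup (P : Subgroup C) :=
    { (inferInstance : Group (P : Subgroup C)) with mul_comm := hcm.is_comm.comm }
  let T : Subgroup (P : Subgroup C) := Subgroup.zpowers ⟨t, htP⟩
  have hT : Nat.card T = 3 := by
    rw [Nat.card_zpowers]
    exact orderOf_eq_prime (Subtype.ext ht3) fun h => ht1 (congrArg Subtype.val h)
  have hQ : Nat.card ((P : Subgroup C) ⧸ T) = 3 := by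
    have := T.card_mul_index
    rw [hT, hP9] at this
    show T.index = 3
    omega
  let V := MonoidHom.transfer (QuotientGroup.mk' T)
  refine ⟨V.ker, fun h => hct ?_, ?_⟩
  · rw [MonoidHom.mem_ker, MonoidHom.transfer_eq_pow _ c fun k g _ => by
      rw [mul_assoc, ← ((show Commute g c from hc g).pow_right k).eq, inv_mul_cancel_left],
      QuotientGroup.mk'_apply, QuotientGroup.eq_one_iff] at h
    obtain ⟨k, hk⟩ := h
    have hk' : t ^ k = c ^ (P : Subgroup C).index := congrArg Subtype.val hk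
    rw [hidx] at hk'
    have : c = (c ^ 8) ^ 2 := by
      rw [← pow_mul, show 8 * 2 = 3 * 5 + 1 from rfl, pow_succ, pow_mul, hc3]; simp
    rw [this, ← hk']
    exact Subgroup.pow_mem _ (Subgroup.zpow_mem _ (Subgroup.mem_zpowers t) k) 2
  · have h1 := V.ker.card_mul_index
    have h2 : V.ker.index ≤ 3 := by
      rw [Subgroup.index_ker]
      exact (Nat.card_le_card_of_injective _ Subtype.val_injective).trans hQ.le
    rw [hC] at h1
    by_contra h
    have : Nat.card V.ker * V.ker.index ≤ 23 * 3 := Nat.mul_le_mul (by omega) h2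
    omega

theorem abs_iso {X : Type*} [Group X] [Finite X] {R : Subgroup X} (π : X →* S)
    (hs : Function.Surjective π) (hk : ∀ x, π x = 1 ↔ x ∈ R)
    (hR : Nat.card R = 27) (hexp : ∀ r ∈ R, r ^ 3 = 1)
    (hZ : Nat.card (Subgroup.center R) = 3) (hD : commutator R = Subgroup.center R)
    (hO : ∀ z : X, z ^ 2 = 1 → (∀ x, x * z = z * x) → z = 1)
    (E : Subgroup X) (hEc : ∀ a ∈ E, ∀ b ∈ E, a * b = b * a) (hE3 : ∀ a ∈ E, a ^ 3 = 1)
    (hE : Nat.card E = 27) : Nonempty (M ≃* X) := by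
  obtain ⟨θ, z, hθ, hran, hzπ, hz2, hz, hc⟩ := exists_model π hs hk hR hexp hZ hD hO
  have hmem : ∀ x, x ∈ R ↔ ∃ h, θ h = x := fun x => by rw [← hran]; rfl
  have hπθ : ∀ h, π (θ h) = 1 := fun h => (hk _).2 ((hmem _).2 ⟨h, rfl⟩)
  have hzi : z⁻¹ = z := by rw [inv_eq_iff_mul_eq_one, ← pow_two, hz2]
  have hdec : ∀ x, ∃ h, θ h * x * z = z * (θ h * x) := fun x => by
    obtain ⟨ρ, hρ⟩ := (hmem (z⁻¹ * (x * z * x⁻¹))).1 (by
      rw [← hk, map_mul, map_mul, map_mul, map_inv, map_inv, hzπ, s_neg, inv_mul_cancel])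
    have h4 : x * z * x⁻¹ = z * θ ρ := by rw [hρ]; group
    have h5 : (z * θ ρ) ^ 2 = 1 := by rw [← h4, conj_pow, hz2]; simp
    obtain ⟨s, hs'⟩ := sq_root ρ (hθ (by
      rw [map_mul, ← hz, map_one, ← h5, hzi, pow_two]; group))
    refine ⟨s, ?_⟩
    rw [← hs', map_mul, map_inv, ← hz] at h4
    calc θ s * x * z = θ s * (x * z * x⁻¹) * x := by group
      _ = θ s * (z * z) * (θ s)⁻¹ * z⁻¹ * θ s * x := by rw [h4]; group
      _ = _ := by rw [← pow_two, hz2, hzi]; group
  let C := Subgroup.centralizer ({z} : Set X)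
  have hC : ∀ x, x ∈ C ↔ x * z = z * x := fun x => Subgroup.mem_centralizer_singleton_iff
  let c : C := ⟨θ c0, (hC _).2 (hc z).symm⟩
  have hc1 : θ c0 ≠ 1 := fun h => absurd (hθ (h.trans θ.map_one.symm)) (by decide +kernel)
  have hc3 : θ c0 ^ 3 = 1 := by rw [← map_pow, cube, map_one]
  have hCR : ∀ x : C, x.1 ∈ R → x = 1 ∨ x = c ∨ x = c * c := fun x hx => by
    obtain ⟨h, hh⟩ := (hmem _).1 hx
    have : zeta h = h := hθ (by rw [← hz, hh, ← (hC _).1 x.2, mul_inv_cancel_right])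
    rcases fix_zeta h this with rfl | rfl | rfl
    · exact Or.inl (Subtype.ext (by rw [← hh, map_one]; rfl))
    · exact Or.inr (Or.inl (Subtype.ext hh.symm))
    · exact Or.inr (Or.inr (Subtype.ext (by rw [← hh, map_mul]; rfl)))
  haveI : Fact (Nat.Prime 3) := ⟨Nat.prime_three⟩
  have hCc : Nat.card C = 72 := by
    have h1 := (π.comp C.subtype).ker.card_mul_index
    have h2 : (π.comp C.subtype).ker = Subgroup.zpowers c := by
      refine le_antisymm (fun x hx => ?_) (Subgroup.zpowers_le.2 (hπθ c0))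
      rcases hCR x ((hk _).1 hx) with rfl | rfl | rfl
      · exact one_mem _
      · exact Subgroup.mem_zpowers _
      · exact mul_mem (Subgroup.mem_zpowers _) (Subgroup.mem_zpowers _)
    have h3 : (π.comp C.subtype).range = ⊤ := by
      rw [eq_top_iff]
      intro g _
      obtain ⟨x, rfl⟩ := hs g
      obtain ⟨h, hh⟩ := hdec x
      exact ⟨⟨_, (hC _).2 hh⟩, by show π (θ h * x) = _; rw [map_mul, hπθ, one_mul]⟩
    rw [Subgroup.index_ker, h3, h2, Nat.card_zpowers, Subgroup.card_top, s_card,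
      orderOf_eq_prime (x := c) (Subtype.ext hc3) fun h => hc1 (congrArg Subtype.val h)] at h1
    omega
  -- an element of `E` outside `R`
  obtain ⟨e, heE, heR⟩ : ∃ e ∈ E, e ∉ R := by
    by_contra hcon
    push Not at hcon
    have : E = R := Subgroup.eq_of_le_of_card_ge hcon (by rw [hE, hR])
    have h1 := hEc (θ b0) (this ▸ (hmem _).2 ⟨_, rfl⟩) (θ a0) (this ▸ (hmem _).2 ⟨_, rfl⟩)
    rw [← map_mul, ← map_mul] at h1
    exact absurd (hθ h1) (by decide +kernel)
  obtain ⟨u, huE, hu⟩ : ∃ u, θ u ∈ E ∧ ¬ (u = 1 ∨ u = c0 ∨ u = c0 * c0) := by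
    by_contra hcon
    push Not at hcon
    have h1 := (π.comp E.subtype).ker.card_mul_index
    have h2 : (π.comp E.subtype).ker.index ∣ 3 := by
      have a1 : (π.comp E.subtype).ker.index ∣ 27 := hE ▸ Subgroup.index_dvd_card _
      have a2 : (π.comp E.subtype).ker.index ∣ 24 := by
        rw [Subgroup.index_ker, ← s_card]; exact Subgroup.card_subgroup_dvd_card _
      exact Nat.dvd_gcd a1 a2
    have h3 : Nat.card (π.comp E.subtype).ker ≤ 3 := by
      refine le_trans (Nat.card_le_card_of_injective (β := Subgroup.zpowers (θ c0))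
        (fun x => ⟨x.1.1, ?_⟩) fun x y h => Subtype.ext (Subtype.ext
          (congrArg (fun q : Subgroup.zpowers (θ c0) => q.1) h)))
        ((Nat.card_zpowers _).trans (orderOf_eq_prime hc3 hc1)).le
      obtain ⟨h, hh⟩ := (hmem _).1 ((hk _).1 x.2)
      have hh' : θ h = x.1.1 := hh
      have hq := hcon h (hh' ▸ x.1.2)
      rw [← hh']
      rcases hq with rfl | rfl | rfl
      · rw [map_one]; exact one_mem _
      · exact Subgroup.mem_zpowers _
      · rw [map_mul]; exact mul_mem (Subgroup.mem_zpowers _) (Subgroup.mem_zpowers _)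
    have := Nat.mul_le_mul h3 (Nat.le_of_dvd (by norm_num) h2)
    omega
  obtain ⟨h, hh⟩ := hdec e
  have heu : Commute e (θ u) := hEc _ heE _ huE
  have hec : Commute e (θ c0) := hc e
  have hez : Commute e (θ (zeta u)) := by
    obtain ⟨j, hj⟩ := zeta_dec u
    rw [hj, map_mul, map_inv, map_pow]
    exact heu.inv_right.mul_right (hec.pow_right _)
  obtain ⟨i, j, hij⟩ := cent_aux u h hu (hθ (by
    rw [← hz, map_mul, map_mul, map_mul, map_mul, map_inv]
    calc θ h * θ (zeta u) * (θ h)⁻¹ = θ h * (e * θ (zeta u)) * (θ h * e)⁻¹ := by rw [hez.eq]; group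
      _ = θ h * e * z * θ u * (θ h * e * z)⁻¹ := by rw [← hz]; group
      _ = z * (θ h * (e * θ u) * (θ h * e)⁻¹) * z⁻¹ := by rw [hh]; group
      _ = _ := by rw [heu.eq]; group))
  have heh : Commute (θ h) e := by
    rw [hij, map_mul, map_pow, map_pow]
    exact ((heu.pow_right _).mul_right (hec.pow_right _)).symm
  let t : C := ⟨θ h * e, (hC _).2 hh⟩
  have htR : t.1 ∉ R := fun h1 => heR ((R.mul_mem_cancel_left ((hmem _).2 ⟨h, rfl⟩)).1 h1)
  have ht3 : t ^ 3 = 1 := Subtype.ext (by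
    show (θ h * e) ^ 3 = 1
    rw [heh.mul_pow, hE3 e heE, ← map_pow, cube, map_one, one_mul])
  have ht1 : t ≠ 1 := fun h1 => htR (by rw [h1]; exact one_mem _)
  obtain ⟨L, hcL, hL⟩ := exists_compl hCc (c := c) (t := t) (fun x => Subtype.ext (hc x.1))
    (Subtype.ext hc3) ht3 ht1 (fun h1 => by
      have h2 : Subgroup.zpowers c = Subgroup.zpowers t := by
        refine Subgroup.eq_of_le_of_card_ge (Subgroup.zpowers_le.2 h1) ?_
        rw [Nat.card_zpowers, Nat.card_zpowers, orderOf_eq_prime ht3 ht1,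
          orderOf_eq_prime (x := c) (Subtype.ext hc3) fun h => hc1 (congrArg Subtype.val h)]
      obtain ⟨k, hk'⟩ := h2 ▸ Subgroup.mem_zpowers t
      apply htR
      rw [← hk']
      exact R.zpow_mem ((hmem _).2 ⟨_, rfl⟩) k)
  -- the centraliser of `R` lies in `R`
  have hcent : ∀ x, (∀ h, x * θ h = θ h * x) → x ∈ R := fun x hx => by
    have key : ∀ n, (∀ h, n * θ h = θ h * n) → π n ≠ -1 := fun n hn h1 => by
      obtain ⟨ρ, hρ⟩ := (hmem (z * n⁻¹)).1 (by rw [← hk, map_mul, map_inv, h1, hzπ, mul_inv_cancel])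
      refine not_inner ρ (hθ ?_)
      rw [← hz, map_mul, map_mul, map_inv, hρ]
      calc z * n⁻¹ * θ a0 * (z * n⁻¹)⁻¹ = z * n⁻¹ * (θ a0 * n) * z⁻¹ := by group
        _ = _ := by rw [← hn]; group
    rcases s_nor (π x) with h1 | h1 | ⟨g, h1⟩
    · exact (hk _).1 h1
    · exact absurd h1 (key x hx)
    · obtain ⟨y, rfl⟩ := hs g
      refine absurd (by rw [← h1]; simp only [map_pow, map_mul, map_inv])
        (key ((x * y * x⁻¹ * y⁻¹) ^ 2) fun h => (Commute.pow_left ?_ 2).eq)
      obtain ⟨ρ, hρ⟩ := (hmem (y⁻¹ * θ h * y)).1 (by rw [← hk]; simp [hπθ])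
      have h2 : Commute (y * x⁻¹ * y⁻¹) (θ h) := by
        have := (show Commute x (θ ρ) from hx ρ).inv_left.eq
        rw [hρ] at this
        calc y * x⁻¹ * y⁻¹ * θ h = y * (x⁻¹ * (y⁻¹ * θ h * y)) * y⁻¹ := by group
          _ = _ := by rw [this]; group
      have := (show Commute x (θ h) from hx h).mul_left h2
      rwa [← mul_assoc, ← mul_assoc] at this
  refine main θ hθ (C.subtype.comp L.subtype) z hz (fun l => (hC _).1 l.1.2) (fun l => hc _)
    (fun l h => ?_) (fun l hl => ?_) hL ?_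
  · obtain ⟨ρ, hρ⟩ := (hmem (l.1.1 * θ h * l.1.1⁻¹)).1 (by rw [← hk]; simp [hπθ])
    exact ⟨ρ, hρ.symm⟩
  · rcases hCR l.1 (hcent _ hl) with h1 | h1 | h1
    · exact Subtype.ext h1
    · exact absurd (h1 ▸ l.2) hcL
    · refine absurd ?_ hcL
      have : c = l.1 * l.1 := by
        rw [h1, ← pow_two, ← pow_two, ← pow_mul, show 2 * 2 = 3 + 1 from rfl, pow_succ,
          show c ^ 3 = 1 from Subtype.ext hc3, one_mul]
      rw [this]; exact mul_mem l.2 l.2
  · have h1 := π.ker.card_mul_index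
    rw [Subgroup.index_ker, MonoidHom.range_eq_top.2 hs, Subgroup.card_top, s_card,
      show π.ker = R from Subgroup.ext hk, hR] at h1
    omega

end Cfsg.Agent.Spc.He3
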