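import Mathlib
import Cfsg.Agent.Spc.He3c
import Cfsg.Agent.Classical.SpMat

/-! The centraliser of a transvection in `PSp₄(3)`. -/

namespace Cfsg.Agent.Spc.He3
open Matrix

abbrev M4 (R : Type*) := Matrix (Fin 2 ⊕ Fin 2) (Fin 2 ⊕ Fin 2) R

def U (h : H) : M4 (ZMod 3) :=
  fromBlocks !![1, h.x; 0, 1] !![h.t, h.y; h.y, 0] 0 !![1, 0; -h.x, 1]

def Lv (A : S) : M4 (ZMod 3) :=
  fromBlocks !![1, 0; 0, A.1 0 0] !![0, 0; 0, A.1 0 1] !![0, 0; 0, A.1 1 0] !![1, 0; 0, A.1 1 1]

def act (A : S) (h : H) : H :=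
  ⟨A.1 1 1 * h.x - A.1 1 0 * h.y, A.1 0 0 * h.y - A.1 0 1 * h.x, h.t⟩

theorem U_mul (g h : H) : U (g * h) = U g * U h := by
  ext (i | i) (j | j) <;> fin_cases i <;> fin_cases j <;>
    simp [U, Matrix.mul_apply, Fin.sum_univ_two] <;> ring
theorem U_mem : ∀ h : H, U h * J (Fin 2) (ZMod 3) * (U h)ᵀ = J (Fin 2) (ZMod 3) := by decide +kernel
theorem Lv_mul (g h : S) : Lv (g * h) = Lv g * Lv h := by
  ext (i | i) (j | j) <;> fin_cases i <;> fin_cases j <;>
    simp [Lv, Matrix.mul_apply, Fin.sum_univ_two]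
theorem Lv_mem : ∀ h : S, Lv h * J (Fin 2) (ZMod 3) * (Lv h)ᵀ = J (Fin 2) (ZMod 3) := by
  decide +kernel
theorem Lv_U (A : S) (h : H) : Lv A * U h = U (act A h) * Lv A := by
  have hd := A.2
  rw [det_fin_two] at hd
  ext (i | i) (j | j) <;> fin_cases i <;> fin_cases j <;>
    simp [Lv, U, act, Matrix.mul_apply, Fin.sum_univ_two]
  · linear_combination (-h.x) * hd
  · linear_combination (-h.y) * hd
  all_goals ring
theorem act_neg : ∀ h : H, act (-1) h = zeta h := by decide +kernel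
theorem act_c0 : ∀ A : S, act A c0 = c0 := by decide +kernel
theorem act_faith : ∀ A : S, act A a0 = a0 → act A b0 = b0 → A = 1 := by decide +kernel
theorem U_c0 : U c0 ≠ 1 ∧ U c0 ≠ -1 := by decide +kernel
theorem U_c0' : U c0 = 1 + single (Sum.inl 0) (Sum.inr 0) 1 := by decide +kernel

def θ0 : H →* symplecticGroup (Fin 2) (ZMod 3) :=
  MonoidHom.mk' (fun h => ⟨U h, U_mem h⟩) fun g h => Subtype.ext (U_mul g h)

def lam0 : S →* symplecticGroup (Fin 2) (ZMod 3) :=
  MonoidHom.mk' (fun h => ⟨Lv h, Lv_mem h⟩) fun g h => Subtype.ext (Lv_mul g h)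

theorem lam0_θ0 (A : S) (h : H) : lam0 A * θ0 h = θ0 (act A h) * lam0 A := Subtype.ext (Lv_U A h)

open Cfsg.Agent.Classical in
theorem card_cent {F : Type*} [Field F] [Fintype F] (hF : Fintype.card F = 3)
    (c : symplecticGroup (Fin 2) F) (hc : c.1 = 1 + single (Sum.inl 0) (Sum.inr 0) 1) :
    Nat.card (Subgroup.centralizer
      ({(QuotientGroup.mk c : symplecticGroup (Fin 2) F ⧸ Subgroup.center _)} : Set _)) ≤ 648 := by
  classical
  let v : Fin 2 ⊕ Fin 2 → F := Pi.single (Sum.inl 0) 1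
  have hv : v ≠ 0 := by
    intro h; simpa [v] using congrFun h (Sum.inl 0)
  have h2 : (2 : F) ≠ 0 := by
    intro h
    have h3 : ((3 : ℕ) : F) = 0 := hF ▸ FiniteField.cast_card_eq_zero F
    have : (1 : F) = 0 := by push_cast at h3; linear_combination h3 - h
    exact one_ne_zero this
  have hfix : Nat.card (SpWitt.fixSub (SpMat.sB (Fin 2) F) (F ∙ v)) = 648 := by
    rw [SpWitt.card_fixSub_of_isotropic SpMat.sB_nondeg SpMat.sB_alt 1 1 (F ∙ v) ?_
      (finrank_span_singleton hv) (by rw [SpMat.finrank_eq]; simp), Nat.card_eq_fintype_card, hF]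
    · decide
    · intro x hx y hy
      obtain ⟨a, rfl⟩ := Submodule.mem_span_singleton.1 hx
      obtain ⟨b, rfl⟩ := Submodule.mem_span_singleton.1 hy
      show SpMat.sB (Fin 2) F (b • v) (a • v) = 0
      simp [SpMat.sB_alt v]
  let K := (SpWitt.fixSub (SpMat.sB (Fin 2) F) (F ∙ v)).map
    ((QuotientGroup.mk' (Subgroup.center (symplecticGroup (Fin 2) F))).comp
      (SpMat.spEquiv (Fin 2) F).symm.toMonoidHom)
  refine le_trans (Subgroup.card_le_of_le (K := K) fun x hx => ?_)
    (Nat.le_of_dvd (by norm_num) (hfix ▸ Subgroup.card_map_dvd _ _))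
  obtain ⟨g, rfl⟩ := QuotientGroup.mk_surjective x
  have hfixv : ∀ g : symplecticGroup (Fin 2) F, g.1 *ᵥ v = v → (QuotientGroup.mk g) ∈ K :=
    fun g hg => ⟨SpMat.spEquiv (Fin 2) F g, fun y hy => by
      obtain ⟨a, rfl⟩ := Submodule.mem_span_singleton.1 hy
      rw [SpMat.spEquiv_apply, mulVec_smul, hg], by simp⟩
  rw [Subgroup.mem_centralizer_singleton_iff, ← QuotientGroup.mk_mul, ← QuotientGroup.mk_mul,
    QuotientGroup.eq, SpMat.mem_center_iff] at hx
  have hN : single (Sum.inl 0) (Sum.inr 0) (1 : F) * single (Sum.inl 0) (Sum.inr 0) (1 : F) =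
      (0 : M4 F) := single_mul_single_of_ne _ _ _ _ (by simp) _
  have hgc : g.1 * c.1 = c.1 * g.1 := by
    rcases hx with hx | hx
    · rw [inv_mul_eq_one] at hx; exact congrArg Subtype.val hx
    · exfalso
      rw [inv_mul_eq_iff_eq_mul] at hx
      have h1 : c.1 * g.1 = -(g.1 * c.1) := by
        have := congrArg Subtype.val hx
        rw [Submonoid.coe_mul, Submonoid.coe_mul, Submonoid.coe_mul] at this
        rw [this]; simp [SpMat.negOne]
      have h3 : c.1 = -(g.1 * c.1 * (g⁻¹).1) := by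
        rw [← neg_mul, ← h1, mul_assoc, SpMat.coe_mul_inv, mul_one]
      have h4 := congrArg Matrix.trace h3
      rw [trace_neg, trace_mul_cycle, SpMat.coe_inv_mul, one_mul, hc, trace_add, trace_one,
        trace_single_eq_of_ne _ _ _ (by simp)] at h4
      simp only [Fintype.card_sum, Fintype.card_fin, add_zero] at h4
      push_cast at h4
      have : (2 : F) * 2 * 2 = 0 := by linear_combination h4
      simp [h2] at this
  rw [hc, mul_add, add_mul, mul_one, one_mul, add_right_inj] at hgc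
  have hgv : g.1 *ᵥ v = g.1 (Sum.inr 0) (Sum.inr 0) • v := by
    ext i
    have := congrFun (congrFun hgc i) (Sum.inr 0)
    rw [mul_single_apply_same, mul_one] at this
    simp only [v, mulVec_single_one, col_apply, this, Pi.smul_apply, smul_eq_mul]
    by_cases hi : i = Sum.inl 0
    · subst hi; simp
    · rw [single_mul_apply_of_ne _ _ _ _ _ hi]; simp [hi]
  generalize g.1 (Sum.inr 0) (Sum.inr 0) = μ at hgv
  have hμ : μ ≠ 0 := by
    rintro rfl
    apply hv
    rw [← one_mulVec v, ← SpMat.coe_inv_mul g, ← mulVec_mulVec, hgv, zero_smul, mulVec_zero]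
  have hμ2 := FiniteField.pow_card_sub_one_eq_one μ hμ
  rw [hF, show 3 - 1 = 2 from rfl, sq_eq_one_iff] at hμ2
  rcases hμ2 with rfl | rfl
  · exact hfixv g (by rw [hgv, one_smul])
  · have := hfixv (g * SpMat.negOne (Fin 2) F) (by
      rw [Submonoid.coe_mul, ← mulVec_mulVec]
      show g.1 *ᵥ (-1 : M4 F) *ᵥ v = v
      rw [neg_mulVec, one_mulVec, mulVec_neg, hgv]; simp)
    rwa [QuotientGroup.mk_mul_of_mem _ (SpMat.mem_center_iff.2 (Or.inr rfl))] at this

theorem psp_side (F : Type*) [Field F] [Fintype F] (hF : Fintype.card F = 3) :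
    ∃ c : PSp 2 F, orderOf c = 3 ∧ Nonempty (M ≃* Subgroup.centralizer ({c} : Set (PSp 2 F))) := by
  let e := ZMod.ringEquivOfPrime F Nat.prime_three hF
  let σ : symplecticGroup (Fin 2) (ZMod 3) →* symplecticGroup (Fin 2) F :=
    (e.toRingHom.mapMatrix.toMonoidHom.comp (Submonoid.subtype _)).codRestrict _ fun g =>
      SymplecticGroup.map_mem g.2 e
  let π := (QuotientGroup.mk' (Subgroup.center (symplecticGroup (Fin 2) F))).comp σ
  have hπ : ∀ x y, π x = π y ↔ x.1 = y.1 ∨ x.1 = -y.1 := fun x y => by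
    have h1 : ∀ A B : M4 (ZMod 3), A.map e = B.map e ↔ A = B :=
      fun A B => (Matrix.map_injective e.injective).eq_iff
    rw [eq_comm, ← h1, ← h1, Matrix.map_neg _ (map_neg e)]
    refine QuotientGroup.eq.trans (Classical.SpMat.mem_center_iff.trans (or_congr ?_ ?_))
    · rw [inv_mul_eq_one, eq_comm]; exact Subtype.ext_iff
    · rw [inv_mul_eq_iff_eq_mul, Subtype.ext_iff]
      show x.1.map e = y.1.map e * -1 ↔ _
      rw [mul_neg, mul_one]
  have hc1 : π (θ0 c0) ≠ 1 := fun h => by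
    rw [← map_one π, hπ] at h
    exact h.elim U_c0.1 U_c0.2
  have hc3 : π (θ0 c0) ^ 3 = 1 := by rw [← map_pow, ← map_pow, cube, map_one, map_one]
  haveI : Fact (Nat.Prime 3) := ⟨Nat.prime_three⟩
  haveI : Finite (symplecticGroup (Fin 2) F) := Subtype.finite
  refine ⟨π (θ0 c0), orderOf_eq_prime hc3 hc1, ?_⟩
  let C := Subgroup.centralizer ({π (θ0 c0)} : Set (PSp 2 F))
  have hC : ∀ x, x ∈ C ↔ x * π (θ0 c0) = π (θ0 c0) * x :=
    fun x => Subgroup.mem_centralizer_singleton_iff
  let θ : H →* C := (π.comp θ0).codRestrict C fun h => (hC _).2 (by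
    show π (θ0 h) * _ = _ * π (θ0 h)
    rw [← map_mul, ← map_mul, ← map_mul, ← map_mul, c0_comm])
  let lam : S →* C := (π.comp lam0).codRestrict C fun A => (hC _).2 (by
    show π (lam0 A) * _ = _ * π (lam0 A)
    rw [← map_mul, ← map_mul, lam0_θ0, act_c0])
  have hθ : Function.Injective θ := injective_of θ fun h => hc1 (congrArg Subtype.val h)
  have hact : ∀ A h, lam A * θ h = θ (act A h) * lam A := fun A h => Subtype.ext (by
    show π (lam0 A) * π (θ0 h) = π (θ0 _) * π (lam0 A)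
    rw [← map_mul, ← map_mul, lam0_θ0])
  refine main θ hθ lam (lam (-1)) (fun h => by rw [hact, act_neg, mul_inv_cancel_right])
    (fun l => by rw [← map_mul, ← map_mul]; simp) (fun l => by rw [hact, act_c0])
    (fun l h => ⟨_, by rw [hact, mul_inv_cancel_right]⟩) (fun l hl => act_faith l ?_ ?_)
    s_card.ge (card_cent hF (σ (θ0 c0)) ?_)
  · exact hθ (mul_right_cancel ((hact l _).symm.trans (hl _)))
  · exact hθ (mul_right_cancel ((hact l _).symm.trans (hl _)))
  · show (U c0).map e = _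
    rw [U_c0', Matrix.map_add _ (map_add e), Matrix.map_one _ (map_zero e) (map_one e),
      Matrix.map_single, map_one]

theorem sylow_aux {G : Type*} [Group G] [Finite G] (hG : Nat.card G = 3 ^ 4 * 320) {c : G}
    (hc : orderOf c = 3) (hC : Nat.card (Subgroup.centralizer ({c} : Set G)) = 648) :
    ∃ P : Sylow 3 G, c ∈ (P : Subgroup G) ∧ c ∈ Subgroup.centralizer ((P : Subgroup G) : Set G) := by
  haveI : Fact (Nat.Prime 3) := ⟨Nat.prime_three⟩
  let C := Subgroup.centralizer ({c} : Set G)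
  obtain ⟨Q⟩ : Nonempty (Sylow 3 C) := inferInstance
  have hQ : Nat.card (Q : Subgroup C) = 3 ^ 4 := by
    rw [Q.card_eq_multiplicity, hC, show 648 = 3 ^ 4 * 8 from rfl,
      Nat.factorization_mul_apply_of_coprime (by norm_num), Nat.Prime.factorization_pow Nat.prime_three,
      Nat.factorization_eq_zero_of_not_dvd (by norm_num)]
    simp
  obtain ⟨P, hP⟩ := (Q.isPGroup'.map C.subtype).exists_le_sylow
  have hPc : Nat.card (P : Subgroup G) = 3 ^ 4 := by
    rw [P.card_eq_multiplicity, hG,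
      Nat.factorization_mul_apply_of_coprime (by norm_num), Nat.Prime.factorization_pow Nat.prime_three,
      Nat.factorization_eq_zero_of_not_dvd (by norm_num)]
    simp
  have he : (Q : Subgroup C).map C.subtype = P := Subgroup.eq_of_le_of_card_ge hP (by
    rw [hPc, Subgroup.card_map_of_injective C.subtype_injective, hQ])
  let c' : C := ⟨c, Subgroup.mem_centralizer_singleton_iff.2 rfl⟩
  have hc' : ∀ x : C, x * c' = c' * x := fun x =>
    Subtype.ext (Subgroup.mem_centralizer_singleton_iff.1 x.2)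
  haveI : (Subgroup.zpowers c').Normal := ⟨by
    rintro _ ⟨k, rfl⟩ g
    refine ⟨k, ?_⟩
    show c' ^ k = g * c' ^ k * g⁻¹
    rw [((show Commute g c' from hc' g).zpow_right k).eq, mul_inv_cancel_right]⟩
  have hp : IsPGroup 3 (Subgroup.zpowers c') := IsPGroup.of_card (n := 1) (by
    rw [Nat.card_zpowers, ← Subgroup.orderOf_coe c', hc, pow_one])
  refine ⟨P, he ▸ ⟨c', hp.le_sylow_of_normal Q (Subgroup.mem_zpowers _), rfl⟩, fun x hx => ?_⟩
  rw [← he] at hx
  obtain ⟨y, -, rfl⟩ := hx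
  exact congrArg Subtype.val (hc' y)

theorem card_PSp (F : Type*) [Field F] [Fintype F] (hF : Fintype.card F = 3) :
    Nat.card (PSp 2 F) = 3 ^ 4 * 320 := by
  have h1 := (Subgroup.center (symplecticGroup (Fin 2) F)).card_mul_index
  rw [Classical.SpMat.card_center, Classical.SpMat.card_sp, Nat.card_eq_fintype_card, hF] at h1
  have : (Subgroup.center (symplecticGroup (Fin 2) F)).index = 25920 := by
    simp [Finset.prod_range_succ] at h1; omega
  exact this

end Cfsg.Agent.Spc.He3
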