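import Mathlib
import Cfsg.Agent.Isaacs.FrobSchur
import Cfsg.Agent.Isaacs.INReal

/-! A real irreducible character whose restriction to a subgroup contains the trivial character
with odd multiplicity has Frobenius-Schur indicator one. -/

set_option autoImplicit false

namespace Cfsg.Agent.Spc.Fs

open Cfsg Cfsg.Agent.Char Cfsg.Agent.Isaacs Matrix
open scoped ComplexConjugate

theorem idem_factor {n : ℕ} {E : Matrix (Fin n) (Fin n) ℂ} (hE : E * E = E) :
    ∃ (r : ℕ) (P : Matrix (Fin n) (Fin r) ℂ) (Q : Matrix (Fin r) (Fin n) ℂ), P * Q = E ∧ Q * P = 1 := by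
  let W := LinearMap.range (toLin' E)
  let b := Module.finBasis ℂ W
  refine ⟨_, LinearMap.toMatrix b (Pi.basisFun ℂ (Fin n)) W.subtype,
    LinearMap.toMatrix (Pi.basisFun ℂ (Fin n)) b (toLin' E).rangeRestrict, ?_, ?_⟩
  · rw [← LinearMap.toMatrix_comp, LinearMap.subtype_comp_codRestrict, LinearMap.toMatrix_eq_toMatrix',
      LinearMap.toMatrix'_toLin']
  · rw [← LinearMap.toMatrix_comp, ← LinearMap.toMatrix_id b]
    congr 1
    ext ⟨_, v, rfl⟩ : 2
    simp [toLin'_apply, mulVec_mulVec, hE]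

theorem even_trace {n : ℕ} {E M : Matrix (Fin n) (Fin n) ℂ} (hE : E * E = E) (hM : IsUnit M) (hs : Mᵀ = -M)
    (h : Eᵀ * M = M * E) {m : ℕ} (hm : E.trace = m) : Even m := by
  obtain ⟨r, P, Q, h1, h2⟩ := idem_factor hE
  have hr : m = r := by
    rw [← h1, trace_mul_comm, h2, trace_one, Fintype.card_fin] at hm
    exact_mod_cast hm.symm
  subst hr
  obtain ⟨N, hN⟩ := hM.exists_right_inv
  have a : (Pᵀ * M * P) * (Q * N * Qᵀ) = 1 := by
    calc (Pᵀ * M * P) * (Q * N * Qᵀ)
        = Pᵀ * ((M * (P * Q)) * N) * Qᵀ := by simp only [Matrix.mul_assoc]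
      _ = (Q * E * P)ᵀ := by
        rw [h1, ← h, Matrix.mul_assoc Eᵀ, hN, Matrix.mul_one, transpose_mul, transpose_mul, Matrix.mul_assoc]
      _ = 1 := by rw [← h1, ← Matrix.mul_assoc, h2, Matrix.one_mul, h2, transpose_one]
  have b : (Pᵀ * M * P)ᵀ = -(Pᵀ * M * P) := by
    rw [transpose_mul, transpose_mul, transpose_transpose, hs]; simp [Matrix.mul_assoc]
  have c := congrArg det b
  by_contra o
  rw [det_transpose, det_neg, Fintype.card_fin, (Nat.not_even_iff_odd.mp o).neg_one_pow, neg_one_mul, self_eq_neg] at c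
  have d := congrArg det a
  rw [det_mul, c, zero_mul, det_one] at d
  exact zero_ne_one d

variable {G : Type*} [Group G] [Finite G]

theorem fs_of_odd {χ : G → ℂ} (h : Irr ⊤ χ) (hr : ∀ x, conj (χ x) = χ x) (S : Subgroup G) {m : ℕ}
    (hm : inn S χ (fun _ => 1) = m) (ho : Odd m) : fs ⊤ χ = 1 := by
  classical
  have := Fintype.ofFinite G
  refine (h.fs_of_real fun x _ => hr x).resolve_right fun e => ?_
  rw [fs_top] at e
  obtain ⟨n, ρ, i, rfl⟩ := irr_top.mp h
  have hreal : ∀ g, (ρ.character g).im = 0 := fun g => Complex.conj_eq_iff_im.mp (hr g)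
  obtain ⟨M, h0, hM⟩ := exists_form hreal
  have h1 := form_transpose hreal hM
  rw [e, neg_one_smul] at h1
  have hc : (Nat.card S : ℂ) ≠ 0 := by exact_mod_cast Nat.card_pos.ne'
  set E : Matrix (Fin n) (Fin n) ℂ := (Nat.card S : ℂ)⁻¹ • ∑ s : S, mx ρ s with hE
  have k1 : ∀ t : S, mx ρ t * E = E := fun t => by
    rw [hE, Matrix.mul_smul, Finset.mul_sum]
    congr 1
    exact Fintype.sum_equiv (Equiv.mulLeft t) _ _ fun s => by simp
  refine Nat.not_even_iff_odd.mpr ho (even_trace (E := E) ?_ (form_unit hM h0) h1 ?_ ?_)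
  · nth_rw 1 [hE]
    rw [Matrix.smul_mul, Finset.sum_mul, Finset.sum_congr rfl fun t _ => k1 t, Finset.sum_const, Finset.card_univ,
      ← Nat.card_eq_fintype_card, ← Nat.cast_smul_eq_nsmul ℂ, smul_smul, inv_mul_cancel₀ hc, one_smul]
  · rw [hE, transpose_smul, Matrix.smul_mul, Matrix.mul_smul, transpose_sum, Finset.sum_mul, Finset.mul_sum]
    congr 1
    exact Fintype.sum_equiv (Equiv.inv S) _ _ fun s => by rw [form_move hM]; simp
  · rw [← hm, hE, trace_smul, trace_sum, smul_eq_mul, inv_mul_eq_iff_eq_mul₀ hc, card_mul_inn]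
    simp [mx_trace]

end Cfsg.Agent.Spc.Fs
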