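import Mathlib

/-! The group of lifts of a group acting on a graph to the universal cover of the graph. -/

set_option autoImplicit false
set_option linter.unusedSectionVars false

namespace Cfsg.Agent.SpcTree

open FreeGroup hiding map_one map_mul map_inv

section Words

variable {E : Type*} [DecidableEq E]

theorem toWord_map {f : E → E} (hf : Function.Injective f) (w : FreeGroup E) :
    (FreeGroup.map f w).toWord = w.toWord.map fun x => (f x.1, x.2) := by
  conv_lhs => rw [← mk_toWord (x := w), map.mk, toWord_mk]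
  apply FreeGroup.IsReduced.reduce_eq
  have h : FreeGroup.IsReduced w.toWord := isReduced_toWord
  unfold FreeGroup.IsReduced at h ⊢
  rw [List.isChain_map]
  exact h.imp fun a b h1 h2 => h1 (hf h2)

theorem norm_inv_mul {a b : FreeGroup E} (h : a.toWord.head? ≠ b.toWord.head?) :
    norm (a⁻¹ * b) = norm a + norm b := by
  have h1 : FreeGroup.IsReduced (a⁻¹.toWord ++ b.toWord) := by
    unfold FreeGroup.IsReduced
    rw [List.isChain_append]
    refine ⟨isReduced_toWord, isReduced_toWord, fun x hx y hy hxy => ?_⟩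
    by_contra h2
    apply h
    rw [toWord_inv, invRev, List.getLast?_reverse, List.head?_map] at hx
    rw [Option.mem_def.1 hy]
    obtain ⟨z, hz, rfl⟩ := Option.map_eq_some_iff.1 (Option.mem_def.1 hx)
    rw [hz]
    congr 1
    refine Prod.ext hxy ?_
    revert h2
    cases z.2 <;> cases y.2 <;> simp
  unfold FreeGroup.norm
  rw [toWord_mul, h1.reduce_eq, List.length_append, toWord_inv, invRev_length]

theorem norm_strip {w : FreeGroup E} {l : E × Bool} (h : w.toWord.head? = some l) :
    norm ((mk [l])⁻¹ * w) + 1 = norm w := by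
  obtain ⟨W, hW⟩ := List.head?_eq_some_iff.1 h
  have h1 : (mk [l])⁻¹ * w = mk W := by
    rw [inv_mul_eq_iff_eq_mul, mul_mk, ← mk_toWord (x := w), hW]
    rfl
  have h2 : FreeGroup.IsReduced W := (isReduced_toWord (x := w)).infix (hW ▸ (List.suffix_cons l W).isInfix)
  unfold FreeGroup.norm
  rw [h1, toWord_mk, h2.reduce_eq, hW, List.length_cons]

theorem toWord_single (l : E × Bool) : (mk [l]).toWord = [l] := rfl

end Words

variable {Γ V E : Type*} [Group Γ] [MulAction Γ V] [MulAction Γ E] (src tgt : E → V)

/-- Start of a letter. -/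
def st (l : E × Bool) : V := if l.2 then src l.1 else tgt l.1

/-- End of a letter. -/
def en (l : E × Bool) : V := if l.2 then tgt l.1 else src l.1

/-- The word is a path between the two vertices. -/
def IsPath : V → List (E × Bool) → V → Prop
  | x, [], y => x = y
  | x, l :: L, y => st src tgt l = x ∧ IsPath (en src tgt l) L y

variable {src tgt}

theorem isPath_append {L M : List (E × Bool)} {x z : V} :
    IsPath src tgt x (L ++ M) z ↔ ∃ y, IsPath src tgt x L y ∧ IsPath src tgt y M z := by
  induction L generalizing x with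
  | nil => simp [IsPath]
  | cons l L ih =>
    simp only [List.cons_append, IsPath, ih]
    constructor
    · rintro ⟨h, y, h1, h2⟩
      exact ⟨y, ⟨h, h1⟩, h2⟩
    · rintro ⟨y, ⟨h, h1⟩, h2⟩
      exact ⟨h, y, h1, h2⟩

theorem IsPath.inv {L : List (E × Bool)} {x y : V} (h : IsPath src tgt x L y) :
    IsPath src tgt y (invRev L) x := by
  induction L generalizing x with
  | nil => exact h.symm
  | cons l L ih =>
    rw [invRev_cons, isPath_append]
    refine ⟨_, ih h.2, ?_⟩
    obtain ⟨e, b⟩ := l
    have := h.1
    cases b <;> simpa [invRev, IsPath, st, en] using this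

theorem IsPath.uniq {L : List (E × Bool)} {x y z : V} (h : IsPath src tgt x L y)
    (h' : IsPath src tgt x L z) : y = z := by
  induction L generalizing x with
  | nil => exact h.symm.trans h'
  | cons l L ih => exact ih h.2 h'.2

theorem IsPath.red {L M : List (E × Bool)} {x y : V} (h : IsPath src tgt x L y) (hr : Red L M) :
    IsPath src tgt x M y := by
  induction hr with
  | refl => exact h
  | tail _ h2 ih =>
    obtain @⟨L1, L2, e, b⟩ := h2
    obtain ⟨z, h3, h4, h5, h6⟩ := isPath_append.1 ih
    refine isPath_append.2 ⟨z, h3, ?_⟩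
    cases b <;> simpa [st, en, ← h4] using h6

theorem IsPath.smul (hs : ∀ (γ : Γ) e, src (γ • e) = γ • src e)
    (ht : ∀ (γ : Γ) e, tgt (γ • e) = γ • tgt e) (γ : Γ) {L : List (E × Bool)} {x y : V}
    (h : IsPath src tgt x L y) :
    IsPath src tgt (γ • x) (L.map fun l => (γ • l.1, l.2)) (γ • y) := by
  induction L generalizing x with
  | nil => exact congrArg _ h
  | cons l L ih =>
    obtain ⟨e, b⟩ := l
    have h1 := ih h.2
    have h2 := h.1
    cases b <;> simp only [List.map_cons, IsPath, st, en, hs, ht] at h1 h2 ⊢ <;>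
      exact ⟨by simpa using congrArg (γ • ·) h2, by simpa using h1⟩

variable (src tgt) in
/-- The free group element is represented by a path. -/
def PW (x : V) (w : FreeGroup E) (y : V) : Prop := ∃ L, mk L = w ∧ IsPath src tgt x L y

theorem PW.word [DecidableEq E] {x y : V} {w : FreeGroup E} (h : PW src tgt x w y) :
    IsPath src tgt x w.toWord y := by
  obtain ⟨L, rfl, h⟩ := h
  exact h.red reduce.red

theorem PW.one (x : V) : PW src tgt x 1 x := ⟨[], rfl, rfl⟩

theorem PW.mul {x y z : V} {a b : FreeGroup E} (h : PW src tgt x a y) (h' : PW src tgt y b z) :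
    PW src tgt x (a * b) z := by
  obtain ⟨L, rfl, h⟩ := h
  obtain ⟨M, rfl, h'⟩ := h'
  exact ⟨L ++ M, rfl, isPath_append.2 ⟨y, h, h'⟩⟩

theorem PW.inv {x y : V} {a : FreeGroup E} (h : PW src tgt x a y) : PW src tgt y a⁻¹ x := by
  obtain ⟨L, rfl, h⟩ := h
  exact ⟨_, rfl, h.inv⟩

theorem PW.uniq {x y z : V} {a : FreeGroup E} (h : PW src tgt x a y) (h' : PW src tgt x a z) :
    y = z := by
  classical
  exact h.word.uniq h'.word

variable (Γ E) in
/-- The action on the free group. -/
def act : Γ →* MulAut (FreeGroup E) where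
  toFun γ := freeGroupCongr (MulAction.toPerm γ)
  map_one' := by
    ext w
    change FreeGroup.map _ w = w
    conv_rhs => rw [← FreeGroup.map.id w]
    congr 2
    ext e
    simp
  map_mul' a b := by
    ext w
    change FreeGroup.map _ w = FreeGroup.map _ (FreeGroup.map _ w)
    rw [FreeGroup.map.comp]
    congr 2
    ext e
    simp [mul_smul]

theorem act_apply (γ : Γ) (w : FreeGroup E) : act Γ E γ w = FreeGroup.map (γ • ·) w := rfl

theorem PW.smul (hs : ∀ (γ : Γ) e, src (γ • e) = γ • src e)
    (ht : ∀ (γ : Γ) e, tgt (γ • e) = γ • tgt e) (γ : Γ) {x y : V} {a : FreeGroup E}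
    (h : PW src tgt x a y) : PW src tgt (γ • x) (act Γ E γ a) (γ • y) := by
  obtain ⟨L, rfl, h⟩ := h
  exact ⟨_, rfl, h.smul hs ht γ⟩

theorem toWord_act [DecidableEq E] (γ : Γ) (w : FreeGroup E) :
    (act Γ E γ w).toWord = w.toWord.map fun x => (γ • x.1, x.2) :=
  toWord_map (MulAction.injective γ) w

theorem norm_act [DecidableEq E] (γ : Γ) (w : FreeGroup E) : norm (act Γ E γ w) = norm w := by
  unfold FreeGroup.norm
  rw [toWord_act, List.length_map]

/-- A finite group acting on the tree of paths fixes a vertex. -/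
theorem fix (hs : ∀ (γ : Γ) e, src (γ • e) = γ • src e)
    (ht : ∀ (γ : Γ) e, tgt (γ • e) = γ • tgt e) {H : Type*} [Group H] (ρ : H →* Γ)
    [DecidableEq E] : ∀ (D : ℕ) (y : V) (c : H → FreeGroup E),
      (∀ h k, c (h * k) = c h * act Γ E (ρ h) (c k)) → (∀ h, norm (c h) ≤ D) →
      (∀ h, PW src tgt y (c h) (ρ h • y)) →
      ∃ u z, PW src tgt y u z ∧ ∀ h, c h * act Γ E (ρ h) u = u := by
  intro D
  induction D with
  | zero =>
    intro y c _ hD _
    exact ⟨1, y, PW.one y, fun h => by rw [norm_eq_zero.1 (Nat.le_zero.1 (hD h))]; simp⟩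
  | succ D ih =>
    intro y c hc hD hp
    by_cases h0 : ∀ h, norm (c h) ≤ D
    · exact ih y c hc h0 hp
    push Not at h0
    obtain ⟨h0, hh0⟩ := h0
    have e0 : norm (c h0) = D + 1 := le_antisymm (hD h0) hh0
    have c1 : c 1 = 1 := by
      have := hc 1 1
      rw [map_one, map_one, mul_one] at this
      exact mul_eq_left.1 this.symm
    obtain ⟨l, hl⟩ : ∃ l, (c h0).toWord.head? = some l := by
      cases h : (c h0).toWord with
      | nil => simp [FreeGroup.norm, h] at e0
      | cons l L => exact ⟨l, rfl⟩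
    have star : ∀ k, c k ≠ 1 → (c k).toWord.head? = some l := by
      intro k hk
      by_contra h
      have h1 := norm_inv_mul (a := c h0) (b := c k) (by rw [hl]; exact Ne.symm h)
      have h2 := hc h0 (h0⁻¹ * k)
      rw [mul_inv_cancel_left] at h2
      rw [h2, inv_mul_cancel_left, norm_act, ← h2] at h1
      have h3 := hD (h0⁻¹ * k)
      have h4 : norm (c k) ≠ 0 := fun h => hk (norm_eq_zero.1 h)
      omega
    have hx : PW src tgt y (mk [l]) (en src tgt l) := by
      obtain ⟨W, hW⟩ := List.head?_eq_some_iff.1 hl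
      have := (hp h0).word
      rw [hW] at this
      exact ⟨[l], rfl, this.1, rfl⟩
    obtain ⟨u, z, hu, hf⟩ := ih (en src tgt l) (fun h => (mk [l])⁻¹ * c h * act Γ E (ρ h) (mk [l]))
      (fun h k => by
        simp only [hc, map_mul, map_inv, MulAut.mul_apply]
        group) (fun h => by
        have hm : act Γ E (ρ h) (mk [l]) = mk [(ρ h • l.1, l.2)] := rfl
        by_cases h1 : c h = 1
        · have h2 := hc h h0
          rw [h1, one_mul] at h2
          have h3 := star (h * h0) (fun h4 => by
            rw [h4] at h2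
            have := norm_act (ρ h) (c h0)
            rw [← h2, e0] at this
            simp at this)
          rw [h2, toWord_act, List.head?_map, hl] at h3
          have h4 : (ρ h • l.1, l.2) = l := Option.some.inj h3
          simp only [h1, mul_one, hm, h4, inv_mul_cancel, FreeGroup.norm_one, Nat.zero_le]
        · have h2 := hc h h⁻¹
          rw [mul_inv_cancel, c1, eq_comm, mul_eq_one_iff_inv_eq] at h2
          have h3 := star h⁻¹ (fun h4 => by
            rw [h4, map_one, inv_eq_one] at h2
            exact h1 h2)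
          have h4 : (c h)⁻¹.toWord.head? = some (ρ h • l.1, l.2) := by
            rw [h2, toWord_act, List.head?_map, h3]
            rfl
          have h5 := norm_strip (star h h1)
          set a := (mk [l])⁻¹ * c h with ha
          have h6 : a ≠ 1 := fun h7 => by
            rw [ha, inv_mul_eq_one] at h7
            rw [← h7, toWord_inv, toWord_single] at h4
            have := congrArg Prod.snd (Option.some.inj h4)
            simp at this
          have h7 : a⁻¹.toWord.head? = some (ρ h • l.1, l.2) := by
            by_contra h8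
            have h9 := norm_inv_mul (a := a⁻¹) (b := (c h)⁻¹) (by rw [h4]; exact h8)
            rw [inv_inv, ha, mul_inv_cancel_right, ← ha, norm_inv_eq, norm_inv_eq, norm_inv_eq] at h9
            have h10 : norm a ≠ 0 := fun h => h6 (norm_eq_zero.1 h)
            have h11 : norm (mk [l]) = 1 := rfl
            omega
          have h8 := norm_strip h7
          rw [← mul_inv_rev, norm_inv_eq, norm_inv_eq, ← hm] at h8
          have := hD h
          omega)
      (fun h => (hx.inv.mul (hp h)).mul (hx.smul hs ht _))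
    refine ⟨mk [l] * u, z, hx.mul hu, fun h => ?_⟩
    have := hf h
    rw [map_mul]
    conv_rhs => rw [← this]
    group

variable (src tgt) in
/-- The group of lifts. -/
def lifts (hs : ∀ (γ : Γ) e, src (γ • e) = γ • src e)
    (ht : ∀ (γ : Γ) e, tgt (γ • e) = γ • tgt e) (x : V) :
    Subgroup (FreeGroup E ⋊[act Γ E] Γ) where
  carrier := {g | PW src tgt x g.left (g.right • x)}
  one_mem' := by simpa using PW.one x
  mul_mem' := by
    intro a b ha hb
    have := PW.mul ha (PW.smul hs ht a.right hb)
    simpa [mul_smul] using this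
  inv_mem' := by
    intro a ha
    have := (PW.smul hs ht a.right⁻¹ ha).inv
    simpa using this

theorem free_ker (K : Subgroup (FreeGroup E ⋊[act Γ E] Γ)) :
    IsFreeGroup (SemidirectProduct.rightHom.comp K.subtype).ker := by
  let f : (SemidirectProduct.rightHom.comp K.subtype).ker →* FreeGroup E :=
    MonoidHom.mk' (fun g => g.1.1.left) fun a b => by
      have : a.1.1.right = 1 := a.2
      simp [this]
  have hf : Function.Injective f := fun a b h => Subtype.ext (Subtype.ext (by
    have h1 : a.1.1.right = 1 := a.2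
    have h2 : b.1.1.right = 1 := b.2
    exact SemidirectProduct.ext h (h1.trans h2.symm)))
  exact IsFreeGroup.ofMulEquiv (MonoidHom.ofInjective hf).symm

theorem fin_sub (hs : ∀ (γ : Γ) e, src (γ • e) = γ • src e)
    (ht : ∀ (γ : Γ) e, tgt (γ • e) = γ • tgt e) (x : V) (htr : ∀ y, ∃ a : Γ, a • x = y)
    (H : Subgroup (lifts src tgt hs ht x)) [Finite H] :
    ∃ g : lifts src tgt hs ht x, ∀ h ∈ H, (g * h * g⁻¹).1.left = 1 := by
  classical
  obtain ⟨D, hD⟩ := (Set.finite_range fun h : H => norm h.1.1.left).bddAbove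
  obtain ⟨u, z, hu, hf⟩ := fix hs ht
    ((SemidirectProduct.rightHom.comp (lifts src tgt hs ht x).subtype).comp H.subtype) D x
    (fun h => h.1.1.left) (fun h k => rfl) (fun h => hD ⟨h, rfl⟩) (fun h => h.1.2)
  obtain ⟨a, rfl⟩ := htr z
  refine ⟨⟨⟨u, a⟩, hu⟩⁻¹, fun h hh => ?_⟩
  have h1 : h.1.left * act Γ E h.1.right u = u := hf ⟨h, hh⟩
  have h2 : h.1 * ⟨u, a⟩ = ⟨u, a⟩ * SemidirectProduct.inr (a⁻¹ * h.1.right * a) :=
    SemidirectProduct.ext (by simpa using h1) (by simp [mul_assoc])
  change ((⟨u, a⟩ : FreeGroup E ⋊[act Γ E] Γ)⁻¹ * h.1 * (⟨u, a⟩ : FreeGroup E ⋊[act Γ E] Γ)⁻¹⁻¹).left = 1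
  rw [inv_inv, mul_assoc, h2, inv_mul_cancel_left]
  rfl

/-- Transport of a property along a path whose edges all respect it. -/
theorem IsPath.transport {Q : V → Prop} {L : List (E × Bool)} {x y : V} (h : IsPath src tgt x L y)
    (hL : ∀ l ∈ L, Q (src l.1) ↔ Q (tgt l.1)) (hx : Q x) : Q y := by
  induction L generalizing x with
  | nil => exact h ▸ hx
  | cons l L ih =>
    refine ih h.2 (fun m hm => hL m (List.mem_cons_of_mem _ hm)) ?_
    have h1 := hL l List.mem_cons_self
    have h2 := h.1
    obtain ⟨e, b⟩ := l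
    cases b
    · rw [← h2] at hx
      exact h1.2 hx
    · rw [← h2] at hx
      exact h1.1 hx

theorem fix_letters [DecidableEq E] {γ : Γ} {w : FreeGroup E} (h : act Γ E γ w = w) :
    ∀ l ∈ w.toWord, γ • l.1 = l.1 := by
  have h1 := toWord_act γ w
  rw [h] at h1
  intro l hl
  have := List.map_eq_iff.1 h1.symm
  obtain ⟨i, hi⟩ := List.mem_iff_getElem?.1 hl
  have h2 := this i
  rw [hi] at h2
  exact (congrArg Prod.fst (Option.some.inj h2)).symm

end Cfsg.Agent.SpcTree
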