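import Mathlib
import Cfsg.Agent.Spc.GnDef
import Cfsg.Agent.Glaub.Transfer5

/-! From the rank one statements to the focal subgroup theorem of Glauberman and Niles. -/

set_option autoImplicit false

namespace Cfsg.Agent.Spc.Gn

open Subgroup Cfsg.Agent.LocalEven Cfsg.Agent.Glaub Cfsg.Agent.PLocal Cfsg.Agent.Push
open scoped commutatorElement

universe u

variable {p : ℕ} [hp' : Fact p.Prime]

theorem char_comap_equiv {A B : Type*} [Group A] [Group B] (f : A ≃* B) {K : Subgroup B}
    (hK : K.Characteristic) : (K.comap f.toMonoidHom).Characteristic := by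
  refine characteristic_iff_le_comap.2 fun e x hx => ?_
  have := characteristic_iff_le_comap.1 hK (f.symm.trans (e.trans f)) hx
  simpa using this

theorem NC.of_char {G : Type u} [Group G] {S M B : Subgroup G} (h : NC S M) (hB : B ≤ S)
    (hc : (B.subgroupOf S).Characteristic) : NC B M := by
  intro W hW hWc
  haveI := char_comap_equiv (subgroupOfEquivOfLe hB) hWc
  have e : ((W.comap (subgroupOfEquivOfLe hB).toMonoidHom).map (B.subgroupOf S).subtype).map
      S.subtype = W.map B.subtype := by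
    ext x
    constructor
    · rintro ⟨_, ⟨y, hy, rfl⟩, rfl⟩
      exact ⟨_, hy, rfl⟩
    · rintro ⟨y, hy, rfl⟩
      exact ⟨_, ⟨⟨⟨y, hB y.2⟩, y.2⟩, hy, rfl⟩, rfl⟩
  rw [← e]
  refine h _ (fun e' => hW ?_) inferInstance
  rw [e', Subgroup.map_bot] at e
  exact (map_eq_bot_iff_of_injective _ B.subtype_injective).1 e.symm

theorem baum_char {G : Type u} [Group G] (S : Subgroup G) :
    ((S ⊓ 𝐂⟮centerThompsonAOf S⟯).subgroupOf S).Characteristic := by
  have h1 := char_of_map (G := S) (fun X => X ⊓ 𝐂⟮centerThompsonAOf X⟯) fun e => by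
    rw [map_inf_cent' e.injective, Push.map_zj e.injective]
  have h2 : ((⊤ : Subgroup S) ⊓ 𝐂⟮centerThompsonAOf (⊤ : Subgroup S)⟯).map S.subtype =
      S ⊓ 𝐂⟮centerThompsonAOf S⟯ := by
    rw [map_inf_cent' S.subtype_injective, Push.map_zj S.subtype_injective,
      ← MonoidHom.range_eq_map, range_subtype]
  rw [← h2, subgroupOf, comap_map_eq_self_of_injective S.subtype_injective]
  exact h1

theorem core_of (h1 : Ph1.{u} p) (h2 : Ph2.{u} p) : Core.{u} p := by
  intro G _ _ S M hS hM hc hN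
  obtain ⟨S₁, H, a1, a2, a3, a4⟩ := h1 G S M hS hM hc hN
  refine h2 G S₁ H M _ inferInstance hc a1 a4 (fun h => ?_) ?_
  · have b1 : S ⊓ 𝐂⟮S⟯ ≤ S₁ ⊓ 𝐂⟮S₁⟯ :=
      le_inf (inf_le_right.trans ((centralizer_le (a1.trans a2)).trans (hc.trans a1)))
        (inf_le_right.trans (centralizer_le a2))
    have b2 : (center S).map S.subtype ≤ S ⊓ 𝐂⟮S⟯ := by
      rintro _ ⟨y, hy, rfl⟩
      exact ⟨y.2, fun g hg => congrArg Subtype.val (mem_center_iff.1 hy ⟨g, hg⟩)⟩
    haveI : Nontrivial S := (nontrivial_iff_ne_bot S).2 fun e => by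
      have b3 : pCore p G = ⊥ := le_bot_iff.1 (e ▸ a1.trans a2)
      rw [b3, centralizer_bot'] at hc
      exact hM.lt.not_ge (hc.trans bot_le)
    have b4 : center S ≠ ⊥ := (nontrivial_iff_ne_bot _).1 hS.pgrp.center_nontrivial
    have b5 := hN _ b4 inferInstance
    exact a4.min.lt.not_ge (le_inf le_rfl ((le_cent_comm ((b2.trans b1).trans h)).trans
      ((centralizer_le_normalizer _).trans b5)))
  · have b1 : thompsonSubgroupOf 0 S ≤ S₁ := le_trans (le_inf (Transfer.thompsonSubgroupOf_le S)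
      (le_cent_comm ((centerA_eq S).le.trans inf_le_right))) a3
    have b2 : centerThompsonAOf S₁ = centerThompsonAOf S := by
      rw [centerA_eq, centerA_eq, Transfer.thompsonSubgroupOf_eq_of_le b1 a2]
    rw [b2, le_antisymm (inf_le_inf_right _ a2) (le_inf a3 inf_le_right)]
    exact hN.of_char inf_le_left (baum_char S)

open _root_.Classical in
/-- The functor attached to a characteristic subgroup `K` of the group `S`. -/
noncomputable def funOf {S : Type u} [Group S] (K : Subgroup S) (Q : Type u) [Group Q] :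
    Subgroup Q :=
  if h : Nonempty (Q ≃* S) then K.comap h.some.toMonoidHom else ⊤

theorem funOf_eq {S : Type u} [Group S] {K : Subgroup S} (hK : K.Characteristic) {Q : Type u}
    [Group Q] (e : Q ≃* S) : funOf K Q = K.comap e.toMonoidHom := by
  rw [funOf, dif_pos ⟨e⟩]
  generalize Nonempty.some _ = e'
  ext x
  have h := characteristic_iff_comap_eq.1 hK (e.symm.trans e')
  have := SetLike.ext_iff.1 h (e x)
  simpa using this

omit hp' in
theorem funOf_char {S : Type u} [Group S] {K : Subgroup S} (hK : K.Characteristic) (h : K ≠ ⊥) :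
    IsCharPFunctor p (funOf K) := by
  refine ⟨fun Q _ _ _ hQ => ?_, fun Q R _ _ _ _ φ => ?_⟩
  · by_cases e : Nonempty (Q ≃* S)
    · obtain ⟨e⟩ := e
      rw [funOf_eq hK e]
      intro h'
      refine h (eq_bot_iff.2 fun x hx => ?_)
      have : e.symm x ∈ K.comap e.toMonoidHom := by simpa using hx
      rw [h', mem_bot] at this
      simpa using this
    · rw [funOf, dif_neg e]
      exact top_ne_bot
  · by_cases e : Nonempty (R ≃* S)
    · obtain ⟨e⟩ := e
      rw [funOf_eq hK e, funOf_eq hK (φ.trans e)]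
      ext x
      obtain ⟨y, rfl⟩ := φ.surjective x
      exact mem_map_iff_mem (f := φ.toMonoidHom) φ.injective
    · rw [funOf, funOf, dif_neg e, dif_neg fun ⟨e'⟩ => e ⟨φ.symm.trans e'⟩,
        map_top_of_surjective _ φ.surjective]

theorem ind_funOf {G : Type u} [Group G] {S : Subgroup G} {K : Subgroup S}
    (hK : K.Characteristic) : inducedFunctor (funOf K) S = K.map S.subtype := by
  rw [inducedFunctor, funOf_eq hK (MulEquiv.refl S)]
  rfl

/-- The elements whose commutators with the normal subgroup `Q` lie in `T`. -/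
def cm {G : Type u} [Group G] (Q T : Subgroup G) [hQ : Q.Normal] : Subgroup G where
  carrier := {g | ∀ x ∈ Q, ⁅x, g⁆ ∈ T}
  one_mem' x _ := by simp
  mul_mem' {a b} ha hb x hx := by
    have := mul_mem (hb x hx) (ha _ (hQ.conj_mem x hx b))
    simpa [commutatorElement_def, mul_assoc] using this
  inv_mem' {a} ha x hx := by
    have := inv_mem (ha _ (hQ.conj_mem' x hx a))
    simpa [commutatorElement_def, mul_assoc] using this

theorem le_cm {G : Type u} [Group G] {Q T E : Subgroup G} [Q.Normal] :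
    E ≤ cm Q T ↔ ⁅Q, E⁆ ≤ T := by
  rw [commutator_le]
  exact ⟨fun h x hx g hg => h hg x hx, fun h g hg x hx => h x hx g hg⟩

theorem tf_step (hc : Core.{u} p) {G : Type u} [Group G] [Finite G]
    (hsub : ∀ K : Subgroup G, K ≠ ⊤ → TFc p {W | IsCharPFunctor.{u} p W} K)
    (hquot : ∀ (N : Subgroup G) [N.Normal], N ≠ ⊥ → TFc p {W | IsCharPFunctor.{u} p W} (G ⧸ N))
    (hQ : 𝐂⟮pCore p G⟯ ≤ pCore p G) {S : Subgroup G} (hS : IsSylowIn p S ⊤) :
    TF (IF {W | IsCharPFunctor.{u} p W} G) ⊤ S := by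
  have h𝓦 : ∀ W ∈ {W | IsCharPFunctor.{u} p W}, IsCharPFunctor p W := fun _ h => h
  have hne : ({W | IsCharPFunctor.{u} p W} : Set _).Nonempty := ⟨_, charP_kInfLower⟩
  by_cases hSQ : S ≤ pCore p G
  · exact tf_of_le_pCore h𝓦 hne hS hSQ
  by_cases hK : ∃ K : Subgroup S, K ≠ ⊥ ∧ K.Characteristic ∧ (K.map S.subtype).Normal
  · obtain ⟨K, k1, k2, k3⟩ := hK
    exact tf_of_normal (W := funOf K) (funOf_char k2 k1) (by rwa [ind_funOf k2])
  refine tf_of_core h𝓦 hsub hquot hQ hS ?_
  have hM := fun M a b => (commutator_core_le hS a).trans (core_commutator_le_TD h𝓦 hsub hS M a b)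
  have hST := commutator_le_TD h𝓦 hne hS.pgrp
  generalize TD (IF {W | IsCharPFunctor.{u} p W} G) ⊤ S = T at hM hST ⊢
  refine core_commutator_le_of_normal hS hST hM hSQ ?_
  have hD : cm (pCore p G) T = ⊤ := by
    by_contra hD
    have hN := norm_ne_top_of_not_le hS.pgrp hSQ
    have h1 : ∀ M, S ≤ M → M ≠ ⊤ → M ≤ cm (pCore p G) T := fun M a b => le_cm.2 (hM M a b)
    obtain ⟨E, e1, e2⟩ := hc G S _ hS (minIn_of_sylow hS (fun e => hN (top_le_iff.1 e))
      (le_normalizer.trans (h1 _ le_normalizer hN)) (lt_top_iff_ne_top.2 hD)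
      fun X a b => h1 X a b.ne) hQ fun W w1 w2 => h1 _ (by
        have : W.Normal := inferInstance
        exact LocalEven.le_normalizer_map_subtype W) fun e => hK ⟨W, w1, w2, normalizer_eq_top_iff.1 e⟩
    exact e1 (le_cm.2 (e2.trans (le_cm.1 le_rfl)))
  refine ⟨fun x hx g => ⟨?_, (inferInstance : (pCore p G).Normal).conj_mem x hx.2 g⟩⟩
  have h2 : g ∈ cm (pCore p G) T := hD ▸ mem_top g
  have := mul_mem (inv_mem (h2 x hx.2)) hx.1
  simpa [commutatorElement_def, mul_assoc] using this

theorem main (hp : p ≠ 2) (hc : Core.{u} p) {G : Type u} [Group G] [Finite G] (S : Sylow p G)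
    (hS : (S : Subgroup G) ≠ ⊥) : (S : Subgroup G) ⊓ _root_.commutator G =
      ⨆ K : {K : Subgroup ↥(S : Subgroup G) // K ≠ ⊥ ∧ K.Characteristic}, (S : Subgroup G) ⊓
        ⁅Subgroup.normalizer ((((K : Subgroup ↥(S : Subgroup G))).map
          (S : Subgroup G).subtype : Subgroup G) : Set G),
        Subgroup.normalizer ((((K : Subgroup ↥(S : Subgroup G))).map
          (S : Subgroup G).subtype : Subgroup G) : Set G)⁆ := by
  have _ := hp
  have h𝓦 : ∀ W ∈ {W | IsCharPFunctor.{u} p W}, IsCharPFunctor p W := fun _ h => h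
  have h1 : TFc p {W | IsCharPFunctor.{u} p W} G := by
    refine tfc_of_sections (G := G) h𝓦 (fun K R _ ih hQ => ?_) G (Transfer.isSectionOf_self G)
    obtain ⟨T⟩ : Nonempty (Sylow p (K ⧸ R.subgroupOf K)) := inferInstance
    exact familyTF_iff.2 ⟨T, isSylowIn_top T, tf_step hc
      (fun K hK => ih K ((Transfer.isSectionOf_self _).subgroup K) (Core.card_lt_of_ne_top K hK))
      (fun N _ hN => ih _ ((Transfer.isSectionOf_self _).quotient N) (Core.card_quotient_lt N hN))
      hQ (isSylowIn_top T)⟩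
  refine le_antisymm ((h1.tf h𝓦 (isSylowIn_top S)).trans ?_)
    (iSup_le fun K => inf_le_inf_left _ (commutator_mono le_top le_top))
  rw [TD_IF_top]
  refine iSup₂_le fun W hW => ?_
  exact le_iSup_of_le ⟨W S, hW.1 S S.isPGroup' ((nontrivial_iff_ne_bot _).2 hS),
    characteristic_iff_map_eq.2 fun e => hW.2 S S S.isPGroup' e⟩ le_rfl

end Cfsg.Agent.Spc.Gn
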