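import Mathlib

/-! A parity argument for automorphisms of odd order. -/

set_option autoImplicit false

namespace Cfsg.Agent.Spc.Od

open Subgroup
open scoped commutatorElement

variable {P : Type*} [Group P]

/-- image under an automorphism -/
def im (a : MulAut P) (X : Subgroup P) : Subgroup P := X.map a.toMonoidHom

local notation "𝐂⟮" H "⟯" => Subgroup.centralizer (SetLike.coe H)

theorem mem_im {a : MulAut P} {X : Subgroup P} {x : P} : x ∈ im a X ↔ a⁻¹ x ∈ X :=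
  ⟨fun ⟨y, hy, e⟩ => by rw [← e]; simpa using hy, fun h => ⟨_, h, by simp⟩⟩

theorem im_mul (a b : MulAut P) (X : Subgroup P) : im (a * b) X = im a (im b X) := by
  ext x; simp [mem_im]

theorem im_one (X : Subgroup P) : im 1 X = X := by ext x; simp [mem_im]

theorem im_mono (a : MulAut P) {X Y : Subgroup P} (h : X ≤ Y) : im a X ≤ im a Y := map_mono h

theorem im_sup (a : MulAut P) (X Y : Subgroup P) : im a (X ⊔ Y) = im a X ⊔ im a Y :=
  Subgroup.map_sup _ _ _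

theorem im_comm (a : MulAut P) (X Y : Subgroup P) : im a ⁅X, Y⁆ = ⁅im a X, im a Y⁆ :=
  map_commutator _ _ _

theorem im_cent (a : MulAut P) (X : Subgroup P) : im a 𝐂⟮X⟯ = 𝐂⟮im a X⟯ := by
  ext x
  rw [mem_im]
  refine ⟨fun h y hy => ?_, fun h y hy => ?_⟩
  · have := congrArg a (h _ (mem_im.1 hy))
    simpa using this
  · have := congrArg (a⁻¹ : MulAut P) (h (a y) (mem_im.2 (by simpa using hy)))
    simpa using this

theorem im_rel (a : MulAut P) (X Y : Subgroup P) : (im a X).relIndex (im a Y) = X.relIndex Y :=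
  relIndex_map_map_of_injective _ _ a.injective

theorem im_inv (a : MulAut P) (X : Subgroup P) : im a⁻¹ (im a X) = X := by
  rw [← im_mul, inv_mul_cancel, im_one]

theorem im_inv' (a : MulAut P) (X : Subgroup P) : im a (im a⁻¹ X) = X := by
  rw [← im_mul, mul_inv_cancel, im_one]

theorem im_normal (a : MulAut P) (X : Subgroup P) [h : X.Normal] : (im a X).Normal :=
  h.map _ a.surjective

theorem cent_sym {X Y : Subgroup P} (h : X ≤ 𝐂⟮Y⟯) : Y ≤ 𝐂⟮X⟯ := le_centralizer_iff.1 h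

theorem comm_le_of {V Y J : Subgroup P} [V.Normal] [Y.Normal] (h : J ≤ Y ⊔ 𝐂⟮V⟯) :
    ⁅V, J⁆ ≤ ⁅V, Y⁆ := commutator_le.2 fun v hv j hj => by
  obtain ⟨y, hy, c, hc, rfl⟩ := mem_sup_of_normal_right.1 (h hj)
  have : ⁅v, y * c⁆ = ⁅v, y⁆ := by
    have e := hc v⁻¹ (inv_mem hv)
    simp only [commutatorElement_def]
    calc v * (y * c) * v⁻¹ * (y * c)⁻¹ = v * y * (c * v⁻¹) * c⁻¹ * y⁻¹ := by group
      _ = _ := by rw [← e]; group
  rw [this]; exact commutator_mem_commutator hv hy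

theorem parity {V J Z J₁ W₁ : Subgroup P} [V.Normal] (hV : V ≤ 𝐂⟮V⟯) (hV2 : ∀ v ∈ V, v * v = 1)
    (hVJ : V ≤ J) (hJ : ∀ a : MulAut P, im a J = J)
    (noo : ∀ a : MulAut P, 𝐂⟮V⟯.relIndex (im a V) ≤ 𝐂⟮im a V⟯.relIndex V)
    (off : ∀ a : MulAut P, ¬ im a V ≤ 𝐂⟮V⟯ → 𝐂⟮im a V⟯.relIndex V ≤ 𝐂⟮V⟯.relIndex (im a V) →
      J ≤ im a V ⊔ 𝐂⟮V⟯)
    (z1 : ⁅𝐂⟮V⟯, 𝐂⟮V⟯⁆ ≤ Z) (z2 : ∀ c ∈ 𝐂⟮V⟯, c * c ∈ Z)
    (p1 : 𝐂⟮V⟯ ≤ J₁) (p2 : ¬ J ≤ J₁) (p3 : V ⊓ 𝐂⟮J⟯ ≤ W₁) (p4 : ¬ V ≤ W₁)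
    (p5 : ∀ y ∈ J, ∀ w ∈ V, ⁅w, y⁆ ∈ Z → y ∈ J₁ ∨ w ∈ W₁) (a : MulAut P) (ha : Odd (orderOf a)) :
    im a V ≤ 𝐂⟮V⟯ := by
  have N := fun b : MulAut P => im_normal b V
  have le : ∀ b : MulAut P, im b V ≤ J := fun b => (im_mono b hVJ).trans (hJ b).le
  have adj : ∀ b : MulAut P, ¬ im b V ≤ 𝐂⟮V⟯ → J ≤ im b V ⊔ 𝐂⟮V⟯ := fun b hb => off b hb (by
    have := noo b⁻¹
    rwa [← im_rel b, ← im_rel b 𝐂⟮im b⁻¹ V⟯, im_cent, im_cent, im_inv'] at this)
  have adj2 : ∀ b c : MulAut P, ¬ im b V ≤ 𝐂⟮im c V⟯ → J ≤ im b V ⊔ 𝐂⟮im c V⟯ := fun b c h => by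
    have := im_mono c (adj (c⁻¹ * b) fun k => h (by
      have := im_mono c k
      rwa [im_cent, ← im_mul, mul_inv_cancel_left] at this))
    rwa [hJ, im_sup, im_cent, ← im_mul, mul_inv_cancel_left] at this
  have dd : ∀ b c : MulAut P, ¬ im b V ≤ 𝐂⟮im c V⟯ → ⁅im c V, J⁆ = ⁅im c V, im b V⁆ := fun b c h =>
    le_antisymm (comm_le_of (adj2 b c h)) (commutator_mono le_rfl (le b))
  have nD : ¬ ⁅V, J⁆ ≤ Z := fun k => by
    obtain ⟨y, hy, hy'⟩ := SetLike.not_le_iff_exists.1 p2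
    obtain ⟨w, hw, hw'⟩ := SetLike.not_le_iff_exists.1 p4
    exact (p5 y hy w hw (k (commutator_mem_commutator hw hy))).elim hy' hw'
  by_contra hn
  have hn1 : ¬ im a V ≤ 𝐂⟮im 1 V⟯ := by rwa [im_one]
  have hn2 : ¬ im 1 V ≤ 𝐂⟮im a V⟯ := fun k => hn1 (cent_sym k)
  have hD : im a ⁅V, J⁆ = ⁅V, J⁆ := by
    have e1 := dd a 1 hn1
    have e2 := dd 1 a hn2
    rw [im_one] at e1 e2
    rw [im_comm, hJ, e2, e1, commutator_comm]
  have hDk : ∀ k : ℕ, im (a ^ k) ⁅V, J⁆ = ⁅V, J⁆ := fun k => by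
    induction k with
    | zero => rw [pow_zero, im_one]
    | succ k ih => rw [pow_succ, im_mul, hD, ih]
  have hn3 : ¬ im a⁻¹ V ≤ 𝐂⟮V⟯ := fun k => hn (by
    have := im_mono a k
    rw [im_inv', im_cent] at this
    exact cent_sym this)
  -- no triangle
  have t : im a⁻¹ V ≤ 𝐂⟮im a V⟯ := by
    by_contra k
    have j1 := adj a hn
    have j2 := adj2 1 a hn2
    rw [im_one] at j2
    have j3 := adj _ hn3
    have j4 := adj2 _ _ k
    have YY : im a V ≤ 𝐂⟮im a V⟯ := (im_mono a hV).trans (im_cent a V).le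
    have sq : ∀ b : MulAut P, ∀ y ∈ im b V, y * y = 1 := fun b y hy => by
      obtain ⟨v, hv, rfl⟩ := hy
      rw [← map_mul, hV2 v hv, map_one]
    have key : ∀ z ∈ im a⁻¹ V, z ∈ J₁ ∨ z ∈ (V ⊓ W₁) ⊔ 𝐂⟮im a V⟯ := fun z hz => by
      obtain ⟨y, hy, q, hq, rfl⟩ := mem_sup_of_normal_right.1 (j1 (le _ hz))
      have qJ : q ∈ J := (mul_mem_cancel_left (le a hy)).1 (le _ hz)
      obtain ⟨w, hw, c, hc, rfl⟩ := mem_sup_of_normal_right.1 (j2 qJ)
      have cV : c ∈ 𝐂⟮V⟯ := (mul_mem_cancel_left (hV hw)).1 hq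
      have e := sq _ _ hz
      have y2 := sq _ _ hy
      have w2 := hV2 w hw
      have c1 : y * c = c * y := hc y hy
      have c2 : w * c = c * w := cV w hw
      have m : ⁅w, y⁆ = c * c := by
        have e1 : y * w * y * w * (c * c) = 1 := by
          rw [← e]
          calc y * w * y * w * (c * c) = y * w * (y * (w * c)) * c := by group
            _ = y * w * (c * y * w) * c := by rw [c2, ← mul_assoc y c, c1]
            _ = _ := by group
        rw [commutatorElement_def, inv_eq_of_mul_eq_one_right y2, inv_eq_of_mul_eq_one_right w2,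
          ← inv_eq_of_mul_eq_one_right e1]
        simp only [mul_inv_rev, inv_eq_of_mul_eq_one_right y2, inv_eq_of_mul_eq_one_right w2,
          mul_assoc]
      rcases p5 y (le a hy) w hw (m ▸ z2 c cV) with h | h
      · exact Or.inl (mul_mem h (p1 hq))
      · exact Or.inr (mul_mem (mem_sup_right (YY hy)) (mul_mem (mem_sup_left ⟨hw, h⟩) (mem_sup_right hc)))
    have : im a⁻¹ V ≤ J₁ ∨ im a⁻¹ V ≤ (V ⊓ W₁) ⊔ 𝐂⟮im a V⟯ := by
      by_contra k'
      push Not at k'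
      obtain ⟨u, hu, hu'⟩ := SetLike.not_le_iff_exists.1 k'.1
      obtain ⟨v, hv, hv'⟩ := SetLike.not_le_iff_exists.1 k'.2
      rcases key _ (mul_mem hu hv) with h | h
      · exact hu' ((mul_mem_cancel_right ((key v hv).resolve_right hv')).1 h)
      · exact hv' ((mul_mem_cancel_left ((key u hu).resolve_left hu')).1 h)
    rcases this with h | h
    · exact p2 (j3.trans (sup_le h p1))
    · refine p4 fun v hv => ?_
      obtain ⟨w, hw, c, hc, rfl⟩ := mem_sup_of_normal_right.1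
        ((j4.trans (sup_le h le_sup_right)) (hVJ hv))
      have cV : c ∈ V := (V.mul_mem_cancel_left (mem_inf.1 hw).1).1 hv
      refine W₁.mul_mem (mem_inf.1 hw).2 (p3 ⟨cV, ?_⟩)
      have : J ≤ 𝐂⟮zpowers c⟯ := j1.trans (sup_le (cent_sym (zpowers_le.2 hc))
        (fun x hx y hy => hx y ((zpowers_le (H := V)).2 cV hy)))
      exact cent_sym this (mem_zpowers c)
  have t2 : im (a⁻¹ * a⁻¹) V ≤ 𝐂⟮V⟯ := by
    have := im_mono a⁻¹ t
    rwa [im_cent, im_inv, ← im_mul] at this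
  have ind : ∀ k : ℕ, im ((a * a) ^ k) V ≤ 𝐂⟮V⟯ := fun k => by
    induction k with
    | zero => rw [pow_zero, im_one]; exact hV
    | succ k ih =>
      have : im (a⁻¹ * a⁻¹) V ≤ 𝐂⟮im ((a * a) ^ k) V⟯ := by
        by_contra h
        have e := dd _ _ h
        have e2 := hDk (2 * k)
        rw [pow_mul, sq, im_comm, hJ, e] at e2
        exact nD (e2.ge.trans ((commutator_mono ih t2).trans z1))
      have := im_mono (a * a) (cent_sym this)
      rwa [im_cent, ← im_mul, ← im_mul, ← pow_succ', show a * a * (a⁻¹ * a⁻¹) = 1 by group,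
        im_one] at this
  obtain ⟨m, hm⟩ := ha
  have := ind (m + 1)
  rw [← sq, ← pow_mul, show 2 * (m + 1) = orderOf a + 1 by omega, pow_succ, pow_orderOf_eq_one,
    one_mul] at this
  exact hn this

end Cfsg.Agent.Spc.Od
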