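import Cfsg.Agent.Spc.OdC
import Cfsg.Agent.Spc.PuDef

/-! The invariant normal subgroup generated by the images of `Ω₁ Z O₂(G)`. -/

namespace Cfsg.Agent.Spc.Od

open Subgroup Cfsg.Agent.LocalEven Cfsg.Agent.PLocal Cfsg.Agent.Push Cfsg.Agent.BHS
open Cfsg.Agent.Glaub hiding cent_anti
open scoped commutatorElement

universe u

variable {G : Type u} [Group G]

theorem cent_sub {S X : Subgroup G} (h : X ≤ S) :
    𝐂⟮X.subgroupOf S⟯ = (𝐂⟮X⟯).subgroupOf S := by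
  ext x
  refine ⟨fun hx y hy => ?_, fun hx y hy => Subtype.ext (hx _ hy)⟩
  exact congrArg Subtype.val (hx ⟨y, h hy⟩ hy)

theorem rel_sub {S X : Subgroup G} (Y : Subgroup S) :
    (X.subgroupOf S).relIndex Y = X.relIndex (Y.map S.subtype) := relIndex_comap _ _ _

theorem fin [Finite G] {S : Subgroup G} (hS : IsSylowIn 2 S ⊤) (A : Subgroup (MulAut ↥S))
    (hA : Odd (Nat.card A)) (hne : pCore 2 G ≠ ⊥)
    (a1 : S ⊓ 𝐂⟮OZ 2 (pCore 2 G)⟯ ≤ pCore 2 G) (a2 : OZ 2 (pCore 2 G) ≤ Jt 2 S)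
    (a3 : ∀ Y ≤ Jt 2 S, IsElementaryAbelian 2 Y →
      𝐂⟮OZ 2 (pCore 2 G)⟯.relIndex Y ≤ 𝐂⟮Y⟯.relIndex (OZ 2 (pCore 2 G)))
    (a4 : ∀ Y ≤ Jt 2 S, IsElementaryAbelian 2 Y → S ≤ 𝐍⟮Y⟯ → ¬ Y ≤ 𝐂⟮OZ 2 (pCore 2 G)⟯ →
      𝐂⟮Y⟯.relIndex (OZ 2 (pCore 2 G)) ≤ 𝐂⟮OZ 2 (pCore 2 G)⟯.relIndex Y →
      Jt 2 S ≤ Y ⊔ pCore 2 G)
    {J₁ W₁ : Subgroup G} (b1 : pCore 2 G ≤ J₁) (b2 : ¬ Jt 2 S ≤ J₁)
    (b3 : OZ 2 (pCore 2 G) ⊓ 𝐂⟮Jt 2 S⟯ ≤ W₁) (b4 : ¬ OZ 2 (pCore 2 G) ≤ W₁)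
    (b5 : ∀ y ∈ Jt 2 S, ∀ w ∈ OZ 2 (pCore 2 G), ⁅w, y⁆ ∈ 𝐂⟮pResOf 2 (⊤ : Subgroup G)⟯ →
      y ∈ J₁ ∨ w ∈ W₁)
    (hc : ⁅pCore 2 G, pResOf 2 (⊤ : Subgroup G)⁆ ≤ OZ 2 (pCore 2 G)) :
    ∃ U : Subgroup G, U ≠ ⊥ ∧ U.Normal ∧ U ≤ S ∧
      ∀ a ∈ A, ∀ x : ↥S, (x : G) ∈ U → ((a x : ↥S) : G) ∈ U := by
  haveI nV := Transfer.omegaOneCenter_normal (p := 2) (pCore 2 G)
  have v0 := Transfer.omegaOneCenter_ne_bot (p := 2) (T := pCore 2 G) isPGroup_pCore hne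
  have vc : pCore 2 G ≤ 𝐂⟮OZ 2 (pCore 2 G)⟯ := Transfer.le_centralizer_omegaOneCenter _
  have v2 : ∀ v ∈ OZ 2 (pCore 2 G), v ^ 2 = 1 := fun v hv => (mem_omegaOneCenter.1 hv).2.2
  have vQ : OZ 2 (pCore 2 G) ≤ pCore 2 G := fun v hv => (mem_omegaOneCenter.1 hv).1
  have jc : ∀ a : MulAut S, im a ((Jt 2 S).subgroupOf S) = (Jt 2 S).subgroupOf S := fun a => by
    have e : (Jt 2 S).subgroupOf S = Jt 2 (⊤ : Subgroup S) :=
      map_injective S.subtype_injective (by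
        rw [subgroupOf_map_subtype, inf_eq_left.2 (jt_le S), map_jt S.subtype_injective,
          ← MonoidHom.range_eq_map, range_subtype])
    rw [e, im, map_jt a.injective, map_top_of_surjective _ a.surjective]
  have JS := jt_le (p := 2) S
  generalize OZ 2 (pCore 2 G) = V at *
  generalize Jt 2 S = J at *
  have QS : pCore 2 G ≤ S := IsPGroup.le_sylow_of_normal isPGroup_pCore hS.toSylowTop
  haveI nQ : (pCore 2 G).Normal := inferInstance
  generalize pCore 2 G = Q at *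
  have VS := vQ.trans QS
  have eC : 𝐂⟮V.subgroupOf S⟯ = Q.subgroupOf S := by
    rw [cent_sub VS]
    exact le_antisymm (fun x hx => a1 ⟨x.2, hx⟩) fun x hx => vc hx
  have imJ : ∀ a : MulAut S, (im a (V.subgroupOf S)).map S.subtype ≤ J := fun a =>
    map_le_iff_le_comap.2 ((im_mono a (comap_mono a2)).trans (jc a).le)
  have imE : ∀ a : MulAut S, IsElementaryAbelian 2 ((im a (V.subgroupOf S)).map S.subtype) :=
    fun a => by
      refine ⟨le_centralizer_iff_isMulCommutative.1 ?_, ?_⟩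
      · rintro _ ⟨_, ⟨x, hx, rfl⟩, rfl⟩ _ ⟨_, ⟨y, hy, rfl⟩, rfl⟩
        rw [← map_mul, ← map_mul, ← map_mul, ← map_mul]
        exact congrArg _ (congrArg _ (Subtype.ext (vc (vQ hx) _ hy)))
      · rintro _ ⟨_, ⟨x, hx, rfl⟩, rfl⟩
        rw [← map_pow, ← map_pow, show x ^ 2 = 1 from Subtype.ext (v2 _ hx), map_one, map_one]
  have r1 : ∀ Y : Subgroup S, 𝐂⟮V.subgroupOf S⟯.relIndex Y = 𝐂⟮V⟯.relIndex (Y.map S.subtype) :=
    fun Y => by rw [cent_sub VS, rel_sub]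
  have r2 : ∀ Y : Subgroup S, 𝐂⟮Y⟯.relIndex (V.subgroupOf S) = 𝐂⟮Y.map S.subtype⟯.relIndex V :=
    fun Y => by
      have e : Y = (Y.map S.subtype).subgroupOf S := (comap_map_eq_self_of_injective
        S.subtype_injective Y).symm
      conv_lhs => rw [e, cent_sub (map_subtype_le _), rel_sub, subgroupOf_map_subtype,
        inf_eq_left.2 VS]
  have nS : ∀ a : MulAut S, S ≤ 𝐍⟮(im a (V.subgroupOf S)).map S.subtype⟯ := fun a => by
    haveI := im_normal a (V.subgroupOf S)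
    refine (normal_subgroupOf_iff_le_normalizer (map_subtype_le _)).1 ?_
    rw [subgroupOf, comap_map_eq_self_of_injective S.subtype_injective]
    exact this
  have par : ∀ a ∈ A, (im a (V.subgroupOf S)).map S.subtype ≤ Q := fun a ha => by
    rw [map_le_iff_le_comap]
    refine le_of_le_of_eq (parity (V := V.subgroupOf S) (J := J.subgroupOf S)
      (Z := (𝐂⟮pResOf 2 (⊤ : Subgroup G)⟯).subgroupOf S) (J₁ := J₁.subgroupOf S)
      (W₁ := W₁.subgroupOf S) (eC ▸ comap_mono vQ)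
      (fun v hv => Subtype.ext (by simpa [pow_two] using v2 _ hv)) (comap_mono a2) jc
      (fun a => by rw [r1, r2]; exact a3 _ (imJ a) (imE a)) (fun a h1 h2 x hx => ?_) ?_ ?_
      (eC ▸ comap_mono b1) (fun h => b2 fun x hx => h (show (⟨x, JS hx⟩ : S) ∈ _ from hx))
      (fun x hx => b3 ⟨hx.1, (cent_sub JS).le hx.2⟩)
      (fun h => b4 fun x hx => h (show (⟨x, VS hx⟩ : S) ∈ _ from hx))
      (fun y hy w hw h => b5 _ hy _ hw h) a
      (Odd.of_dvd_nat hA (Subgroup.orderOf_dvd_natCard A ha))) eC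
    · rw [r1, r2] at h2
      have := a4 _ (imJ a) (imE a) (nS a) (fun h => h1 (by
        rw [cent_sub VS]; exact map_le_iff_le_comap.1 h)) h2 hx
      obtain ⟨_, ⟨y, hy, rfl⟩, q, hq, e⟩ := mem_sup_of_normal_right.1 this
      have : x = y * ⟨q, QS hq⟩ := Subtype.ext e.symm
      rw [this, eC]
      exact mul_mem_sup hy hq
    · rw [eC]
      have t : ⁅Q, Q⁆ ≤ 𝐂⟮pResOf 2 (⊤ : Subgroup G)⟯ :=
        le_cent_of_comm_bot (commutator_commutator_eq_bot_of_rotate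
          (comm_bot_of_le_cent (hc.trans (cent_sym vc)))
          (comm_bot_of_le_cent (((commutator_comm _ _).le.trans hc).trans (cent_sym vc))))
      exact commutator_le.2 fun x hx y hy => t (commutator_mem_commutator hx hy)
    · rw [eC]
      intro t ht e he
      have v : e * t * e⁻¹ * (t : G)⁻¹ ∈ V := hc (comm_mem' ht he)
      have c : Commute (e * t * e⁻¹ * (t : G)⁻¹) t := vc ht _ v
      have := c.mul_pow 2
      rw [inv_mul_cancel_right, conj_pow, v2 _ v, one_mul, pow_two] at this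
      exact mul_inv_eq_iff_eq_mul.1 this
  have vU : V ≤ ⨆ a : A, (im a.1 (V.subgroupOf S)).map S.subtype := by
    refine le_trans ?_ (le_iSup _ (1 : A))
    rw [OneMemClass.coe_one, im_one, subgroupOf_map_subtype]
    exact le_inf le_rfl VS
  have uQ : ⨆ a : A, (im a.1 (V.subgroupOf S)).map S.subtype ≤ Q := iSup_le fun a => par _ a.2
  refine ⟨⨆ a : A, (im a.1 (V.subgroupOf S)).map S.subtype, fun h => v0 (le_bot_iff.1 (h ▸ vU)),
    normalizer_eq_top_iff.1 (top_le_iff.1 (hS.pResOf_sup.ge.trans (sup_le ?_ ?_))),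
    uQ.trans QS, fun a ha x hx => ?_⟩
  · exact le_normalizer_of_commutator_le_left (((commutator_mono uQ le_rfl).trans hc).trans vU)
  · refine le_normalizer_of_cj_le fun g hg => ?_
    rw [cj_iSup]
    exact iSup_mono fun a => (cj_eq_of_mem_normalizer (nS a hg)).le
  · rw [← Subgroup.map_iSup] at hx ⊢
    obtain ⟨y, hy, e⟩ := hx
    obtain rfl : y = x := Subtype.ext e
    refine mem_map_of_mem _ ?_
    have : im a (⨆ b : A, im b.1 (V.subgroupOf S)) ≤ ⨆ b : A, im b.1 (V.subgroupOf S) := by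
      rw [im, Subgroup.map_iSup]
      exact iSup_le fun b => le_iSup_of_le (⟨a, ha⟩ * b) (im_mul _ _ _).ge
    exact this ⟨y, hy, rfl⟩

end Cfsg.Agent.Spc.Od
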