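import Cfsg.Agent.Spc.PuR1

/-! Offenders inside the Thompson subgroup of a minimal parabolic group. -/

namespace Cfsg.Agent.Spc.Od

open Subgroup Cfsg.Agent.LocalEven Cfsg.Agent.PLocal Cfsg.Agent.Push Cfsg.Agent.BHS
open Cfsg.Agent.Glaub hiding cent_anti
open scoped commutatorElement MatrixGroups

universe u

variable {G : Type u} [Group G] [Finite G] {S M : Subgroup G}

theorem h1_wJ {p q : ℕ} [Fact p.Prime] {V P T A X : Subgroup G} {D : Set (Subgroup G)}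
    (h : MinPar p V P T M) (hD : TvSet p V P D q) (hA : A ∈ D) (hAX : A ≤ X) (hX : X ≤ T)
    (hn : T ≤ 𝐍⟮X⟯) : wJ D T ≤ X := wJ_le_iff.2 fun A' hA' hT' => by_contra fun hAX' => by
  obtain ⟨hS, -⟩ := h.star hD hA
  obtain ⟨B, hB, hBM, hc⟩ := h.exists_nc hD hA
  set K := sSup {B | B ∈ D ∧ ¬ B ≤ M ∧ ∃ C ∈ D, C ≤ X ∧ ¬ C ≤ 𝐂⟮B⟯}
  have k1 : K ≤ 𝐂⟮A'⟯ := sSup_le fun B hB => by
    obtain ⟨b1, b2, C, c1, c2, c3⟩ := hB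
    exact le_cent_comm (by_contra fun e =>
      hAX' (hS.uniq hD hA' hT' c1 (c2.trans hX) b1 b2 e c3 ▸ c2))
  have k2 : T ≤ 𝐍⟮K⟯ := fun t ht => mem_normalizer_of_cj_le (cj_le_iff.2 (sSup_le fun B hB => by
    obtain ⟨b1, b2, C, c1, c2, c3⟩ := hB
    exact cj_le_iff.1 (le_sSup ⟨hD.conj B b1 t (h.syl.le ht), fun e => b2 (by
      rwa [← cj_eq_of_mem (hS.le ht), cj_le_cj] at e), cj t C, hD.conj C c1 t (h.syl.le ht),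
      cj_le_of_mem_normalizer (hn ht) c2, by rwa [← cj_centralizer, cj_le_cj]⟩)))
  have k3 := h.sup_eq (K := K) (sSup_le fun B hB => hD.le B hB.1)
    fun e => hBM (le_trans (le_sSup (by exact ⟨hB, hBM, A, hA, hAX, hc⟩)) e)
  refine (hD.tv A' hA').ne (eq_bot_iff.2 ((le_pCoreOf_of_forall_cj h.syl.pgrp (hT'.trans h.syl.le)
    fun g hg => ?_).trans h.core.le))
  obtain ⟨s, hs, k, hk, rfl⟩ := (mem_sup_iff_of_le_normalizer k2).1 ((sup_comm K T ▸ k3).ge hg)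
  rw [cj_mul, cj_eq_of_mem_normalizer (centralizer_le_normalizer _ (k1 hk))]
  exact cj_le_of_mem hs hT'

theorem h1p {p : ℕ} [Fact p.Prime] (hS : IsSylowIn p S ⊤) (h : MinIn S ⊤ M)
    (hG : 𝐂⟮pCore p G⟯ ≤ pCore p G) (hz : 𝐂⟮OZ p S⟯ ≤ M) (hJ : 𝐍⟮Jt p S⟯ ≤ M) :
    S ⊓ 𝐂⟮OZ p (pCore p G)⟯ ≤ pCore p G ∧ OZ p (pCore p G) ≤ Jt p S ∧
    (∀ Y ≤ Jt p S, IsElementaryAbelian p Y →
      𝐂⟮OZ p (pCore p G)⟯.relIndex Y ≤ 𝐂⟮Y⟯.relIndex (OZ p (pCore p G))) ∧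
    (∀ Y ≤ Jt p S, IsElementaryAbelian p Y → S ≤ 𝐍⟮Y⟯ → ¬ Y ≤ 𝐂⟮OZ p (pCore p G)⟯ →
      𝐂⟮Y⟯.relIndex (OZ p (pCore p G)) ≤ 𝐂⟮OZ p (pCore p G)⟯.relIndex Y →
      Jt p S ≤ Y ⊔ pCore p G) := by
  haveI := Transfer.omegaOneCenter_normal (p := p) (pCore p G)
  have hOS : pCore p G ≤ S := pCoreOf_top.ge.trans hS.pCoreOf_le
  have hZ : OZ p S ≤ OZ p (pCore p G) := fun x hx => by
    obtain ⟨h1, h2, h3⟩ := mem_omegaOneCenter.1 hx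
    exact mem_omegaOneCenter.2 ⟨hG (cent_anti hOS h2), cent_anti hOS h2, h3⟩
  have hV : IsElementaryAbelian p (OZ p (pCore p G)) := Transfer.ea_omegaOneCenter _
  have hO : pCore p G ≤ 𝐂⟮OZ p (pCore p G)⟯ := Transfer.le_centralizer_omegaOneCenter _
  have hVS : OZ p (pCore p G) ≤ S := (omegaOneCenter_le _).trans hOS
  generalize OZ p (pCore p G) = V at *
  have hc : 𝐂⟮V ⊓ 𝐂⟮S⟯⟯ ≤ M :=
    (cent_anti (le_inf hZ (omegaOneCenter_le_centralizer _))).trans hz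
  have hcV : 𝐂⟮V⟯ ≤ M := (cent_anti inf_le_left).trans hc
  have mp := minPar_hol hV hS h hO hc
  have a : S ⊓ 𝐂⟮V⟯ ≤ pCore p G := (minIn_le_pCoreOf h hS.pgrp le_normalizer_of_normal hcV
    (hS.pgrp.to_le inf_le_left) inf_le_right).trans pCoreOf_top.le
  have i : ∀ Y : Subgroup G, 𝐂⟮V⟯.relIndex Y = Nat.card (Y.map (holRep V)) := fun Y => by
    rw [← ker_holRep, relIndex_ker]
  refine ⟨a, Pu.v_le_jt hV hVS mp.mod (map_mono le_top), fun Y _ e => ?_,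
    fun Y hY e n hYV o => ?_⟩
  · have h1 := mp.mod.max _ (map_mono (le_top : Y ≤ ⊤)) (elemAb_map e _)
    rwa [← holImg_self, relIndex_cent_hol le_rfl, ← i] at h1
  obtain ⟨X₀, hX₀, hX₀V⟩ : ∃ X ∈ Transfer.MaxEA p S, ¬ X ≤ 𝐂⟮V⟯ := by
    by_contra e
    push Not at e
    exact hYV (hY.trans (Transfer.thompsonSubgroupOf_le_iff.2 e))
  obtain ⟨A₀, a0, m⟩ := exists_minOff_hol (Or.inr rfl) hV hS.pgrp hVS hX₀ hX₀V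
  have hD := mp.tvSet (a0.trans (map_mono le_top)) m
  have hA₀ : A₀ ∈ {X | ∃ g ∈ (⊤ : Subgroup G).map (holRep V), cj g A₀ = X} :=
    ⟨1, one_mem _, cj_one _⟩
  generalize {X | ∃ g ∈ (⊤ : Subgroup G).map (holRep V), cj g A₀ = X} = D at hD hA₀
  have j1 : (Jt p S).map (holRep V) ≤ wJ D (S.map (holRep V)) := by
    rw [map_le_iff_le_comap, Transfer.thompsonSubgroupOf_le_iff]
    intro X hX
    rw [← map_le_iff_le_comap]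
    exact (mp.le_wJ hD hA₀ (map_mono le_top) (off_hol hV hVS hX).1 (off_hol hV hVS hX).2).trans
      (sSup_le_sSup fun Z hZ => ⟨hZ.1, hZ.2.trans (map_mono hX.1)⟩)
  have j2 := mp.le_wJ hD hA₀ (map_mono (le_top : Y ≤ ⊤)) (elemAb_map e _) (by
    rw [← card_inf_mul_relIndex' 𝐂⟮Y.map (holRep V)⟯ (holV V), mul_comm, ← i]
    refine Nat.mul_le_mul_right _ ?_
    rwa [← holImg_self, relIndex_cent_hol le_rfl])
  obtain ⟨A, hA, hAY⟩ : ∃ A ∈ D, A ≤ Y.map (holRep V) := by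
    by_contra k
    push Not at k
    exact hYV (ker_holRep (V := V) ▸ (Subgroup.map_eq_bot_iff _).1
      (eq_bot_iff.2 (j2.trans (wJ_le_iff.2 fun A h1 h2 => (k A h1 h2).elim))))
  have YS := hY.trans (jt_le S)
  have j3 := j1.trans (h1_wJ mp hD hA hAY (map_mono YS)
    ((map_mono n).trans (le_normalizer_map _)))
  intro x hx
  obtain ⟨y, hy, ey⟩ := j3 (mem_map_of_mem _ hx)
  have : y⁻¹ * x ∈ S ⊓ 𝐂⟮V⟯ := ⟨S.mul_mem (S.inv_mem (YS hy)) (jt_le S hx),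
    holRep_eq_one_iff.1 (by rw [map_mul, map_inv, ey, inv_mul_cancel])⟩
  simpa using mul_mem (mem_sup_left (T := pCore p G) hy) (mem_sup_right (a this))

theorem h1 (hS : IsSylowIn 2 S ⊤) (h : MinIn S ⊤ M)
    (hG : 𝐂⟮pCore 2 G⟯ ≤ pCore 2 G) (hz : 𝐂⟮OZ 2 S⟯ ≤ M) (hJ : 𝐍⟮Jt 2 S⟯ ≤ M) :
    S ⊓ 𝐂⟮OZ 2 (pCore 2 G)⟯ ≤ pCore 2 G ∧ OZ 2 (pCore 2 G) ≤ Jt 2 S ∧
    (∀ Y ≤ Jt 2 S, IsElementaryAbelian 2 Y →
      𝐂⟮OZ 2 (pCore 2 G)⟯.relIndex Y ≤ 𝐂⟮Y⟯.relIndex (OZ 2 (pCore 2 G))) ∧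
    (∀ Y ≤ Jt 2 S, IsElementaryAbelian 2 Y → S ≤ 𝐍⟮Y⟯ → ¬ Y ≤ 𝐂⟮OZ 2 (pCore 2 G)⟯ →
      𝐂⟮Y⟯.relIndex (OZ 2 (pCore 2 G)) ≤ 𝐂⟮OZ 2 (pCore 2 G)⟯.relIndex Y →
      Jt 2 S ≤ Y ⊔ pCore 2 G) :=
  haveI : Fact (Nat.Prime 2) := ⟨Nat.prime_two⟩
  h1p hS h hG hz hJ

end Cfsg.Agent.Spc.Od
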