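import Cfsg.Agent.Spc.OdA
import Cfsg.Agent.Spc.OdC
import Cfsg.Agent.Spc.OdH1
import Cfsg.Agent.Spc.OdH2

/-! The odd automorphism theorem. -/

namespace Cfsg.Agent.Spc.Od

open Subgroup Cfsg.Agent.LocalEven Cfsg.Agent.PLocal Cfsg.Agent.Push Cfsg.Agent.BHS
open Cfsg.Agent.Glaub hiding cent_anti
open scoped commutatorElement MatrixGroups

universe u

theorem fb_rel {G : Type u} [Group G] (S : Subgroup G) (X Y : Subgroup S) :
    𝐂⟮X.map S.subtype⟯.relIndex (Y.map S.subtype) = 𝐂⟮X⟯.relIndex Y := by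
  rw [← relIndex_comap]
  congr 1
  ext x
  exact BHS.map_mem_cent S.subtype_injective

theorem fb_main {G : Type u} [Group G] [Finite G]
    (hirr : ∀ S : Sylow 2 G, ∃! M : Subgroup G, IsCoatom M ∧ (S : Subgroup G) ≤ M)
    (hG : 𝐂⟮pCore 2 G⟯ ≤ pCore 2 G) (S : Sylow 2 G) (A : Subgroup (MulAut ↥(S : Subgroup G)))
    (hA : Odd (Nat.card A)) :
    ∃ U : Subgroup G, U ≠ ⊥ ∧ U.Normal ∧ U ≤ (S : Subgroup G) ∧
      ∀ a ∈ A, ∀ x : ↥(S : Subgroup G), (x : G) ∈ U → ((a x : ↥(S : Subgroup G)) : G) ∈ U := by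
  haveI : Fact (Nat.Prime 2) := ⟨Nat.prime_two⟩
  by_contra hno
  obtain ⟨M, hS, hM, hz, hJ, hQE⟩ := setup hirr hG S A hno
  obtain ⟨a1, a2, a3, a4⟩ := h1 hS hM hG hz hJ
  obtain ⟨J₁, W₁, b1, b2, b3, b4, b5⟩ := h2 hS hM hG hz hJ
  have hQ : pCore 2 G ≤ (S : Subgroup G) :=
    (isPGroup_pCore (p := 2) (G := G)).le_sylow_of_normal S
  have hsup := hS.pResOf_sup
  apply hno
  clear hno hz hJ hM hS hirr
  generalize (S : Subgroup G) = T at *
  have i := T.subtype_injective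
  haveI i0 := Transfer.omegaOneCenter_normal (p := 2) (pCore 2 G)
  have ea : IsElementaryAbelian 2 (OZ 2 (pCore 2 G)) := Transfer.ea_omegaOneCenter _
  have QV : pCore 2 G ≤ 𝐂⟮OZ 2 (pCore 2 G)⟯ := le_centralizer_omegaOneCenter _
  have VQ : OZ 2 (pCore 2 G) ≤ pCore 2 G := omegaOneCenter_le _
  generalize OZ 2 (pCore 2 G) = V at *
  generalize pResOf 2 (⊤ : Subgroup G) = E at *
  generalize pCore 2 G = Q at *
  have top : (⊤ : Subgroup T).map T.subtype = T := by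
    rw [← MonoidHom.range_eq_map, range_subtype]
  have eV : (V.subgroupOf T).map T.subtype = V := map_subgroupOf_eq_of_le (VQ.trans hQ)
  have eQ : (Q.subgroupOf T).map T.subtype = Q := map_subgroupOf_eq_of_le hQ
  have eJ : (Jt 2 (⊤ : Subgroup T)).map T.subtype = Jt 2 T := by rw [map_jt i, top]
  have mJ : ∀ x : T, x ∈ Jt 2 (⊤ : Subgroup T) ↔ (x : G) ∈ Jt 2 T := fun x => by
    rw [← eJ]; exact (mem_map_iff_mem i).symm
  have mC : ∀ x : T, x ∈ 𝐂⟮V.subgroupOf T⟯ ↔ (x : G) ∈ 𝐂⟮V⟯ := fun x => by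
    have := BHS.map_mem_cent (W := V.subgroupOf T) (g := x) i
    rw [eV] at this
    exact this.symm
  have CQ : ∀ x : T, x ∈ 𝐂⟮V.subgroupOf T⟯ → (x : G) ∈ Q := fun x hx => a1 ⟨x.2, (mC x).1 hx⟩
  have hJ : ∀ a : MulAut T, im a (Jt 2 (⊤ : Subgroup T)) = Jt 2 ⊤ := fun a => by
    rw [im, map_jt a.injective, map_top_of_surjective _ a.surjective]
  have VJ : V.subgroupOf T ≤ Jt 2 ⊤ := fun x hx => (mJ x).2 (a2 hx)
  have YJ : ∀ a : MulAut T, (im a (V.subgroupOf T)).map T.subtype ≤ Jt 2 T := fun a => by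
    rw [← eJ, ← hJ a]; exact map_mono (im_mono a VJ)
  have ea' : IsElementaryAbelian 2 (V.subgroupOf T) :=
    Transfer.ea_mk (fun x hx y hy => Subtype.ext (QV (VQ hy) x hx)) fun x hx =>
      Subtype.ext (ea.2 x hx)
  have eaY : ∀ a : MulAut T, IsElementaryAbelian 2 ((im a (V.subgroupOf T)).map T.subtype) :=
    fun a => elemAb_map (elemAb_map ea' _) _
  have cj1 : ∀ q ∈ Q, ∀ g ∈ E, ∃ v ∈ V, g * q * g⁻¹ = v * q := fun q hq g hg =>
    ⟨⁅g, q⁆, hQE (by rw [commutator_comm]; exact commutator_mem_commutator hg hq), by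
      rw [commutatorElement_def]; group⟩
  have z2 : ∀ q ∈ Q, q * q ∈ 𝐂⟮E⟯ := fun q hq g hg => by
    obtain ⟨v, hv, e⟩ := cj1 q hq g hg
    have c : v * q = q * v := QV hq v hv
    have v2 : v * v = 1 := by rw [← sq]; exact ea.2 v hv
    have : g * (q * q) * g⁻¹ = q * q := by
      calc g * (q * q) * g⁻¹ = (g * q * g⁻¹) * (g * q * g⁻¹) := by group
        _ = v * (q * v) * q := by rw [e]; group
        _ = v * v * (q * q) := by rw [← c]; group
        _ = q * q := by rw [v2, one_mul]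
    exact mul_inv_eq_iff_eq_mul.1 this
  have z1 : ∀ q ∈ Q, ∀ r ∈ Q, ⁅q, r⁆ ∈ 𝐂⟮E⟯ := fun q hq r hr => by
    have : ⁅q, r⁆ = q * q * (q⁻¹ * r * (q⁻¹ * r)) * (r⁻¹ * r⁻¹) := by
      rw [commutatorElement_def]; group
    rw [this]
    exact mul_mem (mul_mem (z2 q hq) (z2 _ (mul_mem (inv_mem hq) hr))) (z2 _ (inv_mem hr))
  have key : ∀ a ∈ A, im a (V.subgroupOf T) ≤ 𝐂⟮V.subgroupOf T⟯ := fun a ha => by
    refine parity (J := Jt 2 ⊤) (Z := 𝐂⟮E⟯.subgroupOf T) (J₁ := J₁.subgroupOf T)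
      (W₁ := W₁.subgroupOf T) (fun x hx => (mC x).2 (QV (VQ hx)))
      (fun v hv => by rw [← sq]; exact ea'.2 v hv) VJ hJ (fun a => ?_) (fun a k1 k2 => ?_)
      (commutator_le.2 fun x hx y hy => z1 _ (CQ x hx) _ (CQ y hy)) (fun c hc => z2 _ (CQ c hc))
      (fun x hx => b1 (CQ x hx)) (fun k => b2 ?_) (fun x hx => b3 ⟨hx.1, ?_⟩) (fun k => b4 ?_)
      (fun y hy w hw k => b5 y ((mJ y).1 hy) w hw k) a ?_
    · rw [← fb_rel T, ← fb_rel T, eV]
      exact a3 _ (YJ a) (eaY a)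
    · haveI := im_normal a (V.subgroupOf T)
      have := a4 _ (YJ a) (eaY a) (by
        have := (map_le_norm (E := ⊤) (W := im a (V.subgroupOf T)) i).2 le_normalizer_of_normal
        rwa [top] at this) (fun k => k1 fun x hx => (mC x).2 (k (mem_map_of_mem _ hx))) (by
        rw [← fb_rel T, ← fb_rel T, eV] at k2
        exact k2)
      rw [← eJ, ← eQ, ← Subgroup.map_sup, map_le_map_iff_of_injective i] at this
      exact this.trans (sup_le_sup_left (fun x hx => (mC x).2 (QV hx)) _)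
    · rw [← eJ]; exact map_le_iff_le_comap.2 k
    · rw [← eJ]; exact (BHS.map_mem_cent i).2 hx.2
    · rw [← eV]; exact map_le_iff_le_comap.2 k
    · exact hA.of_dvd_nat (orderOf_dvd_natCard A ha)
  let U : Subgroup T := ⨆ a : A, im a (V.subgroupOf T)
  have VU : V ≤ U.map T.subtype := by
    rw [← eV]
    refine map_mono ?_
    have := le_iSup (fun a : A => im a (V.subgroupOf T)) 1
    rwa [OneMemClass.coe_one, im_one] at this
  have UQ : U.map T.subtype ≤ Q :=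
    map_le_iff_le_comap.2 (iSup_le fun a x hx => CQ x (key a a.2 hx))
  haveI nU : U.Normal := ⟨fun x hx g => by
    have : U ≤ U.comap (MulAut.conj g).toMonoidHom := iSup_le fun b y hy =>
      le_iSup (fun a : A => im a (V.subgroupOf T)) b ((im_normal b _).conj_mem y hy g)
    exact this hx⟩
  refine ⟨U.map T.subtype, fun k => b4 (VU.trans (k.le.trans bot_le)),
    normalizer_eq_top_iff.1 (top_le_iff.1 (hsup.ge.trans (sup_le ?_ ?_))), map_subtype_le _, ?_⟩
  · exact le_normalizer_of_commutator_le_left ((commutator_mono UQ le_rfl).trans (hQE.trans VU))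
  · have := (map_le_norm (E := ⊤) (W := U) i).2 le_normalizer_of_normal
    rwa [top] at this
  · rintro a ha x ⟨y, hy, e⟩
    obtain rfl : y = x := Subtype.ext e
    refine mem_map_of_mem T.subtype (?_ : a y ∈ U)
    have : U ≤ U.comap a.toMonoidHom := iSup_le fun b => map_le_iff_le_comap.1 (by
      have := le_iSup (fun a : A => im a (V.subgroupOf T)) (⟨a, ha⟩ * b)
      rwa [coe_mul, im_mul] at this)
    exact this hy

end Cfsg.Agent.Spc.Od
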