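import Cfsg.Agent.Spc.GnB
import Cfsg.Agent.Spc.PuDef

/-! A bilinear pairing argument for the odd automorphism theorem. -/

namespace Cfsg.Agent.Spc.Od

open Subgroup Cfsg.Agent.LocalEven Cfsg.Agent.PLocal Cfsg.Agent.Push Cfsg.Agent.BHS
open Cfsg.Agent.Glaub hiding cent_anti
open Cfsg.Agent.Spc.Gn
open scoped commutatorElement MatrixGroups

universe u

variable {G : Type u} [Group G] [Finite G] {S M : Subgroup G}

theorem h2b (hS : IsSylowIn 2 S ⊤) (h : MinIn S ⊤ M) (hG : 𝐂⟮pCore 2 G⟯ ≤ pCore 2 G)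
    (hz : 𝐂⟮OZ 2 S⟯ ≤ M) (hJ : 𝐍⟮Jt 2 S⟯ ≤ M) :
    ∃ J₁ W₁ : Subgroup G, pCore 2 G ≤ J₁ ∧ ¬ Jt 2 S ≤ J₁ ∧
      OZ 2 (pCore 2 G) ⊓ 𝐂⟮Jt 2 S⟯ ≤ W₁ ∧ ¬ OZ 2 (pCore 2 G) ≤ W₁ ∧
      ∀ y ∈ Jt 2 S, ∀ w ∈ OZ 2 (pCore 2 G), ⁅w, y⁆ ∈ 𝐂⟮pResOf 2 (⊤ : Subgroup G)⟯ →
        y ∈ J₁ ∨ w ∈ W₁ := by
  haveI i0 := Transfer.omegaOneCenter_normal (p := 2) (pCore 2 G)
  obtain ⟨V, hVd⟩ : ∃ V, V = OZ 2 (pCore 2 G) := ⟨_, rfl⟩
  haveI : V.Normal := hVd ▸ i0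
  rw [← hVd]
  have hV : IsElementaryAbelian 2 V := hVd ▸ Transfer.ea_omegaOneCenter _
  have hO : pCore 2 G ≤ 𝐂⟮V⟯ := hVd ▸ Transfer.le_centralizer_omegaOneCenter _
  have hOS : pCore 2 G ≤ S := pCoreOf_top.ge.trans hS.pCoreOf_le
  have hVS : V ≤ S := (hVd ▸ omegaOneCenter_le _ : V ≤ pCore 2 G).trans hOS
  have hZ : OZ 2 S ≤ V := fun x hx => by
    obtain ⟨h1, h2, h3⟩ := mem_omegaOneCenter.1 hx
    rw [hVd]
    exact mem_omegaOneCenter.2 ⟨hG (cent_anti hOS h2), cent_anti hOS h2, h3⟩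
  have hc0 : 𝐂⟮V ⊓ 𝐂⟮S⟯⟯ ≤ M :=
    (cent_anti (le_inf hZ (omegaOneCenter_le_centralizer _))).trans hz
  have hcV : 𝐂⟮V⟯ ≤ M := (cent_anti inf_le_left).trans hc0
  have mp := minPar_hol hV hS h hO hc0
  obtain ⟨X₀, hX₀, hX₀V⟩ : ∃ X ∈ Transfer.MaxEA 2 S, ¬ X ≤ 𝐂⟮V⟯ := by
    by_contra e
    push Not at e
    have := (minIn_le_pCoreOf h hS.pgrp le_normalizer_of_normal hcV
      (hS.pgrp.to_le (jt_le _))
      (Transfer.thompsonSubgroupOf_le_iff.2 e)).trans pCoreOf_top.le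
    refine h.lt.not_ge (le_trans ?_ hJ)
    rw [← jt_eq_of_le this hOS]
    haveI := Transfer.thompsonSubgroupOf_normal (p := 2) (pCore 2 G)
    exact le_normalizer_of_normal
  obtain ⟨A, a0, m⟩ := exists_minOff_hol (Or.inr rfl) hV hS.pgrp hVS hX₀ hX₀V
  have hD := mp.tvSet (a0.trans (map_mono le_top)) m
  have hA : A ∈ {X | ∃ g ∈ (⊤ : Subgroup G).map (holRep V), cj g A = X} :=
    ⟨1, one_mem _, cj_one _⟩
  generalize {X | ∃ g ∈ (⊤ : Subgroup G).map (holRep V), cj g A = X} = D at hD hA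
  generalize Nat.card A = q at hD
  obtain ⟨st, -⟩ := mp.star hD hA
  have hAT : A ≤ S.map (holRep V) := a0.trans (map_mono hX₀.1)
  have hAJ : A ≤ (Jt 2 S).map (holRep V) :=
    a0.trans (map_mono (Transfer.le_thompsonSubgroupOf hX₀))
  obtain ⟨B, hB, hBM, hc⟩ := mp.exists_nc hD hA
  obtain ⟨g, -⟩ := st.good' hD hA (hAT.trans st.le) hB hBM hc
  have j1 : (Jt 2 S).map (holRep V) ≤ wJ D (S.map (holRep V)) := by
    rw [map_le_iff_le_comap, Transfer.thompsonSubgroupOf_le_iff]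
    intro X hX
    rw [← map_le_iff_le_comap]
    obtain ⟨x1, x2⟩ := off_hol hV hVS hX
    exact (mp.le_wJ hD hA (map_mono le_top) x1 x2).trans
      (sSup_le_sSup fun Z hZ => ⟨hZ.1, hZ.2.trans (map_mono hX.1)⟩)
  have j2 : wJ D (S.map (holRep V)) ≤ 𝐂⟮A⟯ :=
    wJ_le_iff.2 fun X hX hXT => st.comm hD hX hA hXT hAT
  have hAP := hD.le A hA
  have hLP : A ⊔ B ≤ (⊤ : Subgroup G).map (holRep V) := sup_le hAP (hD.le B hB)
  have eA : (A.comap (holRep V)).map (holRep V) = A :=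
    map_comap_eq_self (hAP.trans (map_le_range _ _))
  have key : ∀ w ∈ V, w ∈ 𝐂⟮A.comap (holRep V)⟯ ↔ holI V w ∈ 𝐂⟮A⟯ := fun w hw => by
    rw [← holI_mem_cent hw, eA]
  have hI : ∀ w ∈ V, holI V w ∈ holV V := fun w hw => by
    rw [← holImg_self]; exact (holI_mem hw).2 hw
  refine ⟨(𝐂⟮A ⊔ B⟯ ⊓ 𝐂⟮⁅holV V, A ⊔ B⁆⟯).comap (holRep V), 𝐂⟮A.comap (holRep V)⟯,
    fun x hx => ?_, fun e => hc ?_, fun w hw => ?_, fun e => ?_, fun y hy w hw hwy => ?_⟩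
  · rw [mem_comap, holRep_eq_one_iff.2 (hO hx)]; exact one_mem _
  · exact hAJ.trans ((map_le_iff_le_comap.2 e).trans (inf_le_left.trans (cent_anti le_sup_right)))
  · exact (key w hw.1).2 (cent_anti hAJ ((holI_mem_cent hw.1).2 hw.2))
  · have h1 : holV V ≤ 𝐂⟮A⟯ := fun x hx => by
      rw [← holImg_self] at hx
      obtain ⟨v, hv, -, rfl⟩ := exists_holI hx
      exact (key v hv).1 (e hv)
    have h2 := hD.idx hA
    rw [relIndex_eq_one.2 h1] at h2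
    have := hD.one_lt hA
    omega
  have hyW := j1 (mem_map_of_mem (holRep V) hy)
  obtain ⟨c, hcA, hd⟩ := st.exists_dec hD hA hAT hB hBM hc
    (mem_map_of_mem (holRep V) (jt_le S hy)) (j2 hyW)
  by_cases c1 : c = 1
  · left
    rw [c1, inv_one, one_mul] at hd
    exact hd
  right
  refine (key w hw).2 ((g.nat A hA le_sup_left).s2' hD.mod hAP (hD.tv A hA) hcA c1 (hI w hw) ?_)
  have hdP : c⁻¹ * holRep V y ∈ (⊤ : Subgroup G).map (holRep V) :=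
    mul_mem (inv_mem (hAP hcA)) (mem_map_of_mem _ (mem_top y))
  have hu : holRep V y * holI V w * (holRep V y)⁻¹ * (holI V w)⁻¹ ∈ 𝐂⟮A ⊔ B⟯ := by
    have u1 : holRep V y * holI V w * (holRep V y)⁻¹ * (holI V w)⁻¹ ∈ 𝐂⟮A⟯ :=
      cent_anti (Push.le_wJ hA hAT) (st.quad_wJ hD (comm_mem' (hI w hw) hyW)).2
    have hyw : y * w * y⁻¹ ∈ V := (inferInstance : V.Normal).conj_mem w hw y
    have hv : y * w * y⁻¹ * w⁻¹ ∈ V := mul_mem hyw (inv_mem hw)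
    have u2 : holRep V y * holI V w * (holRep V y)⁻¹ * (holI V w)⁻¹ =
        holI V (y * w * y⁻¹ * w⁻¹) := by
      rw [holI_conj y hw, mul_inv_eq_iff_eq_mul, ← holI_mul hv hw, inv_mul_cancel_right]
    have u3 : holI V (y * w * y⁻¹ * w⁻¹) ∈ 𝐂⟮(pResOf 2 (⊤ : Subgroup G)).map (holRep V)⟯ := by
      refine (holI_mem_cent hv).2 ?_
      have := inv_mem hwy
      rwa [commutatorElement_inv, commutatorElement_def] at this
    rw [map_pResOf, ← u2] at u3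
    intro x hx
    obtain ⟨e, he, a, ha, rfl⟩ := (syl_good g hD hA le_sup_left).exists_mul_eq hx
    have e1 := u3 e (pResOf_mono hLP he)
    have e2 := u1 a ha
    rw [mul_assoc e, e2, ← mul_assoc e, e1, mul_assoc]
  have hv := hI w hw
  generalize holI V w = v at hu hv ⊢
  have hy' : holRep V y = c * (c⁻¹ * holRep V y) := by group
  generalize c⁻¹ * holRep V y = d at hd hdP hy'
  rw [hy'] at hu
  have hn : zpowers d ≤ 𝐍⟮holV V⟯ := (zpowers_le.2 hdP).trans hD.mod.norm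
  have h1 : ⁅holV V, zpowers d⁆ ≤ holV V ⊓ 𝐂⟮A ⊔ B⟯ :=
    (comm_le_of_le_sup (W := holV V ⊓ 𝐂⟮A ⊔ B⟯) (H := ⁅holV V, A ⊔ B⁆) hn hD.mod.comm inf_le_left
      (le_cent_comm (zpowers_le.2 hd.2)) (g.dec.trans (sup_le
        (le_sup_of_le_right (le_inf (hD.mod.comm_le hLP) le_rfl)) le_sup_left))).trans
      (comm_le_left (le_normalizer_inf hn (le_normalizer_centralizer
        ((zpowers_le.2 hd.1).trans (centralizer_le_normalizer _)))))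
  have h2 := (h1 (comm_mem' hv (mem_zpowers d))).2
  have h3 : c * (d * v * d⁻¹ * v⁻¹) = (d * v * d⁻¹ * v⁻¹) * c := h2 c (mem_sup_left hcA)
  have h4 : c * v * c⁻¹ * v⁻¹ = (d * v * d⁻¹ * v⁻¹)⁻¹ * (c * d * v * (c * d)⁻¹ * v⁻¹) := by
    rw [eq_inv_mul_iff_mul_eq]
    calc d * v * d⁻¹ * v⁻¹ * (c * v * c⁻¹ * v⁻¹)
        = (d * v * d⁻¹ * v⁻¹ * c) * (v * c⁻¹ * v⁻¹) := by group
      _ = _ := by rw [← h3]; group
  rw [h4]
  exact cent_anti le_sup_right (mul_mem (inv_mem h2) hu)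

end Cfsg.Agent.Spc.Od
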