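import Cfsg.Agent.Spc.PuDef
import Cfsg.Agent.S2985

/-! The linear case of the pushing-up theorem for `p`-minimal groups. -/

namespace Cfsg.Agent.Spc.Pu

open Subgroup Cfsg.Agent.LocalEven Cfsg.Agent.PLocal Cfsg.Agent.Push Cfsg.Agent.BHS
open Cfsg.Agent.Glaub hiding cent_anti
open scoped commutatorElement MatrixGroups

universe u

theorem pl {p : ℕ} [Fact p.Prime] (hr : RB.{u} p) (ht : PT.{u} p) : PL.{u} p := by
  rintro G _ _ T M h ⟨L, K, r1, hK, hEK, hKL⟩
  have hLM : ¬ L ≤ M := fun e => r1.ab.min.lt.not_ge (le_inf le_rfl e)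
  have ro := hr G _ L _ _ r1.ab r1.cen fun W h1 h2 e => hLM (e.trans (h.nc W h1 h2))
  have hEL : pResOf p L ≤ L := pResOf_le L
  have nle : ¬ pResOf p L ≤ M := fun e => r1.ab.res_not_le (le_inf hEL e)
  have blk : IsBaumannBlock p T (pResOf p L) :=
    isBlock_iff.2 ⟨ro.bd, fun e => nle ((le_cent_of_comm_bot e).trans h.z)⟩
  refine ⟨pResOf p L, blk, ?_, nle, ?_, ?_, ht G T M L h.syl.pgrp r1 ro⟩
  · have hn : K ≤ 𝐍⟮pResOf p L⟯ := by
      refine hKL.trans (sup_le (le_normalizer_pResOf L) ?_)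
      rw [comm_V_eq h.cen h.syl blk]
      exact BHS.Bk.cent_le_norm h.cen (BHS.bt_of h.cen h.syl blk)
    exact Subgroup.IsSubnormal.step _ K hEK hK.isSubnormal
      (normal_subgroupOf_of_le_normalizer hn)
  · have hB : Bm p T ≠ ⊥ := fun e => r1.ab.not_le (e.le.trans bot_le)
    refine (le_inf (inf_le_right.trans hEL) inf_le_left).trans (r1.nrm.trans
      (le_trans ?_ le_sup_right))
    exact le_iSup (fun C : {C : Subgroup G // C ≤ Bm p T ∧ C ≠ ⊥ ∧
      (C.subgroupOf (Bm p T)).Characteristic} => Subgroup.normalizer ((C : Subgroup G) : Set G))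
      ⟨Bm p T, le_rfl, hB, by rw [subgroupOf_self]; infer_instance⟩
  · obtain ⟨Y, h1, -, h2, h3⟩ := ro.exY
    refine ⟨Y, h1, ((commutator_mono r1.vle le_rfl).trans h3).trans
      (ro.core.ge.trans (pCoreOf_le _)), fun e he hc => ?_⟩
    by_contra hM
    obtain ⟨a, ha, haT⟩ := SetLike.not_le_iff_exists.1 h2
    have hYL : Y ≤ L := h1.trans r1.ab.syl.le
    refine r1.ab.ti (h1 ha) haT (L.inv_mem (hEL he)) (fun k => hM (inv_mem_iff.1 k.2)) ?_
    exact cj_le_iff.1 (le_inf (cj_le_of_mem (hEL he) hYL) hc) ha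

end Cfsg.Agent.Spc.Pu
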