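import Cfsg.Agent.Spc.QDef
import Cfsg.Agent.Spc.PuMb

/-! From the key existence statement to the local `C*(G,T)`-theorem. -/

namespace Cfsg.Agent.Spc.Pu

open Subgroup Cfsg.Agent.LocalEven Cfsg.Agent.PLocal Cfsg.Agent.Push Cfsg.Agent.BHS
open Cfsg.Agent.Glaub hiding cent_anti
open scoped commutatorElement MatrixGroups

universe u

variable {G : Type u} [Group G] {p : ℕ}

theorem typ1_cj {T M E : Subgroup G} (g : G) (h : Typ1 p T M E) :
    Typ1 p (cj g T) (cj g M) (cj g E) := by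
  have q := trQ (p := p) (cjEquiv g E)
  have s : ((M ⊓ E).subgroupOf E).map (cjEquiv g E : E →* cj g E) = (cj g M ⊓ cj g E).subgroupOf (cj g E) := by
    ext x
    obtain ⟨x, rfl⟩ := (cjEquiv g E).surjective x
    rw [← cj_inf]
    exact (mem_map_iff_mem (cjEquiv g E).injective).trans
      (conj_mem_cj_iff (g := g) (x := x) (H := M ⊓ E)).symm
  rcases h with ⟨F, _, _, m, a1, a2, ⟨a3⟩, a4⟩ | ⟨a1, m, ⟨a2⟩, ⟨a3⟩⟩ | ⟨a1, ⟨a2⟩, a3⟩
  · exact Or.inl ⟨F, _, _, m, a1, a2, ⟨q.symm.trans a3⟩, by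
      rw [← cj_inf, a4, ← cj_inf, ← cj_normalizer, ← cj_inf]⟩
  · refine Or.inr (Or.inl ⟨a1, m, ⟨q.symm.trans a2⟩, ?_⟩)
    rw [← s, ← tr_sub]
    exact ⟨(equivMapOfInjective _ _ (trQ (p := p) (cjEquiv g E)).injective).symm.trans a3⟩
  · refine Or.inr (Or.inr ⟨a1, ⟨q.symm.trans a2⟩, ?_⟩)
    rw [← s, ← tr_sub, a3]
    ext x
    obtain ⟨x, rfl⟩ := (trQ (p := p) (cjEquiv g E)).surjective x
    refine (mem_map_iff_mem (trQ (p := p) (cjEquiv g E)).injective).trans ?_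
    exact (MulEquivClass.apply_mem_center_iff _).symm

theorem gb1_res {T M E : Subgroup G} (hS : cStarOf p T ≤ M) (h : GB1 p T M E) :
    GB1 p T (cStarOf p T) E := by
  have e : M ⊓ E = cStarOf p T ⊓ E := le_antisymm (le_inf h.star inf_le_right) (inf_le_inf_right _ hS)
  obtain ⟨Y, h1, h2, h3⟩ := h.sep
  refine ⟨h.blk, h.sub, fun k => h.nle (k.trans hS), inf_le_left,
    ⟨Y, h1, h2, fun x hx k => h.star ⟨h3 x hx (k.trans hS), hx⟩⟩, ?_⟩
  have := h.typ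
  unfold Typ1 at this ⊢
  rwa [e] at this

theorem gb1_cj [Finite G] [Fact p.Prime] (hG : 𝐂⟮pCore p G⟯ ≤ pCore p G) (T : Sylow p G) {E : Subgroup G}
    {t : G} (ht : t ∈ cStarOf p (T : Subgroup G)) (h : GB1 p T (cStarOf p (T : Subgroup G)) E) :
    GB1 p T (cStarOf p (T : Subgroup G)) (cj t E) := by
  have e2 := cj_eq_of_mem ht
  have e3 := cj_eq_of_mem (inv_mem ht)
  have hs := isSubnormal_cj t h.sub
  haveI : (OZ p (pCore p G)).Normal := normalizer_eq_top_iff.1 (top_le_iff.1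
    (le_normalizer_of_normal.trans (normalizer_le_normalizer_omegaOneCenter (pCore p G))))
  refine ⟨(S2987.result hG _ ⟨t • T, by rw [sylow_smul_coe]; exact blk_cj t h.blk⟩ hs).2.2.1 T, hs,
    fun k => h.nle (by rwa [cj_le_iff, e3] at k), inf_le_left, ?_, ?_⟩
  · obtain ⟨Y, h1, h2, h3⟩ := h.sep
    refine ⟨cj t Y, le_inf (cj_le_of_mem_normalizer (Bk.bg_norm t) (h1.trans inf_le_left))
      (cj_le_of_mem ht (h1.trans inf_le_right)), ?_, fun e he k => ?_⟩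
    · rw [← cj_eq_of_normal t (OZ p (pCore p G)), ← cj_commutator]; exact cj_mono _ h2
    · obtain ⟨e, he', rfl⟩ := mem_cj'.1 he
      rw [cj_cj, inv_mul_cancel_right, cj_mul, cj_le_iff, e3] at k
      exact mul_mem (mul_mem ht (h3 e he' k)) (inv_mem ht)
  · have k := typ1_cj t h.typ
    rw [e2] at k
    refine k.imp_left fun ⟨F, _, _, m, a1, a2, a3, a4⟩ => ⟨F, _, _, m, a1, a2, a3, ?_⟩
    have s1 := sylow_inf_subnormal T hs
    have s2 := sylow_inf_subnormal (t • T) hs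
    rw [sylow_smul_coe] at s2
    have n : (T : Subgroup G) ⊓ cj t E ≤ 𝐍⟮cj t T ⊓ cj t E⟯ :=
      ((inf_le_inf_right _ mb_le).trans a4.le).trans inf_le_right
    have pg := LocalEven.isPGroup_sup s1.pgrp s2.pgrp n
    have k1 := s1.max _ (sup_le inf_le_right inf_le_right) pg le_sup_left
    have k2 := s2.max _ (sup_le inf_le_right inf_le_right) pg le_sup_right
    rw [a4, ← k1, k2]

theorem mq_inf [Finite G] {M C : Subgroup G} {𝓑 : Set (Subgroup G)}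
    (hc : ∀ E ∈ 𝓑, ∀ E' ∈ 𝓑, E ≠ E' → ⁅E, E'⁆ = ⊥) (hC : ∀ E ∈ 𝓑, C ≤ 𝐂⟮E⟯)
    (h : ∀ E ∈ 𝓑, ∀ e ∈ E, ∀ c ∈ sSup (𝓑 \ {E}) ⊔ C, e * c ∈ M → e ∈ M) :
    M ⊓ (sSup 𝓑 ⊔ C) ≤ (M ⊓ sSup 𝓑) ⊔ (M ⊓ C) := by
  have key : ∀ 𝓐 : Set (Subgroup G), 𝓐.Finite → 𝓐 ⊆ 𝓑 → M ⊓ (sSup 𝓐 ⊔ C) ≤ (M ⊓ sSup 𝓑) ⊔ (M ⊓ C) := by
    intro 𝓐 hf
    induction 𝓐, hf using Set.Finite.induction_on with
    | empty => simp
    | @insert E 𝓐 hE _ ih =>
      intro hs x ⟨hx, hx'⟩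
      have hEB : E ∈ 𝓑 := hs (Set.mem_insert _ _)
      have hA : 𝓐 ⊆ 𝓑 \ {E} := fun F hF => ⟨hs (Set.mem_insert_of_mem _ hF), fun k => hE (k ▸ hF)⟩
      have n : E ≤ 𝐍⟮sSup 𝓐 ⊔ C⟯ := by
        refine le_trans ?_ (centralizer_le_normalizer _)
        rw [le_centralizer_iff]
        exact sup_le (sSup_le fun F hF => commutator_eq_bot_iff_le_centralizer.1
          (hc F (hA hF).1 E hEB (hA hF).2)) (hC E hEB)
      rw [sSup_insert, sup_assoc] at hx'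
      obtain ⟨e, he, c, hc', rfl⟩ := (mem_sup_iff_of_le_normalizer n).1 hx'
      have k := h E hEB e he c (sup_le_sup_right (sSup_le_sSup hA) _ hc') hx
      refine mul_mem (mem_sup_left ⟨k, le_sSup hEB he⟩) (ih (fun F hF => (hA hF).1) ⟨?_, hc'⟩)
      simpa using mul_mem (inv_mem k) hx
  exact key 𝓑 (Set.toFinite _) le_rfl

theorem main1 [Fact p.Prime] (h : KEY.{u} p)
    {G : Type u} [Group G] [Finite G] (hG : Subgroup.centralizer (Cfsg.pCore p G : Set G) ≤ Cfsg.pCore p G) (T : Sylow p G) (hne : Cfsg.cStarOf p (T : Subgroup G) ≠ ⊤) : ∃ 𝓑 : Set (Subgroup G), Cfsg.HasBaumannBlockStructure p (T : Subgroup G) 𝓑 := by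
  have hT := LocalEven.isSylowIn_top T
  set S := cStarOf p (T : Subgroup G) with hS
  have TS : (T : Subgroup G) ≤ S := mb_le
  have z : 𝐂⟮OZ p (T : Subgroup G)⟯ ≤ S := le_sup_left
  have nc : Gn.NC (Bm p (T : Subgroup G)) S := fun W h1 h2 => by
    refine le_trans ?_ le_sup_right
    exact le_iSup (fun C : {C : Subgroup G // C ≤ Bm p (T : Subgroup G) ∧ C ≠ ⊥ ∧
      (C.subgroupOf (Bm p (T : Subgroup G))).Characteristic} => 𝐍⟮(C : Subgroup G)⟯)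
      ⟨W.map (Subgroup.subtype _), map_subtype_le W,
        fun k => h1 ((map_eq_bot_iff_of_injective _ (subtype_injective _)).1 k),
        by rwa [map_subtype_subgroupOf]⟩
  let 𝓑 : Set (Subgroup G) := {E | GB1 p (T : Subgroup G) S E}
  have gb : ∀ A ∈ 𝓑, GB1 p (T : Subgroup G) S A := fun A hA => hA
  have b3 : ∀ E ∈ 𝓑, ∀ E' ∈ 𝓑, E ≠ E' → ⁅E, E'⁆ = ⊥ := fun A hA B hB k =>
    (S2986.result hG A B ⟨T, hA.blk⟩ ⟨T, hB.blk⟩ hA.sub hB.sub).resolve_left k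
  have nS : S ≤ 𝐍⟮sSup 𝓑⟯ := le_normalizer_of_cj_le fun g hg => by
    rw [cj_le_iff]
    exact sSup_le fun A hA => by rw [← cj_le_iff]; exact le_sSup (gb1_cj hG T hg hA)
  have top : S ⊔ sSup 𝓑 = ⊤ := by
    by_contra k
    obtain ⟨E, hE⟩ := h G T _ ⟨hT, TS.trans le_sup_left, k, hG,
      fun W h1 h2 => (nc W h1 h2).trans le_sup_left, z.trans le_sup_left⟩
    exact hE.nle ((le_sSup (gb1_res le_sup_left hE)).trans le_sup_right)
  haveI nD : (sSup 𝓑).Normal := normalizer_eq_top_iff.1 (top_le_iff.1 (top.ge.trans (sup_le nS le_normalizer)))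
  have dE : ∀ E ∈ 𝓑, sSup 𝓑 ≤ 𝐍⟮E⟯ := fun E hEB => sSup_le fun A hA => by
    by_cases k : A = E
    · rw [k]; exact le_normalizer
    · exact (commutator_eq_bot_iff_le_centralizer.1 (b3 A hA E hEB k)).trans (centralizer_le_normalizer _)
  have b2 : ∀ E ∈ 𝓑, ∀ g : G, cj g E ∈ 𝓑 := fun E hE g => by
    obtain ⟨t, ht, d, hd, rfl⟩ := (mem_sup_iff_of_le_normalizer nS).1 (top.ge (mem_top g))
    rw [cj_mul, cj_eq_of_mem_normalizer (dE E hE hd)]
    exact gb1_cj hG T ht hE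
  haveI nV : (OZ p (pCore p G)).Normal := normalizer_eq_top_iff.1 (top_le_iff.1
    (le_normalizer_of_normal.trans (normalizer_le_normalizer_omegaOneCenter (pCore p G))))
  let N := (pCore p (G ⧸ 𝐂⟮OZ p (pCore p G)⟯)).comap (QuotientGroup.mk' _)
  have NM : N ≤ S := by
    have k := LocalEven.normal_le_sylow inferInstance (isPGroup_pCore (p := p) (G := G ⧸ 𝐂⟮OZ p (pCore p G)⟯))
      (T.mapSurjective (QuotientGroup.mk'_surjective _))
    refine (comap_mono k).trans ?_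
    rw [Sylow.coe_mapSurjective, comap_map_eq, QuotientGroup.ker_mk']
    exact sup_le TS ((Push.cent_anti (oz_le_oz_core hG hT)).trans z)
  have hV : IsPGroup p (OZ p (pCore p G)) := isPGroup_pCore.to_le (omegaOneCenter_le _)
  have hC : ∀ E ∈ 𝓑, 𝐂⟮sSup 𝓑⟯ ≤ 𝐂⟮E⟯ := fun E hE => Push.cent_anti (le_sSup hE)
  have key : ∀ A ∈ 𝓑, ∀ e ∈ A, ∀ c ∈ sSup (𝓑 \ {A}) ⊔ 𝐂⟮sSup 𝓑⟯, e * c ∈ S → e ∈ S := fun A hA e he c hc k => by
    obtain ⟨Y, y1, y2, y3⟩ := (gb A hA).sep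
    have c1 : sSup (𝓑 \ {A}) ⊔ 𝐂⟮sSup 𝓑⟯ ≤ centMod Y N := by
      refine sup_le (sSup_le fun B hB => ?_) ?_
      · refine le_centMod.2 ⟨le_normalizer_of_normal, mb_sep hV hB.1.sub ((y1.trans inf_le_left).trans
          (S2987.result hG B ⟨T, hB.1.blk⟩ hB.1.sub).2.1) (y2.trans ?_)⟩
        exact commutator_eq_bot_iff_le_centralizer.1 (b3 A hA B hB.1 fun k => hB.2 k.symm)
      · exact le_centMod.2 ⟨le_normalizer_of_normal, mb_sep hV (Normal.isSubnormal inferInstance)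
          le_normalizer_of_normal (y2.trans (le_centralizer_iff.1 (hC A hA)))⟩
    refine y3 e he (cj_le_iff'.2 fun y hy => ?_)
    have k1 := NM (Normal.conj_mem inferInstance _ ((c1 hc).2 y hy) e)
    have k2 : e * c * y * (e * c)⁻¹ ∈ S := mul_mem (mul_mem k (y1 hy).2) (inv_mem k)
    convert mul_mem k1 k2 using 1
    simp only [commutatorElement_def]; group
  have b6 := mb_inf (M := S) b3 fun A hA e he c hc k => key A hA e he c (mem_sup_left hc) k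
  have b7 := mq_inf (M := S) b3 hC key
  have zS : sSup 𝓑 ⊓ 𝐂⟮sSup 𝓑⟯ ≤ S := by
    have f3 : ⁅⁅pCore p G, sSup 𝓑 ⊓ 𝐂⟮sSup 𝓑⟯⁆, sSup 𝓑 ⊓ 𝐂⟮sSup 𝓑⟯⁆ = ⊥ :=
      commutator_eq_bot_iff_le_centralizer.2 (((commutator_le_right _ _).trans inf_le_right).trans
        (Push.cent_anti inf_le_left))
    exact (LocalEven.normal_le_sylow inferInstance (isPGroup_of_pResOf_le isPGroup_pCore
      ((pResOf_le_centralizer_of_quadratic isPGroup_pCore le_normalizer_of_normal f3).trans hG)) T).trans TS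
  have cS : 𝐂⟮sSup 𝓑⟯ ≤ S := fun c hc => by
    obtain ⟨m, hm, d, hd, rfl⟩ := (mem_sup_iff_of_le_normalizer nS).1 (top.ge (mem_top c))
    have k : m ∈ S ⊓ (sSup 𝓑 ⊔ 𝐂⟮sSup 𝓑⟯) := ⟨hm, by
      simpa using mul_mem (mem_sup_right hc) (mem_sup_left (inv_mem hd))⟩
    obtain ⟨a, ha, b, hb, rfl⟩ := (mem_sup_iff_of_le_normalizer
      (le_normalizer_inf (inf_le_left.trans le_normalizer) le_normalizer_of_normal)).1 (b7 k)
    have k3 : a * d ∈ 𝐂⟮sSup 𝓑⟯ := by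
      have := mul_mem (Normal.conj_mem inferInstance _ (inv_mem (mem_inf.1 hb).2) a) hc
      convert this using 1
      group
    have k2 : a * d ∈ S := zS (mem_inf.2 ⟨mul_mem (mem_inf.1 ha).2 hd, k3⟩)
    exact mul_mem hm (by simpa using mul_mem (inv_mem (mem_inf.1 ha).1) k2)
  refine ⟨𝓑, fun A hA => (gb A hA).blk, b2, b3, top, fun F hF k => ?_,
    le_antisymm b6 (iSup₂_le fun A hA => inf_le_inf_left _ (le_sSup hA)), fun A hA => (gb A hA).typ⟩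
  by_contra k2
  refine k (le_trans (le_centralizer_iff.1 (sSup_le fun A hA => ?_)) cS)
  rw [← commutator_eq_bot_iff_le_centralizer, commutator_comm]
  exact ((S2987.result hG A ⟨T, hA.blk⟩ hA.sub).2.2.2 F ⟨T, hF⟩).resolve_left fun k => k2 ⟨A, hA, k⟩

end Cfsg.Agent.Spc.Pu
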