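import Mathlib
import Cfsg.Agent.Spc.SC

/-!
Schreier-Sims certificates and invariant spaces of functions.
-/

set_option autoImplicit false

namespace Cfsg.Agent.Spc.SC

open Comp Spec

/-- check with witnesses -/
noncomputable def lall2 {α β : Type} (p : α → β → Bool) (l : List α) : List β → Bool :=
  @List.rec α (fun _ => List β → Bool) (fun _ => true)
    (fun a _ ih m => @List.rec β (fun _ => Bool) false (fun b m' _ => band (p a b) (ih m')) m) l

theorem lall2_spec {α β : Type} {p : α → β → Bool} {l : List α} {m : List β} (h : lall2 p l m = true) :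
    ∀ a ∈ l, ∃ b, p a b = true := by
  induction l generalizing m with
  | nil => simp
  | cons a l ih =>
    cases m with
    | nil => exact absurd h Bool.false_ne_true
    | cons b m =>
      have h1 := (band_eq _ _).1 (show band (p a b) (lall2 p l m) = true from h)
      exact List.forall_mem_cons.2 ⟨⟨b, h1.1⟩, ih h1.2⟩

/-- bounded check -/
noncomputable def allN (p : Nat → Bool) (n : Nat) : Bool :=
  @Nat.rec (fun _ => Bool) true (fun k ih => band (p k) ih) n

theorem allN_spec {p : ℕ → Bool} {n : ℕ} (h : allN p n = true) : ∀ i < n, p i = true := by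
  induction n with
  | zero => simp
  | succ n ih =>
    have h1 := (band_eq _ _).1 (show band (p n) (allN p n) = true from h)
    exact fun i hi => (Nat.lt_succ_iff.1 hi).eq_or_lt.elim (· ▸ h1.1) (ih h1.2 i)

/-- a level of a Schreier-Sims certificate -/
structure Lev where
  n : ℕ
  t : List ℕ
  p : List (ℕ × ℕ)
  U : List ℕ
  I : List ℕ
  S : List ℕ
  q : List (ℕ × ℕ)

/-- the generators of the next level -/
noncomputable def Lev.base (e : Lev) : Bool :=
  run e.n e.p e.t fun t' => band (mapF (nth (pack id e.n) t') e.U fun U => frc (pack id e.n) (memB U))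
    (mapF (nth (pack id e.n) t') e.I fun I => lall (memB I) e.S)

/-- the Schreier generators -/
noncomputable def Lev.step (e : Lev) (s : Nat) (V : List Nat) (cs : List (Nat × Nat)) : Bool :=
  run e.n e.p e.t fun t' => mapF (nth (pack id e.n) t') e.U fun U => run e.n e.q e.S fun P =>
    lall2 (fun i c => frc (nth (pack id e.n) t' i) fun u => frc (nth (pack id e.n) U c.1) fun v =>
      frc (nth (pack id e.n) P c.2) fun h =>
        allN (fun x => Nat.beq (ap s (ap u x)) (ap v (ap h x))) e.n) V cs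

/-- all cosets at once -/
noncomputable def Cert.cosAll (C : Cert) : Bool :=
  run C.n C.p C.t fun t => lvF (nth (pack id C.n) t) C.lv fun lv => frc (pack id C.n) fun e =>
    lall (fun r => frc (nth (pack id C.n) t r) fun c => loop C.n C.bs C.L lv e c) C.R

theorem Cert.cos_of (C : Cert) (h : C.cosAll = true) : ∀ r ∈ C.R, C.cos r = true := by
  simpa only [Cert.cosAll, Cert.cos, run_eq, lvF_eq, frc_eq, lall_eq] using h

section
variable {G : Type*} [Group G] (φ : G →* Equiv.Perm ℕ) (n : ℕ)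

/-- the group generated by tables -/
def cl (t : List ℕ) : Subgroup G := Subgroup.closure {g | ∃ c ∈ t, Cd φ n g c}

variable {φ n} (hb : ∀ g, φ g ∈ Bd n) (hi : Function.Injective φ) (hn : n ≤ 1024)

theorem gd_cl {t : List ℕ} (h : ∀ c ∈ t, Gd φ n c) : ∀ c ∈ t, Gd (φ.comp (cl φ n t).subtype) n c := fun c hc =>
  (h c hc).elim fun g hg => ⟨⟨g, Subgroup.subset_closure ⟨c, hc, hg⟩⟩, hg⟩

theorem card_cl_nil : Nat.card (cl φ n []) = 1 := by simp [cl]

include hi in
theorem Lev.card_le [Finite G] (e : Lev) (hb : ∀ g, φ g ∈ Bd e.n) (hn : e.n ≤ 1024) (ht : ∀ c ∈ e.t, Gd φ e.n c)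
    (h1 : e.base = true) (h2 : ∀ s ∈ e.t, ∀ i ∈ e.U, ∃ V cs, i ∈ V ∧ e.step s V cs = true) :
    (∀ c ∈ e.S, Gd φ e.n c) ∧ Nat.card (cl φ e.n e.t) ≤ e.U.length * Nat.card (cl φ e.n e.S) := by
  simp only [Lev.base, Lev.step, run_eq, mapF_eq, band_eq, frc_eq, lall_eq] at h1 h2
  have hg := gd_nth hn (gd_slp (φ := φ.comp (cl φ e.n e.t).subtype) (fun g => hb g) hn e.p (gd_cl ht))
  generalize nth (pack id e.n) (slp e.n e.p e.t) = f at h1 h2 hg
  have hS : ∀ c ∈ e.S, ∃ g ∈ cl φ e.n e.t, Cd φ e.n g c := fun c hc => by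
    obtain ⟨i, -, rfl⟩ := List.mem_map.1 (memB_spec (h1.2 c hc))
    exact (hg i).elim fun g h => ⟨g, g.2, h⟩
  have hS' : ∀ c ∈ e.S, Gd φ e.n c := fun c hc => (hS c hc).imp fun g h => h.2
  have h3 := gd_nth hn (gd_slp (φ := φ.comp (cl φ e.n e.S).subtype) (fun g => hb g) hn e.q (gd_cl hS'))
  have hH : cl φ e.n e.S ≤ cl φ e.n e.t := (Subgroup.closure_le _).2 fun g ⟨c, hc, h⟩ => by
    obtain ⟨g', h', h''⟩ := hS c hc
    rwa [h.eq hb hi h'']
  refine ⟨hS', ?_⟩
  generalize cl φ e.n e.S = H at h3 hH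
  choose u hu using hg
  have key : ∀ g ∈ cl φ e.n e.t, ∃ i ∈ e.U, ∃ y ∈ H, g = u i * y := fun g hg => by
    replace hg : g ∈ Submonoid.closure _ := Subgroup.closure_toSubmonoid_of_finite.le hg
    induction hg using Submonoid.closure_induction_left with
    | one =>
      obtain ⟨i, h4, h5⟩ := List.mem_map.1 (memB_spec h1.1)
      exact ⟨i, h4, 1, one_mem _, by rw [mul_one]; exact (cd_one hn).eq hb hi (h5 ▸ hu i)⟩
    | mul_left s hs _ _ ih =>
      obtain ⟨a, ha, hs⟩ := hs
      obtain ⟨i, h4, y, hy, rfl⟩ := ih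
      obtain ⟨V, cs, h5, h6⟩ := h2 a ha i h4
      obtain ⟨d, h8⟩ := lall2_spec h6 i h5
      obtain ⟨z, hz⟩ := h3 d.2
      obtain ⟨j, h9, h10⟩ := List.mem_map.1 ((nth_mem (pack id e.n) (e.U.map f) d.1).elim
        (fun h => by rw [h]; exact memB_spec h1.1) id)
      refine ⟨j, h9, z * y, mul_mem z.2 hy, ?_⟩
      rw [← mul_assoc, ← mul_assoc, mul_left_inj]
      refine Cd.eq hb hi (hs.comp hb (hu i)) fun x hi => ?_
      rw [SC.comp, (ap_pack fun k _ => ap_lt _ _).2 x hi, Nat.eq_of_beq_eq_true (allN_spec h8 x hi), map_mul,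
        Equiv.Perm.mul_apply, ← h10, ← hz x hi]
      exact hu j _ (Bd.lt (hb _) hi)
  have := Nat.card_le_card_of_surjective (fun x : Fin e.U.length × H =>
    (u (e.U.get x.1) * ⟨x.2, hH x.2.2⟩ : cl φ e.n e.t)) fun g => by
      obtain ⟨c, hc, y, hy, e⟩ := key g g.2
      obtain ⟨i, rfl⟩ := List.get_of_mem hc
      exact ⟨⟨i, y, hy⟩, Subtype.ext e.symm⟩
  rwa [Nat.card_prod, Nat.card_eq_fintype_card (α := Fin _), Fintype.card_fin] at this

include hi in
theorem Cert.card_ge [Finite G] (C : Cert) (hb : ∀ g, φ g ∈ Bd C.n) (hn : C.n ≤ 1024) (ht : ∀ c ∈ C.t, Gd φ C.n c)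
    (h1 : C.str = true) : C.U.length * (C.lv.map fun e => e.2.length).prod ≤ Nat.card G := by
  simp only [Cert.str, run_eq, lvF_eq, band_eq, List.map_cons] at h1
  have hg := gd_nth hn (gd_slp hb hn C.p ht)
  refine le_trans (by simp [Function.comp_def]) ((card_prods hb hi h1.1 fun e he c hc => ?_).trans
    (Set.ncard_le_card _))
  simp only [List.mem_cons, List.mem_map] at he
  rcases he with rfl | ⟨a, -, rfl⟩ <;> obtain ⟨i, -, rfl⟩ := List.mem_map.1 hc <;> exact hg i

end

instance finite_Bd (n : ℕ) : Finite (Bd n) :=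
  Finite.of_injective (fun g (i : Fin n) => (⟨g.1 i, Bd.lt g.2 i.2⟩ : Fin n)) fun g h e => Subtype.ext
    (Equiv.ext fun i => if hi : i < n then congrArg Fin.val (congrFun e ⟨i, hi⟩) else
      (g.2 i (not_lt.1 hi)).trans (h.2 i (not_lt.1 hi)).symm)

/-- `c` and `d` are inverse tables -/
noncomputable def invB (n c d : Nat) : Bool :=
  allN (fun x => band (Nat.blt (ap c x) n) (Nat.beq (ap d (ap c x)) x)) n

theorem gd_of_invB {n c d : ℕ} (h1 : invB n c d = true) (h2 : invB n d c = true) : Gd (Bd n).subtype n c := by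
  have k1 := fun i hi => (band_eq _ _).1 (allN_spec h1 i hi)
  have k2 := fun i hi => (band_eq _ _).1 (allN_spec h2 i hi)
  simp only [Nat.blt_eq, Nat.beq_eq] at k1 k2
  refine ⟨⟨⟨fun i => if i < n then ap c i else i, fun i => if i < n then ap d i else i, fun i => ?_, fun i => ?_⟩,
    fun i hi => if_neg (not_lt.2 hi)⟩, fun i hi => if_pos hi⟩ <;> by_cases hi : i < n <;> simp [hi, k1, k2]

/-- the group of a list of tables -/
abbrev Gp (n : ℕ) (t : List ℕ) := cl (Bd n).subtype n t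

/-- its action -/
def act (n : ℕ) (t : List ℕ) : Gp n t →* Equiv.Perm ℕ := (Bd n).subtype.comp (Gp n t).subtype

theorem act_bd {n : ℕ} {t : List ℕ} (g : Gp n t) : act n t g ∈ Bd n := g.1.2

theorem act_inj {n : ℕ} {t : List ℕ} : Function.Injective (act n t) :=
  Subtype.val_injective.comp Subtype.val_injective

theorem gd_bd {n : ℕ} {t t' : List ℕ} (h : lall2 (fun c d => band (invB n c d) (invB n d c)) t t' = true) :
    ∀ c ∈ t, Gd (Bd n).subtype n c :=
  fun c hc => (lall2_spec h c hc).elim fun _ h => gd_of_invB ((band_eq _ _).1 h).1 ((band_eq _ _).1 h).2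

theorem Cert.spec_gp (C : Cert) (ht : ∀ c ∈ C.t, Gd (Bd C.n).subtype C.n c) {N : ℕ}
    (h0 : Nat.card (Gp C.n C.t) ≤ N) (h1 : C.str = true) (h2 : C.cosAll = true)
    (hc : N = C.U.length * (C.lv.map fun e => e.2.length).prod)
    (h3 : C.n ≤ 1024 ∧ 0 ∉ C.L ∧ (∀ r ∈ C.R, r ∈ C.U) ∧ (∀ e ∈ C.W, e.2 ≠ 0) ∧ ∀ m ∈ C.L, ∃ e ∈ C.W, m ∣ e.2) :
    Nat.card (Gp C.n C.t) = N ∧ Spec.spec (Gp C.n C.t) = {m | m ∈ C.L} :=
  have h : Nat.card (Gp C.n C.t) = N := le_antisymm h0 (hc ▸ C.card_ge act_inj act_bd h3.1 (gd_cl ht) h1)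
  ⟨h, C.spec act_bd act_inj (gd_cl ht) h1 (C.cos_of h2) (h.trans hc) h3⟩

/-- iterates -/
noncomputable def pwN (c m x : Nat) : Nat := @Nat.rec (fun _ => Nat) x (fun _ ih => ap c ih) m

theorem Cd.orderOf_eq {n : ℕ} {t : List ℕ} {g : Gp n t} {c m x : ℕ} (hg : Cd (act n t) n g c)
    (h1 : allN (fun y => Nat.beq (pwN c m y) y) n = true) (h2 : x < n ∧ 0 < m ∧ ∀ k < m, 0 < k → pwN c k x ≠ x) :
    orderOf g = m := by
  have key : ∀ k, ∀ i < n, act n t (g ^ k) i = pwN c k i := fun k i hi => by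
    induction k with
    | zero => rfl
    | succ k ih => rw [pow_succ', map_mul, Equiv.Perm.mul_apply, hg _ (Bd.lt (act_bd _) hi), ih]; rfl
  refine (orderOf_eq_iff h2.2.1).2 ⟨act_inj (Equiv.ext fun i => ?_), fun k hk h0 h => ?_⟩
  · by_cases hi : i < n
    · exact (key m i hi).trans (Nat.eq_of_beq_eq_true (allN_spec h1 i hi))
    · exact act_bd _ i (not_lt.1 hi)
  · exact h2.2.2 k hk h0 (by rw [← key k x h2.1, h, map_one]; rfl)

/-- the function of a table -/
def fn (n c : ℕ) : ℕ → ZMod 2 := fun x => if x < n then ap c x else 0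

/-- sum of a list of functions -/
noncomputable def lc (B l : List Nat) : Nat :=
  @List.rec Nat (fun _ => Nat) (nat_lit 0)
    (fun i _ ih => frcN ih fun y => frcN (nth (nat_lit 0) B i) fun a => Nat.xor a y) l

/-- norm -/
noncomputable def nrm (n c m : Nat) : Nat → Nat :=
  @Nat.rec (fun _ => Nat → Nat) (fun _ => nat_lit 0)
    (fun _ ih f => frcN (comp n f c) fun y => frcN (ih y) fun z => Nat.xor f z) m

/-- invariance check -/
noncomputable def invW (n : Nat) (B : List Nat) (s : Nat) (ce : List (List Nat)) : Bool :=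
  lall2 (fun f l => Nat.beq (comp n f s) (lc B l)) B ce

variable {n : ℕ}

theorem fn_zero : fn n 0 = 0 := by ext x; simp [fn, ap_eq]

theorem fn_comp {g : Equiv.Perm ℕ} (hb : g ∈ Bd n) {c : ℕ} (hg : ∀ i < n, g i = ap c i) (f x : ℕ) :
    fn n (comp n f c) x = fn n f (g x) := by
  by_cases hx : x < n
  · rw [fn, fn, if_pos hx, if_pos (Bd.lt hb hx), SC.comp, (ap_pack fun k _ => ap_lt _ _).2 x hx, hg x hx]
  · rw [hb x (not_lt.1 hx), fn, fn, if_neg hx, if_neg hx]

/-- the span -/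
def sp (n : ℕ) (B : List ℕ) : Submodule (ZMod 2) (ℕ → ZMod 2) := Submodule.span _ {f | ∃ c ∈ B, f = fn n c}

instance finite_sp (B : List ℕ) : Finite (sp n B) :=
  haveI : Module.Finite (ZMod 2) (sp n B) := Module.Finite.span_of_finite _
    (((List.finite_toSet B).image (fn n)).subset fun _ ⟨c, hc, e⟩ => ⟨c, hc, e.symm⟩)
  Module.finite_of_finite (ZMod 2)

theorem fn_ad (a b : ℕ) : fn n (Nat.xor a b) = fn n a + fn n b := by
  ext x
  by_cases hx : x < n
  · have : ∀ c, ((ap c x : ℕ) : ZMod 2) = (c.testBit (10 * x)).toNat := fun c => by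
      rw [ap_eq, Nat.toNat_testBit, ZMod.natCast_mod, ZMod.natCast_eq_natCast_iff']
      omega
    simp only [fn, Pi.add_apply, if_pos hx, this]
    rw [show Nat.xor a b = a ^^^ b from rfl, Nat.testBit_xor]
    cases a.testBit (10 * x) <;> cases b.testBit (10 * x) <;> rfl
  · simp [fn, hx]

theorem fn_lc (B l : List ℕ) : fn n (lc B l) ∈ sp n B := by
  induction l with
  | nil => exact fn_zero (n := n) ▸ zero_mem _
  | cons i l ih =>
    rw [show lc B (i :: l) = frcN (lc B l) fun y => frcN (nth 0 B i) fun a => Nat.xor a y from rfl, frcN_eq,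
      frcN_eq, fn_ad]
    refine add_mem ?_ ih
    rcases nth_mem 0 B i with h | h
    · rw [h, fn_zero]; exact zero_mem _
    · exact Submodule.subset_span ⟨_, h, rfl⟩

theorem fn_nrm {g : Equiv.Perm ℕ} (hb : g ∈ Bd n) {c : ℕ} (hg : ∀ i < n, g i = ap c i) (m f x : ℕ) :
    fn n (nrm n c m f) x = ∑ j ∈ Finset.range m, fn n f ((g ^ j) x) := by
  induction m generalizing f with
  | zero => exact congrFun fn_zero x
  | succ m ih =>
    rw [show nrm n c (m + 1) f = frcN (comp n f c) fun y => frcN (nrm n c m y) fun z => Nat.xor f z from rfl,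
      frcN_eq, frcN_eq, fn_ad, Pi.add_apply, ih, Finset.sum_range_succ', add_comm]
    simp only [fn_comp hb hg, pow_succ', Equiv.Perm.mul_apply, pow_zero, Equiv.Perm.one_apply]

theorem sp_inv {t B : List ℕ} (h : ∀ s ∈ t, ∃ ce, invW n B s ce = true) (g : Gp n t) :
    ∀ f ∈ sp n B, f ∘ act n t g ∈ sp n B := by
  obtain ⟨g, hg⟩ := g
  change ∀ f ∈ sp n B, f ∘ g.1 ∈ sp n B
  replace hg : g ∈ Submonoid.closure _ := Subgroup.closure_toSubmonoid_of_finite.le hg
  induction hg using Submonoid.closure_induction with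
  | one => exact fun f hf => hf
  | mul a b _ _ ha hb => exact fun f hf => hb _ (ha f hf)
  | mem g hg =>
    obtain ⟨s, hs, hg⟩ := hg
    obtain ⟨ce, h1⟩ := h s hs
    intro f hf
    refine (show sp n B ≤ (sp n B).comap (LinearMap.funLeft _ _ g.1) from Submodule.span_le.2 ?_) hf
    rintro _ ⟨c, hc, rfl⟩
    obtain ⟨l, h2⟩ := lall2_spec h1 c hc
    have := fn_lc (n := n) B l
    rw [← Nat.eq_of_beq_eq_true h2, funext (fn_comp g.2 hg c)] at this
    exact this

/-- the action on an invariant space -/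
@[reducible] def spAct {t B : List ℕ} (h : ∀ g : Gp n t, ∀ f ∈ sp n B, f ∘ act n t g ∈ sp n B) :
    DistribMulAction (Gp n t) (sp n B) where
  smul g f := ⟨f.1 ∘ act n t g⁻¹, h _ _ f.2⟩
  one_smul f := rfl
  mul_smul a b f := Subtype.ext (funext fun x => congrArg f.1 (by simp))
  smul_zero _ := rfl
  smul_add _ _ _ := rfl

theorem nm_apply {t B : List ℕ} (h : ∀ g : Gp n t, ∀ f ∈ sp n B, f ∘ act n t g ∈ sp n B) (g : Gp n t) (m : ℕ)
    (f : sp n B) (x : ℕ) : letI := spAct h
    (Aff.nm g⁻¹ m f).1 x = ∑ j ∈ Finset.range m, f.1 ((act n t g ^ j) x) := by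
  letI := spAct h
  simp only [Aff.nm, Submodule.coe_sum, Finset.sum_apply]
  exact Finset.sum_congr rfl fun j _ => congrArg f.1 (by simp)

theorem nm_zero {t B : List ℕ} (h : ∀ g : Gp n t, ∀ f ∈ sp n B, f ∘ act n t g ∈ sp n B) {g : Gp n t} {c m : ℕ}
    (hg : Cd (act n t) n g c) (h1 : lall (fun f => Nat.beq (nrm n c m f) (nat_lit 0)) B = true) (f : sp n B) :
    letI := spAct h
    Aff.nm g⁻¹ m f = 0 := by
  refine Subtype.ext (funext fun x => (nm_apply h g m f x).trans ?_)
  obtain ⟨f, hf⟩ := f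
  induction hf using Submodule.span_induction with
  | zero => simp
  | add a b _ _ ha hb => simp_all [Finset.sum_add_distrib]
  | smul c a _ ha => simp_all [← Finset.mul_sum]
  | mem _ hf =>
    obtain ⟨a, ha, rfl⟩ := hf
    rw [← fn_nrm (act_bd g) hg, Nat.eq_of_beq_eq_true ((lall_eq _ _).1 h1 a ha)]
    exact congrFun fn_zero x

theorem fpf_of_sylow {K V : Type*} [Group K] [Finite K] [AddCommGroup V] [DistribMulAction K V] {r : ℕ}
    [hr : Fact r.Prime] (hc : ¬ r ^ 2 ∣ Nat.card K) {x : K} (hx : orderOf x = r) (h : ∀ v : V, x • v = v → v = 0)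
    {y : K} (hy : orderOf y = r) (v : V) (hv : y • v = v) : v = 0 := by
  have h1 : ∀ z : K, orderOf z = r → ∃ P : Sylow r K, (P : Subgroup K) = Subgroup.zpowers z := fun z hz =>
    ⟨(IsPGroup.of_card (G := Subgroup.zpowers z) (n := 1) (by rw [Nat.card_zpowers, hz, pow_one])).toSylow fun h => hc (by
      rw [← (Subgroup.zpowers z).card_mul_index, Nat.card_zpowers, hz, pow_two]
      exact Nat.mul_dvd_mul_left _ h), rfl⟩
  obtain ⟨P, hP⟩ := h1 x hx
  obtain ⟨Q, hQ⟩ := h1 y hy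
  obtain ⟨g, rfl⟩ := MulAction.exists_smul_eq K Q P
  have h2 : x ∈ ((g • Q : Sylow r K) : Subgroup K) := hP ▸ Subgroup.mem_zpowers x
  rw [Sylow.coe_subgroup_smul, hQ] at h2
  obtain ⟨z, hz, e⟩ := h2
  have h3 : z • v = v := (Subgroup.zpowers_le_of_mem (H := MulAction.stabilizer K v) hv) hz
  have := h (g • v) (by rw [← e]; simp [mul_smul, h3])
  exact (smul_eq_zero_iff_eq g).1 this

end Cfsg.Agent.Spc.SC
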