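import Mathlib
import Cfsg.Agent.Spc.SCSzD

/-!
The group `Sz(8):3` on 455 points.
-/

set_option autoImplicit false
set_option maxRecDepth 100000

namespace Cfsg.Agent.Spc.SC.Sz

theorem ti_ok : lall2 (fun c d => Comp.band (invB C.n c d) (invB C.n d c)) C.t ti = true := by decide +kernel

theorem str_ok : C.str = true := by decide +kernel

theorem cos_ok : C.cosAll = true := by decide +kernel

end Cfsg.Agent.Spc.SC.Sz
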