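import Mathlib
import Cfsg.Agent.Spc.SCSzA
import Cfsg.Agent.Spc.SCSzB
import Cfsg.Agent.Spc.SCSzC
import Cfsg.Agent.Spc.SCSzE

/-!
The group `Sz(8):3` on 455 points.
-/

set_option autoImplicit false
set_option maxRecDepth 100000

namespace Cfsg.Agent.Spc.SC.Sz

theorem steps0 : ∀ s ∈ lev0.t, ∀ i ∈ lev0.U, ∃ V cs, i ∈ V ∧ lev0.step s V cs = true :=
  List.forall_mem_cons.2 ⟨fun _ h => ⟨_, _, h, step0_0⟩, List.forall_mem_cons.2 ⟨fun _ h => ⟨_, _, h, step0_1⟩, by simp⟩⟩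

theorem spec_K : Nat.card (Gp C.n C.t) = 87360 ∧ Spec.spec (Gp C.n C.t) = {m | m ∈ [1, 2, 3, 4, 5, 6, 7, 12, 13, 15]} := by
  have h0 := lev0.card_le Subtype.val_injective (fun g => g.2) (by decide) (gd_bd ti_ok) base0 steps0
  have h1 := lev1.card_le Subtype.val_injective (fun g => g.2) (by decide) h0.1 base1 steps1
  exact C.spec_gp (gd_bd ti_ok) (h0.2.trans ((Nat.mul_le_mul_left _ (h1.2.trans
    (Nat.mul_le_mul_left _ card_cl_nil.le))).trans (by decide +kernel))) str_ok cos_ok (by decide +kernel)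
    (by decide +kernel)

end Cfsg.Agent.Spc.SC.Sz
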