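import Mathlib
import Cfsg.Agent.PGrp.Comm
import Cfsg.Agent.PGrp.Basic
import Cfsg.Agent.Transfer.SylowConj

/-! Camina `p`-groups with a fixed-point-free automorphism of primitive prime order. -/

set_option autoImplicit false

namespace Cfsg.Agent.Spc.Vn

open Subgroup Cfsg.Agent.PGrp
open scoped commutatorElement

variable {G : Type*} [Group G] [Finite G] {p k : ℕ} {S D : Subgroup G}

/-- a Camina configuration of `p`-subgroups -/
structure PC (p k : ℕ) (S D : Subgroup G) : Prop where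
  pg : IsPGroup p S
  le : D ≤ S
  idx : D.relIndex S = p ^ k
  k0 : 0 < k
  com : ∀ a ∈ S, ∀ b ∈ S, ⁅a, b⁆ ∈ D
  pw : ∀ a ∈ S, a ^ p ∈ D
  cen : ∀ x ∈ S, x ∉ D → Nat.card (centralizer ({x} : Set G)) = p ^ k
  cam : ∀ x ∈ S, x ∉ D → ∀ d ∈ D, ∃ s ∈ S, s * x * s⁻¹ = x * d

omit [Finite G] in
theorem comm_pow {g u : G} (h : Commute g ⁅g, u⁆) (n : ℕ) : ⁅g ^ n, u⁆ = ⁅g, u⁆ ^ n := by
  induction n with
  | zero => simp
  | succ n ih =>
    have : ⁅g ^ (n + 1), u⁆ = g * ⁅g ^ n, u⁆ * g⁻¹ * ⁅g, u⁆ := by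
      simp only [commutatorElement_def, pow_succ']; group
    rw [this, ih, (h.pow_right n).eq, mul_inv_cancel_right, pow_succ]

theorem fix [Fact p.Prime] {U V : Subgroup G} {ρ : G} {r : ℕ} (hr : r.Prime) (hρ : orderOf ρ = r) (hrp : r ≠ p)
    (hpp : ∀ i, 0 < i → i < k → ¬ r ∣ p ^ i - 1) (hU : IsPGroup p U) (hn : ρ ∈ normalizer (U : Set G))
    (hV : V ≤ U ⊓ centralizer {ρ}) (hc : Nat.card U < p ^ k * Nat.card V) : U ≤ centralizer {ρ} := by
  have := Fact.mk hr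
  have hp : p.Prime := Fact.out
  have h1 := Transfer.card_modEq_card_inf_centralizer (q := r) (A := zpowers ρ) (Q := U)
    (IsPGroup.of_card (n := 1) (by rw [Nat.card_zpowers, hρ, pow_one])) (zpowers_le.mpr hn)
  rw [centralizer_zpowers] at h1
  obtain ⟨a, ha⟩ := IsPGroup.iff_card.mp hU
  obtain ⟨b, hb⟩ := IsPGroup.iff_card.mp (hU.to_le (inf_le_left : U ⊓ centralizer {ρ} ≤ U))
  have h2 : Nat.card V ≤ p ^ b := hb ▸ card_le_of_le hV
  have h3 : b ≤ a := (Nat.pow_le_pow_iff_right hp.one_lt).mp (ha ▸ hb ▸ card_le_of_le inf_le_left)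
  have h4 : a < k + b := (Nat.pow_lt_pow_iff_right hp.one_lt).mp (by
    rw [← ha, pow_add]; exact hc.trans_le (Nat.mul_le_mul_left _ h2))
  obtain ⟨i, rfl⟩ := Nat.exists_eq_add_of_le h3
  rw [ha, hb] at h1
  have h5 : r ∣ p ^ b * (p ^ i - 1) := by
    rw [Nat.mul_sub, ← pow_add, mul_one]
    exact (Nat.modEq_iff_dvd' (Nat.pow_le_pow_right hp.pos (by omega))).mp h1.symm
  have h6 : i = 0 := by
    by_contra h
    rcases (Nat.Prime.dvd_mul hr).mp h5 with h7 | h7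
    · exact hrp ((Nat.prime_dvd_prime_iff_eq hr hp).mp (hr.dvd_of_dvd_pow h7))
    · exact hpp i (by omega) (by omega) h7
  subst h6
  exact inf_eq_left.mp (eq_of_le_of_card_le inf_le_left (by rw [ha, hb]; rfl))

namespace PC

variable [hp : Fact p.Prime] (h : PC p k S D)
include h

omit [Finite G] hp in
theorem nrm : S ≤ normalizer (D : Set G) := le_normalizer_of_commutator_le (N := D) le_rfl
  (commutator_le.mpr fun a i b j => h.com a (h.le i) b j)

theorem ex : ∃ x ∈ S, x ∉ D := by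
  by_contra! o
  have := h.idx
  rw [relIndex_eq_one.mpr o] at this
  exact (Nat.one_lt_pow h.k0.ne' hp.out.one_lt).ne this

omit hp in
theorem lt {x : G} (hx : x ∈ S) (hD : x ∉ D) {U : Subgroup G} (h1 : U ≤ D) (h2 : U ≤ centralizer {x}) :
    Nat.card U < p ^ k := by
  rw [← h.cen x hx hD]
  exact card_lt_of_lt (lt_of_le_of_ne h2 fun e => hD (h1 (e.ge (mem_centralizer_singleton_iff.mpr rfl))))

theorem ltZ : Nat.card ↥(D ⊓ centralizer (S : Set G)) < p ^ k := by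
  obtain ⟨x, hx, hD⟩ := h.ex
  exact h.lt hx hD inf_le_left (inf_le_right.trans (centralizer_le (by simpa)))

theorem ord_of_cen (h2 : p ≠ 2) (hc : D ≤ centralizer (S : Set G)) : ∃ y ∈ S, y ∉ D ∧ y ^ p = 1 := by
  have c : ∀ a ∈ S, ∀ d ∈ D, Commute a d := fun a i d j => hc j a i
  let φ : S →* G := MonoidHom.mk' (fun s => (s : G) ^ p) fun a b => by
    refine mul_pow_of_commute_of_odd (hp.out.odd_of_ne_two h2) (c _ a.2 _ (h.com _ b.2 _ a.2))
      (c _ b.2 _ (h.com _ b.2 _ a.2)) ?_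
    rw [← comm_pow (c _ b.2 _ (h.com _ b.2 _ a.2))]
    exact commutatorElement_eq_one_iff_commute.mpr (c _ a.2 _ (h.pw _ b.2)).symm
  by_contra! o
  have a : φ.ker ≤ D.subgroupOf S := fun s i => by_contra fun j => o s s.2 j i
  have b : φ.range ≤ D ⊓ centralizer (S : Set G) := by
    rintro _ ⟨s, rfl⟩
    exact ⟨h.pw _ s.2, hc (h.pw _ s.2)⟩
  have d := Nat.le_of_dvd (Nat.pos_of_ne_zero index_ne_zero_of_finite) (index_dvd_of_le a)
  rw [index_ker] at d
  have e : p ^ k ≤ _ := h.idx.ge.trans (d.trans (card_le_of_le b))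
  exact h.ltZ.not_ge e

theorem cen_of (hu : ∀ u ∈ D, (∀ s ∈ S, ⁅s, u⁆ ∈ D ⊓ centralizer (S : Set G)) → u ∈ centralizer (S : Set G)) :
    D ≤ centralizer (S : Set G) := by
  by_contra o
  obtain ⟨u, u1, u2, u3⟩ := exists_central_mod_of_nilpotent (N := D ⊓ centralizer (S : Set G)) h.pg.isNilpotent h.le h.nrm
    fun i => o (i.trans inf_le_right)
  exact u2 ⟨u1, hu u u1 fun s i => commutator_symm_mem (u3 s i)⟩

theorem cen_two (hk : k = 2) : D ≤ centralizer (S : Set G) := by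
  subst hk
  refine h.cen_of fun u u1 u2 => by_contra fun o => ?_
  set Z := D ⊓ centralizer (S : Set G) with hZ
  have small : ∀ U : Subgroup G, U ≤ S → ∀ j, Nat.card U < p ^ (j + 1) → Nat.card U ≤ p ^ j := fun U i j l => by
    obtain ⟨a, ha⟩ := IsPGroup.iff_card.mp (h.pg.to_le i)
    rw [ha] at l ⊢
    exact Nat.pow_le_pow_right hp.out.pos (Nat.lt_succ_iff.mp ((Nat.pow_lt_pow_iff_right hp.out.one_lt).mp l))
  have z1 := small Z (inf_le_left.trans h.le) 1 h.ltZ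
  have z2 := (relIndex_centralizer_singleton_le u2).trans z1
  obtain ⟨x, x1, x2, x3⟩ : ∃ x ∈ S, x ∈ centralizer ({u} : Set G) ∧ x ∉ D := by
    by_contra! j
    have a : (centralizer ({u} : Set G)).subgroupOf S ≤ D.subgroupOf S := fun s i => j s s.2 i
    have d := Nat.le_of_dvd (Nat.pos_of_ne_zero index_ne_zero_of_finite) (index_dvd_of_le a)
    have e : p ^ 2 ≤ p ^ 1 := h.idx.ge.trans (d.trans z2)
    exact absurd ((Nat.pow_le_pow_iff_right hp.out.one_lt).mp e) (by omega)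
  have a : Z ⊔ zpowers u ≤ D := sup_le inf_le_left (zpowers_le.mpr u1)
  have b := small _ (a.trans h.le) 1 (h.lt x1 x3 a (sup_le (inf_le_right.trans (centralizer_le (by simpa)))
    (zpowers_le.mpr (mem_centralizer_singleton_iff.mpr (mem_centralizer_singleton_iff.mp x2).symm))))
  have c : Z < Z ⊔ zpowers u := lt_of_le_of_ne le_sup_left fun e => o (e.ge (mem_sup_right (mem_zpowers u))).2
  have d := small Z (inf_le_left.trans h.le) 0 ((card_lt_of_lt c).trans_le b)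
  rw [pow_zero] at d
  have e : Z = ⊥ := card_le_one_iff_eq_bot _ |>.mp d
  exact o fun s i => commutatorElement_eq_one_iff_mul_comm.mp (mem_bot.mp (e.le (u2 s i)))

theorem cen_rho {ρ : G} {r : ℕ} (hr : r.Prime) (hρ : orderOf ρ = r) (hrp : r ≠ p)
    (hpp : ∀ i, 0 < i → i < k → ¬ r ∣ p ^ i - 1) (hS : ρ ∈ normalizer (S : Set G)) (hD : ρ ∈ normalizer (D : Set G))
    (hf : ∀ x ∈ S, ⁅ρ, x⁆ ∈ D → x ∈ D) : D ≤ centralizer (S : Set G) := by
  refine h.cen_of fun u u1 u2 => ?_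
  set Z := D ⊓ centralizer (S : Set G) with hZ
  have zc : ∀ z ∈ Z, ∀ s ∈ S, Commute s z := fun z i s j => i.2 s j
  have nZ : ρ ∈ normalizer (Z : Set G) := mem_normalizer_of_conj_mem fun z i => ⟨conj_mem_of_mem_normalizer hD i.1,
    fun s j => by
      have := (zc z i _ (conj_mem_of_mem_normalizer' hS j)).eq
      calc s * (ρ * z * ρ⁻¹) = ρ * (ρ⁻¹ * s * ρ * z) * ρ⁻¹ := by group
        _ = ρ * z * ρ⁻¹ * s := by rw [this]; group⟩
  have z1 : Z ≤ centralizer {ρ} := fix (V := ⊥) hr hρ hrp hpp (h.pg.to_le (inf_le_left.trans h.le)) nZ bot_le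
    (by rw [card_bot, mul_one]; exact h.ltZ)
  let W : Subgroup G :=
    { carrier := {w | w ∈ D ∧ ∀ s ∈ S, ⁅w, s⁆ ∈ Z}
      one_mem' := ⟨one_mem _, fun s _ => by simp [one_mem]⟩
      mul_mem' := fun {a b} i j => ⟨mul_mem i.1 j.1, fun s l => by
        have : ⁅a * b, s⁆ = a * ⁅b, s⁆ * a⁻¹ * ⁅a, s⁆ := by simp only [commutatorElement_def]; group
        rw [this, (zc _ (j.2 s l) a (h.le i.1)).eq, mul_inv_cancel_right]
        exact mul_mem (j.2 s l) (i.2 s l)⟩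
      inv_mem' := fun {a} i => ⟨inv_mem i.1, fun s l => by
        have : ⁅a⁻¹, s⁆ = a⁻¹ * ⁅a, s⁆⁻¹ * a := by simp only [commutatorElement_def]; group
        rw [this, (zc _ (inv_mem (i.2 s l)) _ (inv_mem (h.le i.1))).eq, inv_mul_cancel_right]
        exact inv_mem (i.2 s l)⟩ }
  have wD : W ≤ D := fun w i => i.1
  have nW : ρ ∈ normalizer (W : Set G) := mem_normalizer_of_conj_mem fun w i => ⟨conj_mem_of_mem_normalizer hD i.1,
    fun s j => by
      have : ⁅ρ * w * ρ⁻¹, s⁆ = ρ * ⁅w, ρ⁻¹ * s * ρ⁆ * ρ⁻¹ := by simp only [commutatorElement_def]; group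
      rw [this]
      exact conj_mem_of_mem_normalizer nZ (i.2 _ (conj_mem_of_mem_normalizer' hS j))⟩
  obtain ⟨x, hx, xD⟩ := h.ex
  have w1 : W ≤ centralizer {ρ} := fix (V := Z) hr hρ hrp hpp (h.pg.to_le (wD.trans h.le)) nW
    (le_inf (fun z i => ⟨i.1, fun s j => by
      rw [commutatorElement_eq_one_iff_commute.mpr (zc z i s j).symm]; exact one_mem _⟩) z1) (by
      rw [← card_inf_mul_relIndex (centralizer {x}) W]
      exact Nat.mul_lt_mul_of_lt_of_le (h.lt hx xD (inf_le_right.trans wD) inf_le_left)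
        (relIndex_centralizer_singleton_le fun w i => i.2 x hx) Nat.card_pos)
  have u3 : Commute ρ u := (mem_centralizer_singleton_iff.mp (w1 ⟨u1, fun s i => commutator_symm_mem (u2 s i)⟩)).symm
  have m : ∀ a ∈ S, ∀ b ∈ S, ⁅a * b, u⁆ = ⁅a, u⁆ * ⁅b, u⁆ := fun a i b j => by
    have : ⁅a * b, u⁆ = a * ⁅b, u⁆ * a⁻¹ * ⁅a, u⁆ := by simp only [commutatorElement_def]; group
    rw [this, (zc _ (u2 b j) a i).eq, mul_inv_cancel_right, (zc _ (u2 a i) _ (h.le (u2 b j).1)).eq]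
  have dC : ∀ d ∈ D, ⁅d, u⁆ = 1 := fun d i => by
    obtain ⟨s, s1, s2⟩ := h.cam x hx xD d i
    have a := m _ (mul_mem (mul_mem s1 hx) (inv_mem s1)) s s1
    rw [inv_mul_cancel_right, m s s1 x hx, s2, m x hx d (h.le i), (zc _ (u2 s s1) _ (h.le (u2 x hx).1)).symm.eq] at a
    simpa using a
  intro s s1
  have a : ∀ n : ℕ, (s * ρ) ^ n * (ρ ^ n)⁻¹ ∈ S := fun n => by
    induction n with
    | zero => simp
    | succ n ih =>
      have : (s * ρ) ^ (n + 1) * (ρ ^ (n + 1))⁻¹ = s * (ρ * ((s * ρ) ^ n * (ρ ^ n)⁻¹) * ρ⁻¹) := by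
        rw [pow_succ', pow_succ' ρ]; group
      rw [this]
      exact mul_mem s1 (conj_mem_of_mem_normalizer hS ih)
  have b : (s * ρ) ^ r ∈ S := by simpa [← hρ] using a r
  have c : (s * ρ) ^ r ∈ D := hf _ b (by
    have e := ((Commute.refl (s * ρ)).pow_right r).eq
    have : ⁅ρ, (s * ρ) ^ r⁆ = ⁅s⁻¹, (s * ρ) ^ r⁆ := by
      simp only [commutatorElement_def, inv_inv]
      generalize (s * ρ) ^ r = y at e
      calc ρ * y * ρ⁻¹ * y⁻¹ = s⁻¹ * (s * ρ * y) * ρ⁻¹ * y⁻¹ := by group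
        _ = _ := by rw [e]; group
    rw [this]
    exact h.com _ (inv_mem s1) _ b)
  have d : ⁅s * ρ, u⁆ = ⁅s, u⁆ := by
    simp only [commutatorElement_def, mul_inv_rev]
    calc s * ρ * u * (ρ⁻¹ * s⁻¹) * u⁻¹ = s * (ρ * u) * ρ⁻¹ * s⁻¹ * u⁻¹ := by group
      _ = _ := by rw [u3.eq]; group
  have e : ⁅s, u⁆ ^ r = 1 := by
    rw [← d, ← comm_pow, dC _ c]
    rw [d]
    exact (zc _ (u2 s s1) s s1).mul_left (mem_centralizer_singleton_iff.mp (z1 (u2 s s1))).symm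
  obtain ⟨j, f⟩ := h.pg ⟨_, h.le (u2 s s1).1⟩
  have f' : ⁅s, u⁆ ^ p ^ j = 1 := congrArg Subtype.val f
  exact commutatorElement_eq_one_iff_mul_comm.mp (orderOf_eq_one_iff.mp (Nat.eq_one_of_dvd_coprimes
    (((Nat.coprime_primes hr hp.out).mpr hrp).pow_right j) (orderOf_dvd_of_pow_eq_one e) (orderOf_dvd_of_pow_eq_one f')))

omit [Finite G] hp in
theorem ord_one (hk : k = 1) {x : G} (hx : x ∈ S) (hD : x ∉ D) : x ^ p = 1 := by
  have := h.cen x hx hD
  rw [hk, pow_one] at this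
  rw [← this]
  exact congrArg Subtype.val (pow_card_eq_one' (x := (⟨x, mem_centralizer_singleton_iff.mpr rfl⟩ :
    centralizer ({x} : Set G))))

end PC

end Cfsg.Agent.Spc.Vn
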