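import Mathlib
import Cfsg.Agent.Spc.VnA
import Cfsg.Agent.Char.Expand
import Cfsg.Agent.Core.Basic

/-! Groups whose derived subgroup is the union of the identity and one class, Camina outside. -/

set_option autoImplicit false

namespace Cfsg.Agent.Spc.Vn

open Subgroup Cfsg.Agent.PGrp
open scoped commutatorElement

variable {G : Type*} [Group G]

theorem ord_conj {a b : G} (h : IsConj a b) : orderOf a = orderOf b := by
  obtain ⟨c, rfl⟩ := isConj_iff.mp h
  exact ((MulAut.conj c).orderOf_eq a).symm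

theorem index_add [Finite G] {K M : Subgroup G} {g : G} (hl : K ≤ M) (h : ∀ x, IsConj g x ↔ x ∈ M ∧ x ∉ K) :
    (centralizer ({g} : Set G)).index + Nat.card K = Nat.card M := by
  rw [← Char.card_isConj]
  have := Set.ncard_diff_add_ncard_of_subset (s := (K : Set G)) (t := (M : Set G)) hl
  rw [← Nat.card_coe_set_eq, ← Nat.card_coe_set_eq, ← Nat.card_coe_set_eq] at this
  refine Eq.trans ?_ this
  congr 1
  exact Nat.card_congr (Equiv.subtypeEquivRight h)

theorem isPGroup_of_prime [Finite G] {p : ℕ} [Fact p.Prime] {U : Subgroup G}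
    (h : ∀ y ∈ U, (orderOf y).Prime → orderOf y = p) : IsPGroup p U := by
  refine IsPGroup.iff_card.mpr ⟨_, Nat.eq_prime_pow_of_unique_prime_dvd Nat.card_pos.ne' fun {q} i j => ?_⟩
  have := Fact.mk i
  obtain ⟨y, e⟩ := exists_prime_orderOf_dvd_card' q j
  rw [← orderOf_coe] at e
  exact e ▸ h y y.2 (e ▸ i)

/-- the configuration in the quotient by the kernel -/
structure QH (h : G) : Prop where
  mem : h ∈ commutator G
  ne : h ≠ 1
  cl : ∀ m ∈ commutator G, m ≠ 1 → IsConj h m
  cam : ∀ y, y ∉ commutator G → ∀ m ∈ commutator G, IsConj y (y * m)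

theorem cmem (a b : G) : ⁅a, b⁆ ∈ commutator G := commutator_mem_commutator (mem_top a) (mem_top b)

namespace QH

variable [Finite G] {h : G} (q : QH h)
include q

theorem prime : (orderOf h).Prime := by
  have := Fact.mk (Nat.minFac_prime (n := Nat.card (commutator G)) fun e =>
    q.ne (mem_bot.mp ((card_eq_one.mp e).le q.mem)))
  obtain ⟨x, e⟩ := exists_prime_orderOf_dvd_card' (G := commutator G) _ (Nat.minFac_dvd _)
  rw [ord_conj (q.cl x x.2 fun i => this.out.ne_one (by rw [← e, orderOf_eq_one_iff]; exact Subtype.ext i)),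
    orderOf_coe, e]
  exact this.out

omit [Finite G] in
theorem pw {m : G} (hm : m ∈ commutator G) : m ^ orderOf h = 1 := by
  by_cases e : m = 1
  · simp [e]
  · rw [ord_conj (q.cl m hm e), pow_orderOf_eq_one]

omit [Finite G] in
theorem pg : IsPGroup (orderOf h) (commutator G) := fun m => ⟨1, Subtype.ext (by simpa using q.pw m.2)⟩

theorem comm {a b : G} (ha : a ∈ commutator G) (hb : b ∈ commutator G) : Commute a b := by
  have := Fact.mk q.prime
  have : Nontrivial (commutator G) := (nontrivial_iff_ne_bot _).mpr fun e => q.ne (mem_bot.mp (e.le q.mem))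
  have := q.pg.center_nontrivial
  obtain ⟨⟨z, z1⟩, z2⟩ := exists_ne (1 : center (commutator G))
  have z3 : (z : G) ≠ 1 := fun e => z2 (Subtype.ext (Subtype.ext e))
  by_cases e : b = 1
  · simp [e]
  obtain ⟨c, rfl⟩ := isConj_iff.mp ((q.cl _ z.2 z3).symm.trans (q.cl b hb e))
  have := congrArg Subtype.val (mem_center_iff.mp z1 ⟨c⁻¹ * a * c, Normal.conj_mem' inferInstance a ha c⟩)
  simp only [coe_mul] at this
  calc a * (c * z * c⁻¹) = c * (c⁻¹ * a * c * z) * c⁻¹ := by group
    _ = _ := by rw [this]; group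

theorem le_cen : commutator G ≤ centralizer (commutator G : Set G) := fun _ i _ j => q.comm j i

theorem mem_cen {m y : G} (hm : m ∈ commutator G) (h1 : m ≠ 1) (e : Commute y m) :
    y ∈ centralizer (commutator G : Set G) := fun b hb => by
  by_cases o : b = 1
  · simp [o]
  obtain ⟨c, rfl⟩ := isConj_iff.mp ((q.cl _ hm h1).symm.trans (q.cl b hb o))
  have a := (e.mul_left (q.comm (cmem y⁻¹ c⁻¹) hm)).eq
  simp only [commutatorElement_def, inv_inv] at a
  calc c * m * c⁻¹ * y = c * (m * (y * (y⁻¹ * c⁻¹ * y * c))) * c⁻¹ := by group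
    _ = _ := by rw [← a]; group

theorem cen_eq {m : G} (hm : m ∈ commutator G) (h1 : m ≠ 1) :
    centralizer ({m} : Set G) = centralizer (commutator G : Set G) :=
  le_antisymm (fun _ i => q.mem_cen hm h1 (mem_centralizer_singleton_iff.mp i)) (centralizer_le (by simpa))

theorem pgC : IsPGroup (orderOf h) (centralizer (commutator G : Set G)) := by
  have := Fact.mk q.prime
  refine isPGroup_of_prime fun y i j => ?_
  by_cases o : y ∈ commutator G
  · exact (ord_conj (q.cl y o (by rintro rfl; simp at j; exact Nat.not_prime_one j))).symm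
  have a := pow_orderOf_eq_one (y * h)
  rw [← ord_conj (q.cam y o h q.mem), (show Commute y h from (i h q.mem).symm).mul_pow, pow_orderOf_eq_one, one_mul] at a
  exact ((Nat.prime_dvd_prime_iff_eq q.prime j).mp (orderOf_dvd_of_pow_eq_one a)).symm

theorem idx : (centralizer (commutator G : Set G)).index + 1 = Nat.card (commutator G) := by
  rw [← q.cen_eq q.mem q.ne, ← card_bot (G := G)]
  refine index_add bot_le fun x => ⟨fun i => ?_, fun i => q.cl x i.1 i.2⟩
  obtain ⟨c, rfl⟩ := isConj_iff.mp i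
  exact ⟨Normal.conj_mem inferInstance h q.mem c, fun e => q.ne (by simpa using e)⟩

theorem card : ∃ k, 0 < k ∧ Nat.card (commutator G) = orderOf h ^ k := by
  have := Fact.mk q.prime
  obtain ⟨k, e⟩ := IsPGroup.iff_card.mp q.pg
  refine ⟨k, Nat.pos_of_ne_zero ?_, e⟩
  rintro rfl
  exact q.ne (mem_bot.mp ((card_eq_one.mp e).le q.mem))

theorem ndvd : ¬ orderOf h ∣ (centralizer (commutator G : Set G)).index := fun i => by
  obtain ⟨k, k0, e⟩ := q.card
  have := q.idx
  exact q.prime.not_dvd_one ((Nat.dvd_add_right i).mp (this ▸ e ▸ dvd_pow_self _ k0.ne'))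

theorem cen_self (h2 : orderOf h ≠ 2) : centralizer (commutator G : Set G) = commutator G := by
  refine le_antisymm (fun y i => by_contra fun o => ?_) q.le_cen
  have := Fact.mk q.prime
  have n1 : (centralizer (commutator G : Set G)).index ≠ 1 := fun e => by
    obtain ⟨k, k0, f⟩ := q.card
    have := q.idx
    rw [e, f] at this
    exact h2 ((Nat.prime_dvd_prime_iff_eq q.prime Nat.prime_two).mp ((dvd_pow_self _ k0.ne').trans this.symm.dvd))
  have r := Fact.mk (Nat.minFac_prime n1)
  obtain ⟨ρ, e⟩ := exists_prime_orderOf_dvd_card' (G := G) _ ((Nat.minFac_dvd _).trans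
    (index_dvd_card (centralizer (commutator G : Set G))))
  have n2 : ρ ∉ centralizer (commutator G : Set G) := fun j => by
    obtain ⟨k, f⟩ := IsPGroup.iff_orderOf.mp q.pgC ⟨ρ, j⟩
    rw [← orderOf_coe, e] at f
    exact q.ndvd (((Nat.prime_dvd_prime_iff_eq r.out q.prime).mp (r.out.dvd_of_dvd_pow f.dvd)) ▸ Nat.minFac_dvd _)
  have fp : ∀ m ∈ commutator G, Commute ρ m → m = 1 := fun m j c => by_contra fun l => n2 (q.mem_cen j l c)
  have sj : Function.Surjective fun m : commutator G => (⟨⁅ρ, (m : G)⁻¹⁆, cmem _ _⟩ : commutator G) :=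
    Finite.surjective_of_injective fun a b l => by
      have l' : ⁅ρ, (a : G)⁻¹⁆ = ⁅ρ, (b : G)⁻¹⁆ := congrArg Subtype.val l
      simp only [commutatorElement_def, inv_inv] at l'
      refine Subtype.ext (mul_inv_eq_one.mp (fp _ (mul_mem a.2 (inv_mem b.2)) ?_))
      calc ρ * (a * (b : G)⁻¹) = ρ * a * ρ⁻¹ * (ρ * (b : G)⁻¹ * ρ⁻¹ * b) * (b : G)⁻¹ * ρ := by group
        _ = ρ * a * ρ⁻¹ * (ρ * (a : G)⁻¹ * ρ⁻¹ * a) * (b : G)⁻¹ * ρ := by rw [l']
        _ = _ := by group
  have dec : ∀ u : G, ∃ m ∈ commutator G, Commute ρ (m * u) := fun u => by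
    obtain ⟨m, l⟩ := sj ⟨_, cmem ρ u⟩
    have l' : ⁅ρ, (m : G)⁻¹⁆ = ⁅ρ, u⁆ := congrArg Subtype.val l
    simp only [commutatorElement_def, inv_inv] at l'
    refine ⟨m, m.2, ?_⟩
    calc ρ * (m * u) = ρ * m * ρ⁻¹ * (ρ * u * ρ⁻¹ * u⁻¹) * u * ρ := by group
      _ = ρ * m * ρ⁻¹ * (ρ * (m : G)⁻¹ * ρ⁻¹ * m) * u * ρ := by rw [l']
      _ = _ := by group
  obtain ⟨m, m1, m2⟩ := dec y
  have c1 : m * y ∈ centralizer (commutator G : Set G) := mul_mem (q.le_cen m1) i
  have c2 : ∀ u, Commute (m * y) u := fun u => by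
    obtain ⟨n, n1, n2⟩ := dec u
    have a := commutatorElement_eq_one_iff_commute.mp (fp _ (cmem (m * y) (n * u))
      (((m2.mul_right n2).mul_right m2.inv_right).mul_right n2.inv_right))
    simpa using (Commute.inv_right (show Commute (m * y) n from (c1 n n1).symm)).mul_right a
  obtain ⟨c, l⟩ := isConj_iff.mp (q.cam (m * y) (fun l => o (by simpa [mul_mem_cancel_left m1] using l)) h q.mem)
  rw [← (c2 c).eq, mul_inv_cancel_right] at l
  exact q.ne (by simpa using l)

theorem solv : Group.IsSolvable G := by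
  have := Fact.mk q.prime
  have := Core.solvable_of_isPGroup q.pg
  have : Group.IsSolvable (Abelianization G) := inferInstance
  exact Group.isSolvable_of_ker_le_range (commutator G).subtype (Abelianization.of) (by simp [Abelianization.ker_of])

end QH

end Cfsg.Agent.Spc.Vn
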